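import Cfsg.Agent.H460.Car.Even
import Cfsg.Agent.H18.Carter.Frame

/-!
# Theorem [U] in the form of the frame of the assembly (S3852, helper460)

`ExcOk` : the socles `PSL₂(3^odd)`, `²G₂(3^odd)` have the properties `H460.Car.Exc` (proved in `H460.Car.ExcOk`).
-/

set_option autoImplicit false
set_option linter.unusedSectionVars false
set_option linter.unusedVariables false

namespace Cfsg.Agent.H460.Car

open Subgroup Pointwise
open Cfsg Cfsg.Agent.Solvable.Carter Cfsg.Agent.H381.Car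
open Cfsg.Agent.H18.Carter (Ctx Ctx.of_carter NrAll IHr Nrm)
open Cfsg.Agent.SignalizersComponents
open Cfsg.Agent.KFacts.RgdFilt (HasFilt)

universe u

/-- the exceptional socles have the properties `H460.Car.Exc` -/
def ExcOk : Prop := ∀ (T : Type u) [Group T] [Finite T], IsSimpleGroup T → H18.Carter.Exc T → Exc T

variable {G : Type u} [Group G] [Finite G] {S : Subgroup G} [S.Normal]

theorem AS.of_ctx (c : Ctx G S) {K : Subgroup G} (hK : IsCarter K) : AS G S K :=
  ⟨inferInstance, c.simple, c.na, c.cen, c.min, hK, c.prod K hK⟩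

theorem even_of_ctx (hFT : FT.{u}) (c : Ctx G S) : 2 ∣ Nat.card S := by
  by_contra h
  rw [← even_iff_two_dvd, Nat.not_even_iff_odd] at h
  have h1 := hFT ↥S h
  have := c.simple
  exact c.na (IsSimpleGroup.comm_iff_isSolvable.2 h1)

theorem iht_of_ihr (hE : ExcOk.{u}) (IH : IHr G) : IHt.{u} (Nat.card G) := by
  intro B _ _ T R hB h hT
  have := h.normal
  have := h.simple
  exact IH B T (Ctx.of_carter h.simple h.na h.cen h.min h.carter h.prod) hB (fun h1 => hT (hE ↥T h.simple h1)) R h.carter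

/-- **[U]** -/
theorem nrAll_even (hFp : Fpf.{u}) (hFT : FT.{u}) (hE : ExcOk.{u}) (c : Ctx G S) (IH : IHr G) (hF : HasFilt 2 ↥S)
    (hOC : ∀ K : Subgroup G, IsCarter K → ∀ r : ℕ, r.Prime → r ≠ 2 → ∀ z ∈ S, z ∈ K → orderOf z = r →
      K ≤ centralizer ({z} : Set G) →
      2 ∣ Nat.card ↥(S ⊓ centralizer ({z} : Set G) : Subgroup G) ∨
      ∃ Y : Subgroup G, Y ≤ S ∧ Y ≠ ⊥ ∧ IsPGroup 2 Y ∧ K ≤ normalizer (Y : Set G)) : NrAll S := by
  intro K hK
  exact nrm_even (AS.of_ctx c hK) hF hFp hFT (iht_of_ihr hE IH) (hOC K hK)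

/-- **[U]**, with invariant `2`-subgroups for all Carter subgroups -/
theorem nrAll_of_inv (hFT : FT.{u}) (hE : ExcOk.{u}) (c : Ctx G S) (IH : IHr G) (hF : HasFilt 2 ↥S)
    (hY : ∀ K : Subgroup G, IsCarter K →
      ∃ Y : Subgroup G, Y ≤ S ∧ Y ≠ ⊥ ∧ IsPGroup 2 Y ∧ K ≤ normalizer (Y : Set G)) : NrAll S := by
  intro K hK
  exact nrm_of_two (AS.of_ctx c hK) hF hFT (iht_of_ihr hE IH) (hY K hK)

end Cfsg.Agent.H460.Car
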