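import Cfsg.Agent.FixBN.Split

/-!
# Quotients of parabolic subgroups of split (B,N)-pairs (S3852, helper460)

`hasSplit_quot` : `P` a split (B,N)-pair of characteristic `p` of `K`, `J` a non-empty set of distinguished
representatives, `f` a surjective homomorphism from the parabolic subgroup `P_J` whose kernel is the largest normal
subgroup of `P_J` in `B`: then the image of `f` has a split (B,N)-pair of characteristic `p`.
-/

set_option autoImplicit false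
set_option linter.unusedSectionVars false
set_option linter.unusedVariables false

namespace Cfsg.Agent.H460.Car.Par

open Cfsg Cfsg.Agent.FixBN Cfsg.Agent.Schreier.BNSch Subgroup

variable {K Q : Type*} [Group K] [Group Q] {P : BNPair K} {J : Set K}

/-- the image of a subgroup of `K` -/
def im (f : ↥(P.parabolic J) →* Q) (A : Subgroup K) : Subgroup Q := (A.subgroupOf (P.parabolic J)).map f

theorem mem_im {f : ↥(P.parabolic J) →* Q} {A : Subgroup K} {q : Q} :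
    q ∈ im f A ↔ ∃ x : ↥(P.parabolic J), (x : K) ∈ A ∧ f x = q := Iff.rfl

theorem im_mono (f : ↥(P.parabolic J) →* Q) {A A' : Subgroup K} (h : A ≤ A') : im f A ≤ im f A' := by
  rintro _ ⟨x, hx, rfl⟩
  exact ⟨x, h hx, rfl⟩

/-- the monomial subgroup of the parabolic subgroup -/
def NJ (P : BNPair K) (J : Set K) : Subgroup K := closure J ⊔ (P.B ⊓ P.N)

theorem B_le : P.B ≤ P.parabolic J := le_sup_left

theorem NJ_le : NJ P J ≤ P.parabolic J := sup_le le_sup_right (inf_le_left.trans B_le)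

theorem NJ_le_N (hJ : J ⊆ P.S) : NJ P J ≤ P.N :=
  sup_le ((closure_le _).2 (hJ.trans P.subset)) inf_le_right

theorem J_sub {s : K} (hs : s ∈ J) : s ∈ P.parabolic J := mem_sup_right (subset_closure hs)

theorem J_sub_NJ {s : K} (hs : s ∈ J) : s ∈ NJ P J := mem_sup_left (subset_closure hs)

theorem inf_le_NJ : P.B ⊓ P.N ≤ NJ P J := le_sup_right

section

variable (f : ↥(P.parabolic J) →* Q) (hker : ∀ x, f x = 1 → (x : K) ∈ P.B)

include hker in
theorem mem_B_of_im {x : ↥(P.parabolic J)} (h : f x ∈ im f P.B) : (x : K) ∈ P.B := by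
  obtain ⟨b, hb, hbx⟩ := h
  have h1 : f (b⁻¹ * x) = 1 := by rw [map_mul, map_inv, hbx, inv_mul_cancel]
  have h2 : (b : K)⁻¹ * (x : K) ∈ P.B := hker _ h1
  have hb' : (b : K) ∈ P.B := hb
  have h3 := mul_mem hb' h2
  rwa [mul_inv_cancel_left] at h3

include hker in
theorem exists_of_inf {t : Q} (ht : t ∈ im f P.B ⊓ im f (NJ P J)) :
    ∃ m : ↥(P.parabolic J), (m : K) ∈ P.B ∧ (m : K) ∈ NJ P J ∧ f m = t := by
  obtain ⟨h1, m, hm, rfl⟩ := ht
  exact ⟨m, mem_B_of_im f hker h1, hm, rfl⟩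

/-- **The quotient (B,N)-pair.** -/
def quot (hJ : J ⊆ P.S) (hf : Function.Surjective f) : BNPair Q where
  B := im f P.B
  N := im f (NJ P J)
  S := {q | ∃ x : ↥(P.parabolic J), (x : K) ∈ J ∧ f x = q}
  sup_eq_top := by
    have h1 : P.B.subgroupOf (P.parabolic J) ⊔ (NJ P J).subgroupOf (P.parabolic J) = ⊤ := by
      rw [← subgroupOf_sup B_le NJ_le, subgroupOf_eq_top]
      refine sup_le le_sup_left ?_
      exact (le_sup_left : closure J ≤ NJ P J).trans le_sup_right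
    show (P.B.subgroupOf (P.parabolic J)).map f ⊔ ((NJ P J).subgroupOf (P.parabolic J)).map f = ⊤
    rw [← Subgroup.map_sup, h1, map_top_of_surjective f hf]
  conj_mem := by
    rintro _ ⟨x, hx, rfl⟩ t ht
    obtain ⟨m, hmB, hmN, rfl⟩ := exists_of_inf f hker ht
    refine ⟨x * m * x⁻¹, ?_, by rw [map_mul, map_mul, map_inv]⟩
    exact P.conj_mem x (NJ_le_N hJ hx) m ⟨hmB, NJ_le_N hJ hmN⟩
  subset := by
    rintro _ ⟨x, hx, rfl⟩
    exact ⟨x, J_sub_NJ hx, rfl⟩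
  sq_mem := by
    rintro _ ⟨x, hx, rfl⟩
    exact ⟨x * x, P.sq_mem x (hJ hx), map_mul _ _ _⟩
  inj := by
    rintro _ ⟨x, hx, rfl⟩ _ ⟨y, hy, rfl⟩ h
    rw [← map_inv, ← map_mul] at h
    have h1 : (x : K)⁻¹ * (y : K) ∈ P.B := mem_B_of_im f hker h
    rw [Subtype.ext (P.inj x (hJ hx) y (hJ hy) h1)]
  closure_sup := by
    set S' : Set Q := {q | ∃ x : ↥(P.parabolic J), (x : K) ∈ J ∧ f x = q} with hS'
    apply le_antisymm
    · refine sup_le ((closure_le _).2 ?_) inf_le_right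
      rintro _ ⟨x, hx, rfl⟩
      exact ⟨x, J_sub_NJ hx, rfl⟩
    · have h1 : NJ P J ≤ ((closure S' ⊔ (im f P.B ⊓ im f (NJ P J))).comap f).map (P.parabolic J).subtype := by
        refine sup_le ((closure_le _).2 fun s hs => ?_) fun t ht => ?_
        · exact ⟨⟨s, J_sub hs⟩, mem_sup_left (subset_closure ⟨⟨s, J_sub hs⟩, hs, rfl⟩), rfl⟩
        · have h2 : t ∈ P.parabolic J := B_le ht.1
          exact ⟨⟨t, h2⟩, mem_sup_right ⟨⟨⟨t, h2⟩, ht.1, rfl⟩, ⟨⟨t, h2⟩, inf_le_NJ ht, rfl⟩⟩, rfl⟩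
      rintro _ ⟨x, hx, rfl⟩
      obtain ⟨y, hy, hyx⟩ := h1 hx
      have h2 : y = x := Subtype.ext hyx
      rw [← h2]
      exact hy
  mul_mem_union := by
    rintro _ ⟨x, hx, rfl⟩ _ ⟨y, hy, rfl⟩ _ ⟨c, hc, rfl⟩
    rcases P.mul_mem_union x (hJ hx) y (NJ_le_N hJ hy) c hc with h | h
    · left
      rw [DoubleCoset.mem_doubleCoset] at h ⊢
      obtain ⟨b1, h1, b2, h2, h3⟩ := h
      refine ⟨f ⟨b1, B_le h1⟩, ⟨⟨b1, B_le h1⟩, h1, rfl⟩, f ⟨b2, B_le h2⟩, ⟨⟨b2, B_le h2⟩, h2, rfl⟩, ?_⟩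
      rw [← map_mul, ← map_mul, ← map_mul, ← map_mul, ← map_mul]
      exact congrArg f (Subtype.ext h3)
    · right
      rw [DoubleCoset.mem_doubleCoset] at h ⊢
      obtain ⟨b1, h1, b2, h2, h3⟩ := h
      refine ⟨f ⟨b1, B_le h1⟩, ⟨⟨b1, B_le h1⟩, h1, rfl⟩, f ⟨b2, B_le h2⟩, ⟨⟨b2, B_le h2⟩, h2, rfl⟩, ?_⟩
      rw [← map_mul, ← map_mul, ← map_mul, ← map_mul]
      exact congrArg f (Subtype.ext h3)
  conj_ne := by
    rintro _ ⟨x, hx, rfl⟩ h
    apply P.conj_ne x (hJ hx)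
    ext c
    constructor
    · rintro ⟨b, hb, rfl⟩
      have h1 : f (x * ⟨b, B_le hb⟩ * x) ∈ im f P.B := by
        have h2 : f x * f ⟨b, B_le hb⟩ * f x ∈ ((im f P.B : Subgroup Q) : Set Q) := by
          rw [← h]
          exact ⟨f ⟨b, B_le hb⟩, ⟨⟨b, B_le hb⟩, hb, rfl⟩, rfl⟩
        rw [map_mul, map_mul]
        exact h2
      exact mem_B_of_im f hker h1
    · intro hc
      have h1 : f ⟨c, B_le hc⟩ ∈ ((im f P.B : Subgroup Q) : Set Q) := ⟨⟨c, B_le hc⟩, hc, rfl⟩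
      rw [← h] at h1
      obtain ⟨_, ⟨b, hb, rfl⟩, h2⟩ := h1
      have h3 : f x * f b * f x = f ⟨c, B_le hc⟩ := h2
      have h4 : f ((x * b * x)⁻¹ * ⟨c, B_le hc⟩) = 1 := by
        rw [map_mul, map_inv, map_mul, map_mul, h3, inv_mul_cancel]
      have h5 : f (x * ((x * b * x)⁻¹ * ⟨c, B_le hc⟩) * x⁻¹) = 1 := by
        rw [map_mul, map_mul, h4, mul_one, map_inv, mul_inv_cancel]
      have h6 := mul_mem hb (hker _ h5)
      refine ⟨_, h6, ?_⟩
      show (x : K) * ((b : K) * ((x : K) * (((x : K) * b * x)⁻¹ * c) * (x : K)⁻¹)) * x = c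
      group

/-- **The quotient is split.** -/
theorem split_quot {p : ℕ} {U : Subgroup K} (hS : Split P p U) (hJ : J ⊆ P.S) (hf : Function.Surjective f)
    (hmax : ∀ C : Subgroup ↥(P.parabolic J), C.Normal → C ≤ P.B.subgroupOf (P.parabolic J) → C ≤ f.ker) :
    Split (quot f hker hJ hf) p (im f U) where
  le := im_mono f hS.le
  norm := by
    rintro _ ⟨b, hb, rfl⟩ _ ⟨u, hu, rfl⟩
    exact ⟨b * u * b⁻¹, hS.norm b hb u hu, by rw [map_mul, map_mul, map_inv]⟩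
  isP := (hS.isP.comap_of_injective _ (P.parabolic J).subtype_injective).map f
  cover := by
    rintro _ ⟨b, hb, rfl⟩
    obtain ⟨u, hu, hun⟩ := hS.cover b hb
    have huP : u ∈ P.parabolic J := B_le (hS.le hu)
    refine ⟨f ⟨u, huP⟩, ⟨⟨u, huP⟩, hu, rfl⟩, ⟨⟨u, huP⟩⁻¹ * b, ?_, by rw [map_mul, map_inv]⟩⟩
    exact inf_le_NJ ⟨P.B.mul_mem (P.B.inv_mem (hS.le hu)) hb, hun⟩
  tor := by
    obtain ⟨m, hm, h1⟩ := hS.tor
    refine ⟨m, hm, fun t htB htN => ?_⟩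
    obtain ⟨y, hyB, hyN, rfl⟩ := exists_of_inf f hker ⟨htB, htN⟩
    rw [← map_pow]
    have h2 : y ^ m = 1 := Subtype.ext (h1 y hyB (NJ_le_N hJ hyN))
    rw [h2, map_one]
  node := by
    rintro _ ⟨x, hx, rfl⟩
    obtain ⟨V, hV⟩ := hS.node x (hJ hx)
    refine ⟨im f V, im_mono f hV.le, ?_, ?_, ?_, ?_⟩
    · obtain ⟨u, hu, huV⟩ := hV.ne
      have huP : u ∈ P.parabolic J := B_le (hS.le hu)
      refine ⟨f ⟨u, huP⟩, ⟨⟨u, huP⟩, hu, rfl⟩, ?_⟩
      rintro ⟨v, hv, hvu⟩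
      apply huV
      have h1 : f (v⁻¹ * ⟨u, huP⟩) = 1 := by rw [map_mul, map_inv, hvu, inv_mul_cancel]
      have h2 : f (x⁻¹ * (v⁻¹ * ⟨u, huP⟩) * x) = 1 := by
        rw [map_mul, map_mul, h1, mul_one, map_inv, inv_mul_cancel]
      have h3 := hV.stab ((v : K)⁻¹ * u) (mul_mem (inv_mem (hV.le hv)) hu) (hker _ h2)
      have hv' : (v : K) ∈ V := hv
      have h4 := mul_mem hv' h3
      rwa [mul_inv_cancel_left] at h4
    · rintro _ ⟨b, hb, rfl⟩ _ ⟨v, hv, rfl⟩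
      exact ⟨b * v * b⁻¹, hV.conj_B b hb v hv, by rw [map_mul, map_mul, map_inv]⟩
    · rintro _ ⟨v, hv, rfl⟩
      exact ⟨x⁻¹ * v * x, hV.conj_s v hv, by rw [map_mul, map_mul, map_inv]⟩
    · rintro _ ⟨u, hu, rfl⟩ h
      rw [← map_inv, ← map_mul, ← map_mul] at h
      exact ⟨u, hV.stab u hu (mem_B_of_im f hker h), rfl⟩
  core := by
    rw [eq_bot_iff]
    set C := (im f P.B).normalCore with hC
    have h1 : C.comap f ≤ f.ker := by
      refine hmax _ inferInstance fun x hx => ?_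
      rw [mem_subgroupOf]
      exact mem_B_of_im f hker (Subgroup.normalCore_le _ hx)
    intro q hq
    obtain ⟨x, rfl⟩ := hf q
    exact h1 hq

theorem hasSplit_quot {p : ℕ} {U : Subgroup K} (hS : Split P p U) (hJ : J ⊆ P.S) (hJ1 : J.Nonempty)
    (hf : Function.Surjective f) (hker : ∀ x, f x = 1 → (x : K) ∈ P.B)
    (hmax : ∀ C : Subgroup ↥(P.parabolic J), C.Normal → C ≤ P.B.subgroupOf (P.parabolic J) → C ≤ f.ker) :
    HasSplit p Q := by
  refine ⟨quot f hker hJ hf, im f U, ?_, split_quot f hker hS hJ hf hmax⟩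
  obtain ⟨s, hs⟩ := hJ1
  exact ⟨f ⟨s, J_sub hs⟩, ⟨s, J_sub hs⟩, hs, rfl⟩

end

end Cfsg.Agent.H460.Car.Par
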