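import Cfsg.Agent.KFacts.RgdLieCharP
import Cfsg.Agent.FixBN.OfRGD
import Cfsg.Agent.FixBN.NodeRGD
import Cfsg.Agent.H460.Car.Par
import Cfsg.Agent.H18.Carter.Basic

/-!
# Borel–Tits for a split (B,N)-pair (S3852, helper460)
-/

set_option autoImplicit false
set_option linter.unusedSectionVars false
set_option linter.unusedVariables false

namespace Cfsg.Agent.H460.Car

open CoxeterSystem Cfsg.Agent.ChevalleyStructure.CoxeterGeom Cfsg.Agent.Tits.Roots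
  Cfsg.Agent.Nodes.Reps Cfsg.Agent.Nodes.BNOf
  Cfsg.Agent.Nodes.Bruhat Cfsg.Agent.Nodes.OppDec Cfsg.Agent.Nodes.LeviDec Cfsg.Agent.Nodes.NormX
  Cfsg.Agent.KFacts.RgdPar Cfsg.Agent.KFacts.RgdCent
  Cfsg.Agent.KFacts.RgdEx Cfsg.Agent.KFacts.RgdVJ Cfsg.Agent.KFacts.RgdCharP
  Cfsg.Agent.KFacts.RgdBorelTits Cfsg.Agent.KFacts.RgdFilt
open Cfsg.Agent.FixBN (Split HasSplit)
open Pointwise

/-- **Borel–Tits** -/
theorem exists_bt {p : ℕ} [hp : Fact p.Prime] {G : Type*} [Group G] [Finite G] [IsSimpleGroup G] (hG : HasFilt p G)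
    (hc : ∃ a b : G, a * b ≠ b * a) :
    ∃ (P : Cfsg.BNPair G) (U : Subgroup G), P.S.Nonempty ∧ Split P p U ∧ ∀ R : Subgroup G, IsPGroup p R → R ≠ ⊥ →
      ∃ (g : G) (V : Subgroup G), IsPGroup p V ∧ P.B ≤ Subgroup.normalizer (V : Set G) ∧ R ≤ MulAut.conj g • V ∧
        Subgroup.normalizer (R : Set G) ≤ MulAut.conj g • Subgroup.normalizer (V : Set G) := by
  obtain ⟨l, M, A, h, T, n, X, R, hW, hBT, hGG, hN, hconn, hX, hl⟩ := hG.data hc
  have : Nonempty (Fin l) := ⟨⟨0, hl⟩⟩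
  have hgen := Cfsg.Agent.FixBN.NodeRGD.gen_of_top R hX
  have hne : (R.bnPair hgen).S.Nonempty := ⟨n ⟨0, hl⟩, _, rfl⟩
  refine ⟨R.bnPair hgen, _, hne, Cfsg.Agent.FixBN.OfRGD.split R hgen
    (Cfsg.Agent.Tits.OfBN.normalCore_eq_bot (R.bnPair hgen) hne), fun K hK hK1 => ?_⟩
  obtain ⟨g, J, hJ, h1, h2⟩ := hBT K hK hK1
  have hP : PJ M.toCoxeterSystem h T X J = Subgroup.normalizer (VJ M.toCoxeterSystem h X J : Set G) := by
    apply le_antisymm (PJ_le_normalizer_VJ R J)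
    have h3 := normalizer_VJ R J
    rw [hGG, inf_top_eq] at h3
    exact h3.le
  refine ⟨g, VJ M.toCoxeterSystem h X J, isPGroup_VJ R J, ?_, ?_, ?_⟩
  · show RGD.B M.toCoxeterSystem h T X ≤ _
    rw [← hP]
    exact B_le_PJ
  · rw [Cfsg.Agent.Solvable.Carter.conj_smul_eq_map]
    exact h1
  · rw [← hP, Cfsg.Agent.Solvable.Carter.conj_smul_eq_map]
    exact h2

end Cfsg.Agent.H460.Car
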