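import Cfsg.Agent.H460.Car.TwoD
import Cfsg.Agent.H381.Car.Conj

/-!
# Carter subgroups and groups of Lie type of characteristic two: theorem [U] (S3852, helper460)

* `exists_of_cen` : `z ∈ Z(K) ∩ S` of odd prime order, `|C_S(z)|` even: `K` normalises a `2`-subgroup `≠ 1` of `S`;
* `nrm_even` : **[U]**: if this is the case for all `z ∈ Z(K) ∩ S` of odd prime order then `K` normalises a Sylow
  `2`-subgroup of `S`.
-/

set_option autoImplicit false
set_option linter.unusedSectionVars false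
set_option linter.unusedVariables false

namespace Cfsg.Agent.H460.Car

open Subgroup Pointwise
open Cfsg Cfsg.Agent.Solvable.Carter Cfsg.Agent.H18.Carter Cfsg.Agent.H381.Car
open Cfsg.Agent.FixBN (Split HasSplit)
open Cfsg.Agent.SignalizersComponents Cfsg.Agent.Lib
open Cfsg.Agent.KFacts.RgdFilt (HasFilt)
open scoped commutatorElement

universe u

variable {G : Type u} [Group G] [Finite G] {S K : Subgroup G}

theorem exists_of_cen (c : AS G S K) (hS : HasSplit 2 ↥S) (hFT : FT.{u}) (IH : IHt.{u} (Nat.card G)) {r : ℕ}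
    (hr : r.Prime) (hr2 : r ≠ 2) {z : G} (hzS : z ∈ S) (hz : orderOf z = r) (hKz : K ≤ centralizer ({z} : Set G))
    (he : 2 ∣ Nat.card ↥(S ⊓ centralizer ({z} : Set G) : Subgroup G)) :
    ∃ Y : Subgroup G, Y ≤ S ∧ Y ≠ ⊥ ∧ IsPGroup 2 Y ∧ K ≤ normalizer (Y : Set G) := by
  have hSn := c.normal
  have hf : Fact (Nat.Prime 2) := ⟨Nat.prime_two⟩
  have hfr : Fact r.Prime := ⟨hr⟩
  have hz1 : z ≠ 1 := by
    rintro rfl
    rw [orderOf_one] at hz
    exact hr.one_lt.ne hz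
  set Γ : Subgroup G := centralizer ({z} : Set G) with hΓ
  have hx : (act S z : MulAut ↥S) ^ r = 1 := by
    have h1 : (MulAut.conjNormal z : MulAut ↥S) ^ r = 1 := by
      rw [← map_pow, ← hz, pow_orderOf_eq_one, map_one]
    exact h1
  obtain ⟨Pa, d, hG, hI, hopp⟩ := Cfsg.Agent.FixOdd.Inst.gate (p := 2) (r := r) hr2 hS (act S z : MulAut ↥S) hx
  have hmem : ∀ x : ↥S, x ∈ fixedSubgroup (act S z) ↔ (x : G) ∈ Γ := by
    intro x
    have h1 : x ∈ fixedSubgroup (act S z) ↔ act S z x = x := Iff.rfl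
    rw [h1, Subtype.ext_iff, act_coe, hΓ, mem_centralizer_singleton_iff, mul_inv_eq_iff_eq_mul]
    exact eq_comm
  let H : Subgroup ↥Γ := S.subgroupOf Γ
  have hHn : H.Normal := inferInstance
  let ι : ↥(fixedSubgroup (act S z)) ≃* ↥H :=
    { toFun := fun x => ⟨⟨((x : ↥S) : G), (hmem x).1 x.2⟩, (x : ↥S).2⟩
      invFun := fun y => ⟨⟨((y : ↥Γ) : G), y.2⟩, (hmem _).2 (y : ↥Γ).2⟩
      left_inv := fun x => rfl
      right_inv := fun y => rfl
      map_mul' := fun x y => rfl }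
  have hcard : Nat.card ↥Γ < Nat.card G := by
    refine Cfsg.Agent.Lib.SolvableNormalP.card_lt_of_ne_top fun h => hz1 ?_
    have h1 : z ∈ centralizer (S : Set G) := by
      rw [mem_centralizer_iff]
      intro s _
      have h2 : s ∈ Γ := by rw [h]; trivial
      exact mem_centralizer_singleton_iff.1 h2
    rwa [c.cen, mem_bot] at h1
  have h2H : 2 ∣ Nat.card ↥(fixedSubgroup (act S z)) := by
    have e1 : Nat.card ↥(S ⊓ Γ : Subgroup G) = Nat.card ↥H := by
      refine Nat.card_congr ⟨fun x => ⟨⟨x, x.2.2⟩, x.2.1⟩, fun y => ⟨((y : ↥Γ) : G), y.2, (y : ↥Γ).2⟩, fun x => rfl,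
        fun y => rfl⟩
    rw [Nat.card_congr ι.toEquiv, ← e1]
    exact he
  obtain ⟨Y, hYH, hY1, hYp, hKY⟩ := exists_two' (Γ := ↥Γ) (H := H) hG hI hopp ι (c.carter.subgroupOf hKz)
    (fun B _ _ hB => c.min B (hB.trans_lt hcard)) hFT
    (fun B _ _ T R hB hAS hE => IH B T R (hB.trans_lt hcard) hAS hE) h2H
  refine ⟨Y.map Γ.subtype, ?_, ?_, hYp.map _, ?_⟩
  · rintro _ ⟨y, hy, rfl⟩
    exact hYH hy
  · intro h
    apply hY1
    rw [Subgroup.map_eq_bot_iff_of_injective _ Γ.subtype_injective] at h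
    exact h
  · intro k hk
    have h1 : (⟨k, hKz hk⟩ : ↥Γ) ∈ normalizer (Y : Set ↥Γ) := hKY hk
    exact Subgroup.le_normalizer_map Γ.subtype ⟨_, h1, rfl⟩

/-- **[U]** -/
theorem nrm_even (c : AS G S K) (hF : HasFilt 2 ↥S) (hFp : Fpf.{u}) (hFT : FT.{u}) (IH : IHt.{u} (Nat.card G))
    (hOC : ∀ r : ℕ, r.Prime → r ≠ 2 → ∀ z ∈ S, z ∈ K → orderOf z = r → K ≤ centralizer ({z} : Set G) →
      2 ∣ Nat.card ↥(S ⊓ centralizer ({z} : Set G) : Subgroup G) ∨
      ∃ Y : Subgroup G, Y ≤ S ∧ Y ≠ ⊥ ∧ IsPGroup 2 Y ∧ K ≤ normalizer (Y : Set G)) : Nrm 2 K S := by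
  have hSn := c.normal
  have hf : Fact (Nat.Prime 2) := ⟨Nat.prime_two⟩
  by_cases h2 : IsPGroup 2 (K ⊓ S : Subgroup G)
  · exact lemma_x hFp c.min S c.carter h2
  · obtain ⟨r, hr, hr2, hd⟩ : ∃ r : ℕ, r.Prime ∧ r ≠ 2 ∧ r ∣ Nat.card (K ⊓ S : Subgroup G) := by
      by_contra hcon
      push Not at hcon
      apply h2
      rw [IsPGroup.iff_card]
      refine ⟨(Nat.card (K ⊓ S : Subgroup G)).primeFactorsList.length, ?_⟩
      refine Nat.eq_prime_pow_of_unique_prime_dvd Nat.card_pos.ne' fun {q} hq hqd => ?_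
      by_contra hne
      exact hcon q hq hne hqd
    have hfr : Fact r.Prime := ⟨hr⟩
    obtain ⟨z, hzS, hzK, hz, hc⟩ := exists_central (S := S) c.carter.1 hd
    refine nrm_of_two c hF hFT IH ?_
    rcases hOC r hr hr2 z hzS hzK hz hc with h | h
    · have hSs := c.simple
      have hna : ∃ a b : ↥S, a * b ≠ b * a := by
        have := c.na
        push Not at this
        exact this
      obtain ⟨P, U, hne, hS, -⟩ := exists_bt hF hna
      exact exists_of_cen c ⟨P, U, hne, hS⟩ hFT IH hr hr2 hzS hz hc h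
    · exact h

end Cfsg.Agent.H460.Car
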