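import Cfsg.Agent.H460.Car.Main

/-!
# Gate systems: exceptional groups are not components (S3852, helper460)

`Exc T` collects properties of the simple groups `PSL_2(3^f)` and `2G2(3^f)`, `f ≥ 3` odd. A group with a gate system for
the prime `2` has no component `J` with `Exc (J / Z(J))`.
-/

set_option autoImplicit false
set_option linter.unusedSectionVars false
set_option linter.unusedVariables false

namespace Cfsg.Agent.H460.Car

open Subgroup Pointwise
open Cfsg Cfsg.Agent.FixBN.Gates Cfsg.Agent.BpGate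
open Cfsg.Agent.SignalizersComponents Cfsg.Agent.Lib
open Cfsg.Agent.H460.Car.Sol (Kr mem_Kr Kr_le mem_iff_Kr mem_Kr_smul)
open scoped commutatorElement

/-- properties of `PSL_2(3^f)`, `2G2(3^f)`, `f ≥ 3` odd -/
structure Exc (T : Type*) [Group T] : Prop where
  ab : ∀ P : Sylow 2 T, ∀ x ∈ P, ∀ y ∈ P, x * y = y * x
  cent : ∀ (P : Sylow 2 T) (Q : Subgroup T), Q ≤ P → 2 * Nat.card Q = Nat.card P →
    ¬ 3 ∣ Nat.card (centralizer (Q : Set T))
  five : ¬ 5 ∣ Nat.card T
  aut : ∀ A : Subgroup (MulAut T), IsPGroup 2 A → Nat.card A ∣ 8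
  nine : ¬ Nat.card T ∣ Nat.factorial 9

theorem Exc.congr {T T' : Type*} [Group T] [Group T'] (h : Exc T) (e : T ≃* T') [Finite T] : Exc T' := by
  have : Finite T' := Finite.of_equiv T e.toEquiv
  have hc : Nat.card T' = Nat.card T := (Nat.card_congr e.toEquiv).symm
  have : Fact (Nat.Prime 2) := ⟨Nat.prime_two⟩
  refine ⟨?_, ?_, ?_, ?_, ?_⟩
  · intro P x hx y hy
    have h1 := h.ab (P.mapSurjective (f := e.symm.toMonoidHom) e.symm.surjective) (e.symm x) ⟨x, hx, rfl⟩
      (e.symm y) ⟨y, hy, rfl⟩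
    rw [← map_mul, ← map_mul] at h1
    exact e.symm.injective h1
  · intro P Q hQ hc hd
    have e1 : ∀ R : Subgroup T', Nat.card ↥(R.map e.symm.toMonoidHom) = Nat.card R := fun R =>
      (Nat.card_congr (R.equivMapOfInjective e.symm.toMonoidHom e.symm.injective).toEquiv).symm
    refine h.cent (P.mapSurjective (f := e.symm.toMonoidHom) e.symm.surjective) (Q.map e.symm.toMonoidHom)
      (Subgroup.map_mono hQ) ?_ ?_
    · rw [e1]
      show 2 * Nat.card Q = Nat.card ↥((P : Subgroup T').map e.symm.toMonoidHom)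
      rw [e1, hc]
    · rw [← e1] at hd
      refine hd.trans (Subgroup.card_dvd_of_le ?_)
      rintro _ ⟨x, hx, rfl⟩
      rw [mem_centralizer_iff]
      rintro _ ⟨y, hy, rfl⟩
      show e.symm y * e.symm x = e.symm x * e.symm y
      rw [← map_mul, ← map_mul, hx y hy]
  · rw [hc]; exact h.five
  · intro A hA
    let φ : MulAut T' ≃* MulAut T := MulAut.congr e.symm
    have h1 := h.aut (A.map φ.toMonoidHom) (hA.map _)
    rwa [← Nat.card_congr (A.equivMapOfInjective φ.toMonoidHom φ.injective).toEquiv] at h1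
  · rw [hc]; exact h.nine

variable {H : Type*} [Group H] [Finite H] {Pa : Set (Set (Sylow 2 H))} {d : Sylow 2 H → Sylow 2 H → ℕ}

section

variable {S : Set (Sylow 2 H)} {J : Subgroup H}

/-- elements centralising `J` fix the chambers which they do not move out of `S` -/
theorem fix_of_cen (hI : BpGate.Inter Pa) (hS : S ∈ Pa) {b : Sylow 2 H} (hb : b ∈ S) (hA : Ac S b J) {z : H}
    (hz : z ∈ centralizer (J : Set H)) (hzb : z • b ∈ S) : z • b = b := by
  by_contra hne
  obtain ⟨u, hu, huJ, b1, hb1, hub⟩ := hA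
  apply hub
  have h1 : u ∈ (z • b : Sylow 2 H) := by
    rw [mem_smul_iff]
    have h2 := hz u huJ
    have e1 : z⁻¹ * u * z = u := by rw [mul_assoc, h2]; group
    rw [e1]
    exact hu
  exact hI S hS b hb (z • b) hzb (Ne.symm hne) u hu h1 b1 hb1

/-- `J` contains an element stabilising `S` and moving `a` -/
theorem exists_move (hG : GSys Pa d) (hI : BpGate.Inter Pa) (hS : S ∈ Pa) {a b : Sylow 2 H} (ha : a ∈ S) (hb : b ∈ S)
    (hab : b ≠ a) (hA : Ac S b J) : ∃ w ∈ b, w ∈ J ∧ w • S = S ∧ w • a ≠ a := by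
  obtain ⟨w, hw, hwJ, b1, hb1, hwb⟩ := hA
  refine ⟨w, hw, hwJ, hG.self S hS b hb w hw, fun h => hwb ?_⟩
  exact hI S hS b hb a ha hab w hw (mem_of_smul_eq hw h) b1 hb1

theorem cen_le_Kr (hG : GSys Pa d) (hI : BpGate.Inter Pa) (hS : S ∈ Pa) {a b : Sylow 2 H} (ha : a ∈ S) (hb : b ∈ S)
    (hab : b ≠ a) (hA : Ac S b J) {u : H} (hu : u ∈ a) (huJ : u ∈ centralizer (J : Set H)) : u ∈ Kr S := by
  obtain ⟨w, hw, hwJ, hwS, hwa⟩ := exists_move hG hI hS ha hb hab hA
  have h1 : u ∈ (w • a : Sylow 2 H) := by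
    rw [mem_smul_iff]
    have h2 := huJ w hwJ
    have e1 : w⁻¹ * u * w = u := by rw [mul_assoc, ← h2]; group
    rw [e1]
    exact hu
  have hwaS : w • a ∈ S := by rw [← hwS]; exact Set.smul_mem_smul_set ha
  exact mem_Kr.2 fun e he => hI S hS a ha (w • a) hwaS (Ne.symm hwa) u hu h1 e he

/-- the number of chambers of a panel -/
theorem card_panel (hG : GSys Pa d) (hI : BpGate.Inter Pa) (hS : S ∈ Pa) {a : Sylow 2 H} (ha : a ∈ S) :
    S.ncard = 1 + ((Kr S).subgroupOf (a : Subgroup H)).index := by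
  obtain ⟨b, hb, hba, -⟩ := hG.three S hS a ha a ha
  have h1 : MulAction.orbit ↥(a : Subgroup H) b = S \ {a} := by
    ext e
    constructor
    · rintro ⟨u, rfl⟩
      have huS := hG.self S hS a ha u u.2
      refine ⟨?_, ?_⟩
      · show (u : H) • b ∈ S
        rw [← huS]
        exact Set.smul_mem_smul_set hb
      · intro h
        apply hba
        have h2 : (u : H) • b = a := h
        have h3 : (u : H) • a = a := smul_self u.2
        exact smul_left_cancel (u : H) (h2.trans h3.symm)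
    · rintro ⟨he, hea⟩
      obtain ⟨u, hu, -, hue⟩ := (hG.gate_self hS ha).tr b hb e he hba (fun h => hea h)
      exact ⟨⟨u, hu⟩, hue⟩
  have h2 : MulAction.stabilizer ↥(a : Subgroup H) b = (Kr S).subgroupOf (a : Subgroup H) := by
    ext u
    rw [MulAction.mem_stabilizer_iff, mem_subgroupOf]
    constructor
    · intro h
      have h3 : (u : H) ∈ b := mem_of_smul_eq u.2 h
      exact mem_Kr.2 fun e he => hI S hS a ha b hb (Ne.symm hba) u u.2 h3 e he
    · intro h
      exact smul_self (mem_Kr.1 h b hb)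
  rw [← h2, MulAction.index_stabilizer, h1, Set.ncard_diff_singleton_of_mem ha]
  have h3 : 0 < S.ncard := Set.ncard_pos (Set.toFinite _) |>.2 ⟨a, ha⟩
  omega

theorem card_ge (hG : GSys Pa d) (hS : S ∈ Pa) {a : Sylow 2 H} (ha : a ∈ S) : 3 ≤ S.ncard := by
  obtain ⟨b, hb, hba, -⟩ := hG.three S hS a ha a ha
  obtain ⟨c, hc, hca, hcb⟩ := hG.three S hS a ha b hb
  have h1 : ({a, b, c} : Set (Sylow 2 H)).ncard = 3 :=
    Set.ncard_eq_three.2 ⟨a, b, c, Ne.symm hba, Ne.symm hca, Ne.symm hcb, rfl⟩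
  rw [← h1]
  refine Set.ncard_le_ncard ?_ (Set.toFinite _)
  rintro x (rfl | rfl | rfl)
  · exact ha
  · exact hb
  · exact hc

end

section

variable {S : Set (Sylow 2 H)} {J : Subgroup H} {a : Sylow 2 H}

/-- the stabiliser of `S` in `J` -/
def JS (S : Set (Sylow 2 H)) (J : Subgroup H) : Subgroup J := MulAction.stabilizer J S

theorem mem_JS {j : J} : j ∈ JS S J ↔ (j : H) • S = S := MulAction.mem_stabilizer_iff

/-- a subgroup of the stabiliser of `S` in `J` which is transitive on `S`: `|S|` divides the order of its image -/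
theorem ncard_dvd (hI : BpGate.Inter Pa) (hS : S ∈ Pa) (ha : a ∈ S) (hA : Ac S a J) {M : Subgroup J} (hM : M ≤ JS S J)
    (htr : ∀ b ∈ S, ∃ j ∈ M, (j : H) • a = b) :
    S.ncard ∣ Nat.card ↥(M.map (QuotientGroup.mk' (center J))) := by
  have h1 : MulAction.orbit M a = S := by
    ext e
    constructor
    · rintro ⟨j, rfl⟩
      have h2 := mem_JS.1 (hM j.2)
      show ((j : J) : H) • a ∈ S
      rw [← h2]
      exact Set.smul_mem_smul_set ha
    · intro he
      obtain ⟨j, hj, h⟩ := htr e he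
      exact ⟨⟨j, hj⟩, h⟩
  let ψ : M →* J ⧸ center J := (QuotientGroup.mk' (center J)).comp M.subtype
  have h2 : ψ.ker ≤ MulAction.stabilizer M a := by
    intro j hj
    have h3 : (j : J) ∈ center J := (QuotientGroup.eq_one_iff (j : J)).1 hj
    have h4 : ((j : J) : H) ∈ centralizer (J : Set H) := by
      rw [mem_centralizer_iff]
      intro y hy
      exact congrArg Subtype.val (mem_center_iff.1 h3 ⟨y, hy⟩)
    rw [MulAction.mem_stabilizer_iff]
    refine fix_of_cen hI hS ha hA h4 ?_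
    have h5 := mem_JS.1 (hM j.2)
    rw [← h5]
    exact Set.smul_mem_smul_set ha
  have h3 : ψ.range = M.map (QuotientGroup.mk' (center J)) := by
    rw [MonoidHom.range_comp, range_subtype]
  rw [← h3, ← Subgroup.index_ker, ← h1, ← MulAction.index_stabilizer]
  exact Subgroup.index_dvd_of_le h2

/-- `J` is transitive on `S` -/
theorem JS_tr (hG : GSys Pa d) (hI : BpGate.Inter Pa) (hS : S ∈ Pa) (ha : a ∈ S) (hA : ∀ b ∈ S, Ac S b J)
    (hn : ∀ b : Sylow 2 H, (b : Subgroup H) ≤ normalizer (J : Set H)) :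
    ∀ b ∈ S, ∃ j ∈ JS S J, (j : H) • a = b := by
  obtain ⟨b0, hb0, hb0a, -⟩ := hG.three S hS a ha a ha
  obtain ⟨w, hw, hwJ, hwS, hwa⟩ := exists_move hG hI hS ha hb0 hb0a (hA b0 hb0)
  have hwaS : w • a ∈ S := by rw [← hwS]; exact Set.smul_mem_smul_set ha
  intro b hb
  by_cases hba : b = a
  · exact ⟨1, one_mem _, by rw [hba, Subgroup.coe_one, one_smul]⟩
  obtain ⟨u, hu, huS, hub⟩ := (hG.gate_self hS ha).tr (w • a) hwaS b hb hwa hba
  have huS' : u⁻¹ • S = S := by rw [inv_smul_eq_iff, huS]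
  refine ⟨⟨u * w * u⁻¹, (mem_normalizer_iff.1 (hn a hu) w).1 hwJ⟩, ?_, ?_⟩
  · rw [mem_JS]
    show (u * w * u⁻¹) • S = S
    rw [mul_smul, mul_smul, huS', hwS, huS]
  · show (u * w * u⁻¹) • a = b
    rw [mul_smul, mul_smul, inv_smul_self hu, hub]

/-- the index of `Kr S` divides `|a / C_a(J)|` -/
theorem exists_rho (hJ : IsComponent J) (hn : (a : Subgroup H) ≤ normalizer (J : Set H)) :
    ∃ ρ : ↥(a : Subgroup H) →* MulAut (J ⧸ center J), ∀ u : ↥(a : Subgroup H), u ∈ ρ.ker ↔
      (u : H) ∈ centralizer (J : Set H) := by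
  refine ⟨((Cfsg.Agent.Schreier.Balance.quoAut J).comp J.normalizerMonoidHom).comp (Subgroup.inclusion hn),
    fun u => ?_⟩
  rw [MonoidHom.mem_ker, MonoidHom.comp_apply, MonoidHom.comp_apply,
    map_eq_one_iff _ (Cfsg.Agent.Schreier.Balance.quoAut_injective hJ.2.1)]
  constructor
  · intro h
    rw [mem_centralizer_iff]
    intro y hy
    have h1 := congrArg (fun φ : MulAut J => ((φ ⟨y, hy⟩ : J) : H)) h
    have h2 : (u : H) * y * (u : H)⁻¹ = y := h1
    rw [mul_inv_eq_iff_eq_mul] at h2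
    exact h2.symm
  · intro h
    apply MulEquiv.ext
    intro y
    apply Subtype.ext
    show (u : H) * y * (u : H)⁻¹ = y
    rw [mul_inv_eq_iff_eq_mul]
    exact (h y y.2).symm

/-- **EXC.** -/
theorem not_exc (hG : GSys Pa d) (hI : BpGate.Inter Pa) (hopp : ∃ a b : Sylow 2 H, (a : Subgroup H) ⊓ b = ⊥)
    (hJ : IsComponent J) (h2 : 2 ∣ Nat.card J) : ¬ Exc (J ⧸ center J) := by
  intro hE
  have hf2 : Fact (Nat.Prime 2) := ⟨Nat.prime_two⟩
  obtain ⟨a⟩ : Nonempty (Sylow 2 H) := inferInstance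
  obtain ⟨S, hS, ha, hAa⟩ := in_all hG hI hopp (J := J) ⟨hJ, h2⟩ a
  have hA : ∀ b ∈ S, Ac S b J := fun b hb => hAa.all hG hI hS ⟨hJ, h2⟩ ha hb
  have hn : ∀ b : Sylow 2 H, (b : Subgroup H) ≤ normalizer (J : Set H) := fun b =>
    (le_Hp b).trans (Hp_le_normalizer hG hI hopp ⟨hJ, h2⟩)
  obtain ⟨b, hb, hba, -⟩ := hG.three S hS a ha a ha
  obtain ⟨ρ, hρ⟩ := exists_rho hJ (hn a)
  have hker : ρ.ker ≤ (Kr S).subgroupOf (a : Subgroup H) := by
    intro u hu
    rw [mem_subgroupOf]
    exact cen_le_Kr hG hI hS ha hb hba (hA b hb) u.2 ((hρ u).1 hu)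
  have h8 : ρ.ker.index ∣ 8 := by
    rw [Subgroup.index_ker]
    exact hE.aut _ (a.isPGroup'.of_surjective ρ.rangeRestrict ρ.rangeRestrict_surjective)
  have hidx : ((Kr S).subgroupOf (a : Subgroup H)).index ∣ 8 := (Subgroup.index_dvd_of_le hker).trans h8
  have hcard := card_panel hG hI hS ha
  have hge := card_ge hG hS ha
  have hcases : S.ncard = 3 ∨ S.ncard = 5 ∨ S.ncard = 9 := by
    have h3 : ((Kr S).subgroupOf (a : Subgroup H)).index ≤ 8 := Nat.le_of_dvd (by norm_num) hidx
    interval_cases h : ((Kr S).subgroupOf (a : Subgroup H)).index <;> omega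
  rcases hcases with h | h | h
  · -- three chambers
    obtain ⟨c, hc, hca, hcb⟩ := hG.three S hS a ha b hb
    have hSe : ({a, b, c} : Set (Sylow 2 H)) = S := by
      refine Set.eq_of_subset_of_ncard_le ?_ ?_ (Set.toFinite _)
      · rintro x (rfl | rfl | rfl)
        · exact ha
        · exact hb
        · exact hc
      · rw [h, Set.ncard_eq_three.2 ⟨a, b, c, Ne.symm hba, Ne.symm hca, Ne.symm hcb, rfl⟩]
    have hS3 : ∀ e ∈ S, e = a ∨ e = b ∨ e = c := by
      intro e he
      rw [← hSe] at he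
      exact he
    set π := QuotientGroup.mk' (center J) with hπ
    have hsyl : ∀ e : Sylow 2 H, ∃ P : Sylow 2 (J ⧸ center J), (P : Subgroup (J ⧸ center J)) =
        ((e : Subgroup H).subgroupOf J).map π := by
      intro e
      have h3 : ¬ 2 ∣ ((e : Subgroup H).subgroupOf J).index := fun h =>
        e.not_dvd_index (h.trans (PCompCore.relIndex_dvd_index_of_subnormal _ hJ.1))
      have h4 : IsPGroup 2 ((e : Subgroup H).subgroupOf J) := e.isPGroup'.comap_of_injective _ J.subtype_injective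
      exact ⟨(h4.toSylow h3).mapSurjective (QuotientGroup.mk'_surjective (center J)), rfl⟩
    -- `M` generated by the `e ⊓ J`
    set M : Subgroup J := (a : Subgroup H).subgroupOf J ⊔ (b : Subgroup H).subgroupOf J ⊔
      (c : Subgroup H).subgroupOf J with hM
    have hMJ : M ≤ JS S J := by
      have h3 : ∀ e ∈ S, (e : Subgroup H).subgroupOf J ≤ JS S J := fun e he j hj =>
        mem_JS.2 (hG.self S hS e he j hj)
      exact sup_le (sup_le (h3 a ha) (h3 b hb)) (h3 c hc)
    have hmv : ∀ e ∈ S, ∀ f ∈ S, a ≠ e → a ≠ f → e ≠ f → ∃ j ∈ (f : Subgroup H).subgroupOf J, (j : H) • a = e := by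
      intro e he f hf hae haf hef
      obtain ⟨w, hw, hwJ, hwS, hwa⟩ := exists_move hG hI hS ha hf (Ne.symm haf) (hA f hf)
      refine ⟨⟨w, hwJ⟩, hw, ?_⟩
      show w • a = e
      have h3 : w • a ∈ S := by rw [← hwS]; exact Set.smul_mem_smul_set ha
      have h4 : w • a ≠ f := by
        intro h5
        apply haf
        have h6 : w • f = f := smul_self hw
        exact smul_left_cancel w (h5.trans h6.symm)
      have h5 : ∀ x ∈ S, x = a ∨ x = e ∨ x = f := by
        intro x hx
        have hSe' : ({a, e, f} : Set (Sylow 2 H)) = S := by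
          refine Set.eq_of_subset_of_ncard_le ?_ ?_ (Set.toFinite _)
          · rintro x (rfl | rfl | rfl)
            · exact ha
            · exact he
            · exact hf
          · rw [h, Set.ncard_eq_three.2 ⟨a, e, f, hae, haf, hef, rfl⟩]
        rw [← hSe'] at hx
        exact hx
      rcases h5 _ h3 with h6 | h6 | h6
      · exact absurd h6 hwa
      · exact h6
      · exact absurd h6 h4
    have hMtr : ∀ e ∈ S, ∃ j ∈ M, (j : H) • a = e := by
      intro e he
      rcases hS3 e he with rfl | rfl | rfl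
      · exact ⟨1, one_mem _, by rw [Subgroup.coe_one, one_smul]⟩
      · obtain ⟨j, hj, h3⟩ := hmv e he c hc (Ne.symm hba) (Ne.symm hca) (Ne.symm hcb)
        exact ⟨j, mem_sup_right hj, h3⟩
      · obtain ⟨j, hj, h3⟩ := hmv e he b hb (Ne.symm hca) (Ne.symm hba) hcb
        exact ⟨j, mem_sup_left (mem_sup_right hj), h3⟩
    have h3d := ncard_dvd hI hS ha hAa hMJ hMtr
    rw [h, ← hπ] at h3d
    set κ : Subgroup (J ⧸ center J) := ((Kr S).subgroupOf J).map π with hκ
    have hκe : ∀ e ∈ S, κ ≤ ((e : Subgroup H).subgroupOf J).map π := fun e he =>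
      Subgroup.map_mono (Subgroup.comap_mono (Kr_le he))
    have hcen : ∀ e ∈ S, ((e : Subgroup H).subgroupOf J).map π ≤ centralizer (κ : Set (J ⧸ center J)) := by
      intro e he x hx
      obtain ⟨P, hP⟩ := hsyl e
      rw [mem_centralizer_iff]
      intro y hy
      have hy' : y ∈ P := by
        show y ∈ (P : Subgroup (J ⧸ center J))
        rw [hP]
        exact hκe e he hy
      have hx' : x ∈ P := by
        show x ∈ (P : Subgroup (J ⧸ center J))
        rw [hP]
        exact hx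
      exact hE.ab P y hy' x hx'
    have hMc : M.map π ≤ centralizer (κ : Set (J ⧸ center J)) := by
      rw [hM, Subgroup.map_sup, Subgroup.map_sup]
      exact sup_le (sup_le (hcen a ha) (hcen b hb)) (hcen c hc)
    obtain ⟨P, hP⟩ := hsyl a
    refine hE.cent P κ (by rw [hP]; exact hκe a ha) ?_ (h3d.trans (Subgroup.card_dvd_of_le hMc))
    -- the index of `κ`
    have hKr : ∀ v ∈ a, v ∉ Kr S → ∀ e ∈ S, e ≠ a → v • e ≠ e := by
      intro v hv hvS e he hea h3
      exact hvS (mem_Kr.2 fun f hf => hI S hS a ha e he (Ne.symm hea) v hv (mem_of_smul_eq hv h3) f hf)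
    have hsw : ∀ v ∈ a, v ∉ Kr S → v • b = c ∧ v • c = b := by
      intro v hv hvS
      have h3 : ∀ e ∈ S, e ≠ a → v • e ∈ S ∧ v • e ≠ a := by
        intro e he hea
        refine ⟨?_, fun h4 => hea ?_⟩
        · have h4 : v • e ∈ v • S := Set.smul_mem_smul_set he
          rwa [hG.self S hS a ha v hv] at h4
        · exact smul_left_cancel v (h4.trans (smul_self hv).symm)
      obtain ⟨h4, h5⟩ := h3 b hb hba
      obtain ⟨h6, h7⟩ := h3 c hc hca
      constructor
      · rcases hS3 _ h4 with h8 | h8 | h8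
        · exact absurd h8 h5
        · exact absurd h8 (hKr v hv hvS b hb hba)
        · exact h8
      · rcases hS3 _ h6 with h8 | h8 | h8
        · exact absurd h8 h7
        · exact h8
        · exact absurd h8 (hKr v hv hvS c hc hca)
    have hrel : κ.relIndex (P : Subgroup (J ⧸ center J)) = 2 := by
      rw [Subgroup.relIndex_eq_two_iff_exists_notMem_and, hP]
      obtain ⟨u, hu, huJ, e, he, hue⟩ := hAa
      have huS : u ∉ Kr S := fun h3 => hue (mem_Kr.1 h3 e he)
      refine ⟨π ⟨u, huJ⟩, ⟨⟨u, huJ⟩, hu, rfl⟩, ?_, ?_⟩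
      · rintro ⟨k, hk, hku⟩
        apply huS
        have h3 : k⁻¹ * ⟨u, huJ⟩ ∈ center J := QuotientGroup.eq.1 hku
        have h4 : (k : H)⁻¹ * u ∈ centralizer (J : Set H) := by
          rw [mem_centralizer_iff]
          intro y hy
          exact congrArg Subtype.val (mem_center_iff.1 h3 ⟨y, hy⟩)
        have hkS : (k : H) ∈ Kr S := hk
        have h5 : (k : H)⁻¹ * u ∈ Kr S := cen_le_Kr hG hI hS ha hb hba (hA b hb)
          (mul_mem (inv_mem (Kr_le ha hkS)) hu) h4
        have h6 := mul_mem hkS h5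
        rwa [mul_inv_cancel_left] at h6
      · rintro _ ⟨v, hv, rfl⟩
        have hva : (v : H) ∈ a := hv
        by_cases hvS : (v : H) ∈ Kr S
        · exact Or.inr ⟨v, hvS, rfl⟩
        · left
          refine ⟨v * ⟨u, huJ⟩, ?_, map_mul _ _ _⟩
          show (v : H) * u ∈ Kr S
          by_contra h3
          have h4 : ((v : H) * u) • b = b := by
            rw [mul_smul, (hsw u hu huS).1, (hsw v hva hvS).2]
          exact hKr _ (mul_mem hva hu) h3 b hb hba h4
    have h3 := Subgroup.card_mul_index (κ.subgroupOf (P : Subgroup (J ⧸ center J)))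
    have h4 : (κ.subgroupOf (P : Subgroup (J ⧸ center J))).index = 2 := hrel
    have h5 : Nat.card ↥(κ.subgroupOf (P : Subgroup (J ⧸ center J))) = Nat.card κ :=
      Nat.card_congr (subgroupOfEquivOfLe (by rw [hP]; exact hκe a ha)).toEquiv
    rw [h4, h5] at h3
    show 2 * Nat.card κ = Nat.card ↥(P : Subgroup (J ⧸ center J))
    omega
  · -- five chambers
    apply hE.five
    have h3 := ncard_dvd hI hS ha hAa (M := JS S J) le_rfl (JS_tr hG hI hS ha hA hn)
    rw [h] at h3
    exact h3.trans (Subgroup.card_subgroup_dvd_card _)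
  · -- nine chambers
    have hi : ((Kr S).subgroupOf (a : Subgroup H)).index = 8 := by omega
    have hi2 : ρ.ker.index = 8 := by
      refine Nat.dvd_antisymm h8 ?_
      rw [← hi]
      exact Subgroup.index_dvd_of_le hker
    have hle : (Kr S).subgroupOf (a : Subgroup H) ≤ ρ.ker := by
      have h3 := Subgroup.relIndex_mul_index hker
      rw [hi, hi2] at h3
      exact Subgroup.relIndex_eq_one.1 (by omega)
    have hKc : ∀ u ∈ Kr S, u ∈ centralizer (J : Set H) := fun u hu =>
      (hρ ⟨u, Kr_le ha hu⟩).1 (hle (mem_subgroupOf.2 hu))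
    have hJSm : ∀ (j : J) (e : Sylow 2 H), e ∈ S → j • e ∈ S := by
      intro j e he
      show (j : H) • e ∈ S
      rw [mem_iff_Kr hG hS]
      intro u hu
      show u ∈ ((j : H) • e : Sylow 2 H)
      rw [mem_smul_iff]
      have h3 := hKc u hu j j.2
      have e1 : (j : H)⁻¹ * u * j = u := by rw [mul_assoc, ← h3]; group
      rw [e1]
      exact mem_Kr.1 hu e he
    let S' : SubMulAction J (Sylow 2 H) := ⟨S, fun j {e} he => hJSm j e he⟩
    let φ : J →* Equiv.Perm S' := MulAction.toPermHom J S'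
    have hφ : φ.ker ≤ center J := by
      rcases Components.quasisimple_normal hJ.2 φ.ker inferInstance with h3 | h3
      · exfalso
        obtain ⟨w, hw, hwJ, hwS, hwa⟩ := exists_move hG hI hS ha hb hba (hA b hb)
        have h4 : (⟨w, hwJ⟩ : J) ∈ φ.ker := by rw [h3]; trivial
        rw [MonoidHom.mem_ker] at h4
        have h5 := congrArg (fun σ : Equiv.Perm S' => ((σ ⟨a, ha⟩ : S') : Sylow 2 H)) h4
        exact hwa h5
      · exact h3
    apply hE.nine
    have h3 : Nat.card (J ⧸ center J) ∣ Nat.card φ.range := by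
      rw [← Subgroup.index_ker, ← Subgroup.index_eq_card]
      exact Subgroup.index_dvd_of_le hφ
    have h4 : Nat.card φ.range ∣ Nat.card (Equiv.Perm S') := Subgroup.card_subgroup_dvd_card _
    have h5 : Nat.card (Equiv.Perm S') = Nat.factorial 9 := by
      rw [Nat.card_perm]
      congr 1
    rw [← h5]
    exact h3.trans h4

end

end Cfsg.Agent.H460.Car

namespace Cfsg.Agent.H460.Car

open Subgroup Pointwise
open Cfsg Cfsg.Agent.FixBN.Gates Cfsg.Agent.BpGate
open Cfsg.Agent.Solvable.Carter Cfsg.Agent.H18.Carter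
open Cfsg.Agent.SignalizersComponents

universe u

/-- **MAIN LEMMA**, second form. -/
theorem exists_two' {Γ : Type u} [Group Γ] [Finite Γ] {H : Subgroup Γ} [hHn : H.Normal] {H0 : Type u} [Group H0]
    [Finite H0] {Pa : Set (Set (Sylow 2 H0))} {d : Sylow 2 H0 → Sylow 2 H0 → ℕ} (hG : GSys Pa d)
    (hI : BpGate.Inter Pa) (hopp : ∃ a b : Sylow 2 H0, (a : Subgroup H0) ⊓ b = ⊥)
    (ι : H0 ≃* H) {K : Subgroup Γ} (hK : IsCarter K)
    (hCC : ∀ (B : Type u) [Group B] [Finite B], Nat.card B ≤ Nat.card Γ → CC B)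
    (hFT : ∀ (B : Type u) [Group B] [Finite B], Odd (Nat.card B) → Group.IsSolvable B)
    (hN : ∀ (B : Type u) [Group B] [Finite B] (T R : Subgroup B), Nat.card B ≤ Nat.card Γ → AS B T R → ¬ Exc ↥T →
      Wt 2 R T) (he : 2 ∣ Nat.card H0) :
    ∃ Y : Subgroup Γ, Y ≤ H ∧ Y ≠ ⊥ ∧ IsPGroup 2 Y ∧ K ≤ normalizer (Y : Set Γ) := by
  refine exists_two hG hI hopp ι hK hCC hFT (fun J hJ B _ _ T R hB hAS hT => hN B T R hB hAS fun hE => ?_) he
  obtain ⟨e⟩ := hT
  have h2 : 2 ∣ Nat.card J := by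
    by_contra h
    rw [← even_iff_two_dvd, Nat.not_even_iff_odd] at h
    exact Components.quasisimple_not_isSolvable hJ.2 (hFT _ h)
  exact not_exc hG hI hopp hJ h2 (hE.congr e.symm)

end Cfsg.Agent.H460.Car
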