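import Cfsg.Agent.H18.Carter.Pass3
import Cfsg.Agent.H381.Car.Wp

/-!
# Invariant `l`-subgroups `≠ 1` and components (S3852, helper460)
-/

set_option autoImplicit false
set_option linter.unusedSectionVars false
set_option linter.unusedVariables false

namespace Cfsg.Agent.H460.Car

open Subgroup Pointwise
open Cfsg Cfsg.Agent.Solvable.Carter Cfsg.Agent.H18.Carter
open scoped commutatorElement

universe u

variable {G : Type u} [Group G]

/-- `K` normalises an `l`-subgroup `≠ 1` of `S` -/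
def Wt (l : ℕ) (K S : Subgroup G) : Prop :=
  ∃ P : Subgroup G, P ≤ S ∧ P ≠ ⊥ ∧ IsPGroup l P ∧ K ≤ normalizer (P : Set G)

theorem sup_isPGroup {l m : ℕ} (E P : Fin m → Subgroup G) (hPE : ∀ j, P j ≤ E j)
    (comm : ∀ i j, i ≠ j → E j ≤ centralizer (E i : Set G)) (hp : ∀ j, IsPGroup l (P j)) (s : Finset (Fin m)) :
    IsPGroup l (s.sup P : Subgroup G) ∧ s.sup P ≤ s.sup E := by
  classical
  induction s using Finset.induction_on with
  | empty =>
    refine ⟨?_, ?_⟩
    · rw [Finset.sup_empty]; exact IsPGroup.of_bot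
    · rw [Finset.sup_empty, Finset.sup_empty]
  | insert j s hj ih =>
    obtain ⟨h1, h3⟩ := ih
    rw [Finset.sup_insert, Finset.sup_insert]
    have hE : s.sup E ≤ centralizer (E j : Set G) := by
      refine Finset.sup_le fun i hi' => comm j i ?_
      rintro rfl
      exact hj hi'
    have hE' : E j ≤ centralizer ((s.sup E : Subgroup G) : Set G) := Subgroup.le_centralizer_iff.1 hE
    have hEP : E j ≤ normalizer ((s.sup P : Subgroup G) : Set G) :=
      (hE'.trans (centralizer_le h3)).trans (centralizer_le_normalizer _)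
    exact ⟨IsPGroup.to_sup_of_normal_right' (hp j) h1 ((hPE j).trans hEP), sup_le_sup (hPE j) h3⟩

/-- the orbit of a component -/
theorem wt_comps [Finite G] {K : Subgroup G} {m : ℕ} (c : Comps G K m) {l : ℕ} (i : Fin m)
    (h : Wt l (K ⊓ normalizer (c.E i : Set G)) (c.E i)) : Wt l K c.N := by
  obtain ⟨P, hPE, hP1, hP, hPK⟩ := h
  choose k hk hkE using fun j => c.trans i j
  let Q : Fin m → Subgroup G := fun j => MulAut.conj (k j) • P
  have hQE : ∀ j, Q j ≤ c.E j := fun j => by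
    rw [← hkE j]
    exact Subgroup.pointwise_smul_le_pointwise_smul_iff.2 hPE
  have hQ : ∀ j, IsPGroup l (Q j) := fun j => by
    show IsPGroup l (MulAut.conj (k j) • P : Subgroup G)
    rw [conj_smul_eq_map]
    exact hP.map _
  obtain ⟨h1, h3⟩ := sup_isPGroup c.E Q hQE (fun i j hij => c.E_le_cent hij) hQ Finset.univ
  have e1 : Finset.univ.sup c.E = c.N := Finset.sup_univ_eq_iSup _
  have e2 : Finset.univ.sup Q = ⨆ j, Q j := Finset.sup_univ_eq_iSup _
  rw [e1, e2] at h3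
  rw [e2] at h1
  refine ⟨⨆ j, Q j, h3, ?_, h1, ?_⟩
  · intro h
    apply hP1
    have h4 : Q i ≤ ⊥ := by rw [← h]; exact le_iSup Q i
    rw [eq_bot_iff]
    intro x hx
    have h5 : k i * x * (k i)⁻¹ ∈ Q i := by
      show k i * x * (k i)⁻¹ ∈ (MulAut.conj (k i) • P : Subgroup G)
      rw [mem_cj]
      have e3 : (k i)⁻¹ * (k i * x * (k i)⁻¹) * k i = x := by group
      rwa [e3]
    have h6 := h4 h5
    rw [mem_bot, mul_inv_eq_one, mul_eq_left] at h6
    rw [mem_bot]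
    exact h6
  have key : ∀ κ ∈ K, MulAut.conj κ • (⨆ j, Q j) ≤ ⨆ j, Q j := by
    intro κ hκ
    rw [conj_smul_eq_map, Subgroup.map_iSup]
    refine iSup_le fun j => ?_
    obtain ⟨j', hj'⟩ := c.perm κ hκ j
    refine le_trans ?_ (le_iSup Q j')
    rw [← conj_smul_eq_map]
    show MulAut.conj κ • MulAut.conj (k j) • P ≤ MulAut.conj (k j') • P
    have h4 : (k j')⁻¹ * (κ * k j) ∈ normalizer (P : Set G) := by
      apply hPK
      refine mem_inf.2 ⟨mul_mem (inv_mem (hk j')) (mul_mem hκ (hk j)), ?_⟩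
      rw [← cj_eq_self_iff, ← cj_cj, ← cj_cj, hkE j, hj', ← hkE j', cj_cj, inv_mul_cancel, cj_one]
    rw [← cj_eq_self_iff] at h4
    have h5 : MulAut.conj κ • MulAut.conj (k j) • P = MulAut.conj (k j') • P := by
      rw [cj_cj]
      nth_rw 2 [← h4]
      rw [cj_cj, mul_inv_cancel_left]
    exact h5.le
  intro κ hκ
  exact le_normalizer_of_conj (key κ hκ) (key κ⁻¹ (inv_mem hκ))

/-- one component, from its automorphism group -/
theorem wt_pass [Finite G] {K E : Subgroup G} {B : Type u} [Group B] [Finite B] {S R : Subgroup B}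
    {f : ↥(DD K E) →* B} (h : PassD K E B S R f) {l : ℕ} [hl : Fact l.Prime] (hn : Wt l R S) :
    Wt l (K ⊓ normalizer (E : Set G)) E := by
  obtain ⟨P', hPS, hP1', hP', hPR⟩ := hn
  have hED : E ≤ DD K E := le_DD _ _
  set E' : Subgroup (DD K E) := E.subgroupOf (DD K E) with hE'
  have hSE : S = E'.map f := by
    ext b
    rw [h.S_iff]
    rfl
  set Q : Subgroup (DD K E) := P'.comap f ⊓ E' with hQ
  -- `Q` is nilpotent
  let g : ↥Q →* ↥P' := (f.comp Q.subtype).codRestrict P' fun x => x.2.1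
  have hg : g.ker ≤ center Q := by
    intro x hx
    rw [MonoidHom.mem_ker] at hx
    have h1 : f x = 1 := congrArg Subtype.val hx
    have h2 := (h.ker _).1 h1
    rw [mem_center_iff]
    intro y
    apply Subtype.ext
    apply Subtype.ext
    exact h2 _ y.2.2
  have hQn : Group.IsNilpotent Q := by
    have := hP'.isNilpotent
    exact Subgroup.isNilpotent_of_ker_le_center g hg
  obtain ⟨P0⟩ : Nonempty (Sylow l Q) := inferInstance
  have hP0 : (P0 : Subgroup Q).Normal := inferInstance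
  have hchar : ∀ y : Q, (∃ n : ℕ, y ^ l ^ n = 1) → y ∈ (P0 : Subgroup Q) := by
    rintro y ⟨n, hy⟩
    have h1 : IsPGroup l (zpowers y) := by
      apply IsPGroup.of_card_dvd_pow (n := n)
      rw [Nat.card_zpowers]
      exact orderOf_dvd_of_pow_eq_one hy
    obtain ⟨P2, hP2⟩ := h1.exists_le_sylow
    have := Sylow.unique_of_normal P0 hP0
    rw [Subsingleton.elim P0 P2]
    exact hP2 (mem_zpowers y)
  set P1 : Subgroup (DD K E) := (P0 : Subgroup Q).map Q.subtype with hP1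
  have hmem : ∀ x : DD K E, x ∈ P1 ↔ x ∈ Q ∧ ∃ n : ℕ, x ^ l ^ n = 1 := by
    intro x
    constructor
    · rintro ⟨y, hy, rfl⟩
      refine ⟨y.2, ?_⟩
      obtain ⟨n, hn⟩ := (isPGroup_iff_pow_pow_eq_one.1 P0.2) ⟨y, hy⟩
      refine ⟨n, ?_⟩
      have h2 := congrArg (fun z : (P0 : Subgroup Q) => ((z : Q) : DD K E)) hn
      exact h2
    · rintro ⟨hx, n, hn⟩
      exact ⟨⟨x, hx⟩, hchar _ ⟨n, Subtype.ext hn⟩, rfl⟩
  refine ⟨P1.map (DD K E).subtype, ?_, ?_, ?_, ?_⟩
  · rintro _ ⟨x, hx, rfl⟩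
    exact ((hmem x).1 hx).1.2
  · -- a nontrivial element
    obtain ⟨b, hb, hb1⟩ := P'.bot_or_exists_ne_one.resolve_left hP1'
    obtain ⟨x, hx, rfl⟩ := (h.S_iff b).1 (hPS hb)
    obtain ⟨n, hn⟩ := hP' ⟨f x, hb⟩
    have hn' : (f x) ^ l ^ n = 1 := congrArg Subtype.val hn
    obtain ⟨a, m, hm, ho⟩ := Nat.exists_eq_pow_mul_and_not_dvd (n := orderOf x) (orderOf_pos x).ne' l hl.out.ne_one
    have hxm : x ^ m ∈ P1 := by
      refine (hmem _).2 ⟨pow_mem (show x ∈ Q from ⟨hb, hx⟩) m, a, ?_⟩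
      rw [← pow_mul, mul_comm, ← ho, pow_orderOf_eq_one]
    intro hbot
    have h4 : ((x ^ m : DD K E) : G) ∈ P1.map (DD K E).subtype := ⟨_, hxm, rfl⟩
    rw [hbot, mem_bot] at h4
    have h5 : x ^ m = 1 := Subtype.ext h4
    have h6 : (f x) ^ m = 1 := by rw [← map_pow, h5, map_one]
    apply hb1
    have h7 : orderOf (f x) ∣ l ^ n := orderOf_dvd_of_pow_eq_one hn'
    have h8 : orderOf (f x) ∣ m := orderOf_dvd_of_pow_eq_one h6
    have h9 : Nat.Coprime (l ^ n) m := Nat.Coprime.pow_left n ((Nat.Prime.coprime_iff_not_dvd hl.out).2 hm)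
    exact orderOf_eq_one_iff.1 (Nat.eq_one_of_dvd_coprimes h9 h7 h8)
  · exact (P0.2.map _).map _
  · intro k hk
    have hkD : k ∈ DD K E := inf_le_DD _ _ hk
    have hR : ∀ κ ∈ K ⊓ normalizer (E : Set G), ∀ x ∈ P1.map (DD K E).subtype, κ * x * κ⁻¹ ∈ P1.map (DD K E).subtype := by
      rintro κ hκ _ ⟨x, hx, rfl⟩
      have hκD : κ ∈ DD K E := inf_le_DD _ _ hκ
      refine ⟨⟨κ, hκD⟩ * x * ⟨κ, hκD⟩⁻¹, ?_, rfl⟩
      obtain ⟨⟨hx1, hx2⟩, n, hn⟩ := (hmem x).1 hx
      refine (hmem _).2 ⟨⟨?_, ?_⟩, n, ?_⟩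
      · have h3 : f ⟨κ, hκD⟩ ∈ R := (h.R_iff _).2 ⟨⟨κ, hκD⟩, hκ.1, rfl⟩
        have h4 := (mem_normalizer_iff.1 (hPR h3) (f x)).1 hx1
        show f _ ∈ P'
        rw [map_mul, map_mul, map_inv]
        exact h4
      · exact (mem_normalizer_iff.1 hκ.2 (x : G)).1 hx2
      · rw [conj_pow, hn, mul_one, mul_inv_cancel]
    rw [mem_normalizer_iff]
    intro x
    constructor
    · exact hR k hk x
    · intro hx
      have := hR k⁻¹ (inv_mem hk) _ hx
      have e1 : k⁻¹ * (k * x * k⁻¹) * k⁻¹⁻¹ = x := by group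
      rwa [e1] at this

/-- `K ∩ S` of even order -/
theorem wt_of_dvd [Finite G] {K S : Subgroup G} (hK : Group.IsNilpotent K) [S.Normal] (h : 2 ∣ Nat.card ↥(K ⊓ S)) :
    Wt 2 K S := by
  have : Fact (Nat.Prime 2) := ⟨Nat.prime_two⟩
  obtain ⟨z, hzS, hzK, hz, hzc⟩ := H381.Car.exists_central (S := S) hK h
  refine ⟨zpowers z, ?_, ?_, ?_, ?_⟩
  · rw [zpowers_le]; exact hzS
  · rw [Ne, zpowers_eq_bot]
    rintro rfl
    rw [orderOf_one] at hz
    omega
  · refine IsPGroup.of_card (n := 1) ?_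
    rw [Nat.card_zpowers, hz, pow_one]
  · refine le_trans ?_ (centralizer_le_normalizer _)
    intro k hk
    have h3 := hzc hk
    rw [mem_centralizer_singleton_iff] at h3
    rw [mem_centralizer_iff]
    intro y hy
    obtain ⟨n, rfl⟩ := mem_zpowers_iff.1 hy
    exact ((show Commute z k from h3.symm).zpow_left n)

/-- a Sylow subgroup is `≠ 1` -/
theorem wt_of_nrm [Finite G] {l : ℕ} {K S : Subgroup G} (hl : l ∣ Nat.card S) (h : Nrm l K S) : Wt l K S := by
  obtain ⟨P, hPS, hP, hPi, hPK⟩ := h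
  refine ⟨P, hPS, ?_, hP, hPK⟩
  rintro rfl
  rw [relIndex_bot_left] at hPi
  exact hPi hl

end Cfsg.Agent.H460.Car
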