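import Cfsg.Agent.H460.Car.SolB
import Cfsg.Agent.H18.Carter.Pass3
import Cfsg.Agent.H18.Carter.OfAS
import Cfsg.Agent.H381.Car.Wp
import Cfsg.Agent.H460.Car.Weak
import Cfsg.Agent.Lib.GenFitting

/-!
# Carter subgroups and groups with a gate system for `2` (S3852, helper460)

`exists_two`: `Γ` a finite group, `H0 → Γ` injective with normal image `H`, `H0` of even order with a gate system for
`p = 2`, `K` a Carter subgroup of `Γ`: then `K` normalises a `2`-subgroup `≠ 1` of `H`.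
-/

set_option autoImplicit false
set_option linter.unusedSectionVars false
set_option linter.unusedVariables false

namespace Cfsg.Agent.H460.Car

open Subgroup Pointwise
open Cfsg Cfsg.Agent.Solvable.Carter Cfsg.Agent.H18.Carter Cfsg.Agent.H381.Car
open Cfsg.Agent.FixBN.Gates Cfsg.Agent.BpGate
open Cfsg.Agent.SignalizersComponents Cfsg.Agent.Lib
open scoped commutatorElement

universe u

/-- the almost simple situation -/
structure AS (G : Type u) [Group G] (S K : Subgroup G) : Prop where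
  normal : S.Normal
  simple : IsSimpleGroup S
  na : ¬ ∀ a b : S, a * b = b * a
  cen : centralizer (S : Set G) = ⊥
  min : ∀ (B : Type u) [Group B] [Finite B], Nat.card B < Nat.card G → CC B
  carter : IsCarter K
  prod : K ⊔ S = ⊤

section Aut

variable {H : Type*} [Group H] [Finite H] {Pa : Set (Set (Sylow 2 H))} {d : Sylow 2 H → Sylow 2 H → ℕ}
variable {X : Subgroup H} [hX : X.Normal] {a : Sylow 2 H}

/-- automorphisms fix the far involution modulo `X` -/
theorem aut_far (s : Sol.Setup Pa d X a) {e : H} (he : e ∈ a) (he2 : e ^ 2 = 1)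
    (hfar : ∀ x ∈ X, e * x = x * e → x ∈ centralizer (a : Set H))
    (hu : ∀ f ∈ a, f ^ 2 = 1 → (∀ x ∈ X, f * x = x * f → x ∈ centralizer (a : Set H)) → f = e)
    (φ : H ≃* H) (hφ : ∀ x, x ∈ X → φ x ∈ X) (hφ' : ∀ x, x ∈ X → φ.symm x ∈ X) : e * (φ e)⁻¹ ∈ X := by
  have hcard : Nat.card ↥((a : Subgroup H).map φ.toMonoidHom) = Nat.card (a : Subgroup H) :=
    (Nat.card_congr ((a : Subgroup H).equivMapOfInjective φ.toMonoidHom φ.injective).toEquiv).symm
  let b : Sylow 2 H := Sylow.ofCard ((a : Subgroup H).map φ.toMonoidHom) (by rw [hcard]; exact a.card_eq_multiplicity)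
  have hb : ∀ y : H, y ∈ b ↔ φ.symm y ∈ a := by
    intro y
    constructor
    · rintro ⟨z, hz, rfl⟩
      show φ.symm (φ z) ∈ a
      rw [MulEquiv.symm_apply_apply]
      exact hz
    · intro hy
      exact ⟨_, hy, φ.apply_symm_apply y⟩
  obtain ⟨x, hx, hxb⟩ := s.htr b
  have h1 : ∀ y : H, x⁻¹ * y * x ∈ a ↔ φ.symm y ∈ a := by
    intro y
    rw [← hb, ← hxb, mem_smul_iff]
  -- `ψ = conj x⁻¹ ∘ φ` preserves `a` and `X`
  have hψa : ∀ y : H, y ∈ a ↔ x⁻¹ * φ y * x ∈ a := by
    intro y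
    rw [h1, MulEquiv.symm_apply_apply]
  have hfe : x⁻¹ * φ e * x = e := by
    refine hu _ ((hψa e).1 he) ?_ ?_
    · have e1 : x⁻¹ * φ e * x = x⁻¹ * φ e * x⁻¹⁻¹ := by rw [inv_inv]
      rw [e1, conj_pow, ← map_pow, he2, map_one, mul_one, mul_inv_cancel]
    · intro y hy hey
      set w : H := φ.symm (x * y * x⁻¹) with hw
      have hwX : w ∈ X := hφ' _ (hX.conj_mem y hy x)
      have hφw : φ w = x * y * x⁻¹ := φ.apply_symm_apply _
      have h2 : e * w = w * e := by
        apply φ.injective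
        rw [map_mul, map_mul, hφw]
        calc φ e * (x * y * x⁻¹) = x * ((x⁻¹ * φ e * x) * y) * x⁻¹ := by group
          _ = x * (y * (x⁻¹ * φ e * x)) * x⁻¹ := by rw [hey]
          _ = x * y * x⁻¹ * φ e := by group
      have h3 := hfar w hwX h2
      rw [mem_centralizer_iff] at h3 ⊢
      intro k hk
      have hk' : φ.symm (x * k * x⁻¹) ∈ a := by
        rw [← h1]
        have e1 : x⁻¹ * (x * k * x⁻¹) * x = k := by group
        rw [e1]
        exact hk
      have hk2 : φ (φ.symm (x * k * x⁻¹)) = x * k * x⁻¹ := φ.apply_symm_apply _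
      have h4 := congrArg φ (h3 _ hk')
      rw [map_mul φ, map_mul φ, hφw, hk2] at h4
      calc k * y = x⁻¹ * ((x * k * x⁻¹) * (x * y * x⁻¹)) * x := by group
        _ = x⁻¹ * ((x * y * x⁻¹) * (x * k * x⁻¹)) * x := by rw [h4]
        _ = y * k := by group
  have h2 : φ e = x * e * x⁻¹ := by
    calc φ e = x * (x⁻¹ * φ e * x) * x⁻¹ := by group
      _ = x * e * x⁻¹ := by rw [hfe]
  have h3 : e * (φ e)⁻¹ = (e * x * e⁻¹) * x⁻¹ := by rw [h2]; group
  rw [h3]
  exact mul_mem (hX.conj_mem x hx e) (inv_mem hx)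

end Aut

section Main

variable {Γ : Type u} [Group Γ] [Finite Γ] {H : Subgroup Γ} [hHn : H.Normal]
variable {H0 : Type u} [Group H0] [Finite H0] {Pa : Set (Set (Sylow 2 H0))} {d : Sylow 2 H0 → Sylow 2 H0 → ℕ}

/-- no components: the far involution -/
theorem exists_two_of_layer (hG : GSys Pa d) (hI : BpGate.Inter Pa) (hopp : ∃ a b : Sylow 2 H0, (a : Subgroup H0) ⊓ b = ⊥)
    (ι : H0 ≃* H) {K : Subgroup Γ} (hK : IsCarter K)
    (hCC : ∀ (B : Type u) [Group B] [Finite B], Nat.card B ≤ Nat.card Γ → CC B)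
    (he : 2 ∣ Nat.card H0) (hl : layer H0 = ⊥) :
    ∃ Y : Subgroup Γ, Y ≤ H ∧ Y ≠ ⊥ ∧ IsPGroup 2 Y ∧ K ≤ normalizer (Y : Set Γ) := by
  have hcore : pCore 2 H0 = ⊥ := by
    obtain ⟨a, b, hab⟩ := hopp
    rw [eq_bot_iff, ← hab]
    exact le_inf (Cores.pCore_le_sylow a) (Cores.pCore_le_sylow b)
  set X : Subgroup H0 := fittingSubgroup H0 with hX
  have hXn : X.Normal := Cores.fittingSubgroup_normal
  have hXnil : Group.IsNilpotent X := Cores.fittingSubgroup_isNilpotent
  have hXchar : X.Characteristic := Cores.fittingSubgroup_characteristic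
  have hF : generalizedFittingSubgroup H0 = X := by
    rw [GenFitting.genFitting_def, hl, bot_sup_eq]
  have hCX : centralizer (X : Set H0) ≤ X := by
    have := GenFitting.centralizer_genFitting_le (G := H0)
    rwa [hF] at this
  have ho : Odd (Nat.card X) := by
    rw [← Nat.not_even_iff_odd, even_iff_two_dvd]
    intro h2
    obtain ⟨z, hz⟩ := exists_prime_orderOf_dvd_card' 2 h2
    have hz2 : (z : H0) ^ 2 ^ 1 = 1 := by
      rw [pow_one, ← Subgroup.coe_pow, ← hz, pow_orderOf_eq_one, Subgroup.coe_one]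
    have h3 := GenFitting.mem_pCore_of_mem_fitting (p := 2) z.2 hz2
    rw [hcore, mem_bot] at h3
    have h4 : z = 1 := Subtype.ext h3
    rw [h4, orderOf_one] at hz
    omega
  obtain ⟨a⟩ : Nonempty (Sylow 2 H0) := inferInstance
  have s : Sol.Setup Pa d X a := by
    refine ⟨hG, hI, hXnil, ho, fun b => ?_, fun u hu hux => ?_⟩
    · obtain ⟨h, hh, hhb⟩ := BpGate.conn hG hI (Sol.disj ho) a b
      exact ⟨h, (sup_le le_rfl hCX) hh, hhb⟩
    · have h1 : u ∈ X := hCX (fun x hx => (hux x hx).symm)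
      exact Subgroup.disjoint_def.1 (Sol.disj ho a) h1 hu
  have ha : (a : Subgroup H0) ≠ ⊥ := by
    intro h
    have h1 := a.card_eq_multiplicity
    rw [h, Subgroup.card_bot] at h1
    have h2 : 0 < (Nat.card H0).factorization 2 := Nat.Prime.factorization_pos_of_dvd Nat.prime_two
      Nat.card_pos.ne' he
    have h3 : 1 < 2 ^ (Nat.card H0).factorization 2 := Nat.one_lt_two_pow h2.ne'
    omega
  obtain ⟨e, hea, he1, he2, hfar, hu⟩ := s.exists_far ha
  -- the image of `X`
  set X' : Subgroup Γ := X.map (H.subtype.comp ι.toMonoidHom) with hX'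
  have hιk : ∀ k : Γ, ∃ φ : H0 ≃* H0, ∀ y : H0, ((ι (φ y) : H) : Γ) = k * (ι y : Γ) * k⁻¹ := by
    intro k
    refine ⟨(ι.trans (MulAut.conjNormal k : MulAut H)).trans ι.symm, fun y => ?_⟩
    simp only [MulEquiv.trans_apply, MulEquiv.apply_symm_apply, MulAut.conjNormal_apply]
  have hX'n : X'.Normal := by
    refine ⟨fun x hx g => ?_⟩
    obtain ⟨y, hy, rfl⟩ := hx
    obtain ⟨φ, hφ⟩ := hιk g
    refine ⟨φ y, ?_, hφ y⟩
    exact (Subgroup.characteristic_iff_le_comap.1 hXchar φ) hy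
  have hX'H : X' ≤ H := by
    rintro _ ⟨y, -, rfl⟩
    exact (ι y).2
  have hs : ∀ k ∈ K, (ι e : Γ) * k * (ι e : Γ)⁻¹ * k⁻¹ ∈ X' := by
    intro k _
    obtain ⟨φ, hφ⟩ := hιk k
    have h1 := aut_far s hea he2 hfar hu φ (fun x hx => (Subgroup.characteristic_iff_le_comap.1 hXchar φ) hx)
      (fun x hx => (Subgroup.characteristic_iff_le_comap.1 hXchar φ.symm) hx)
    refine ⟨_, h1, ?_⟩
    show ((ι (e * (φ e)⁻¹) : H) : Γ) = _
    rw [map_mul, map_inv, Subgroup.coe_mul, Subgroup.coe_inv, hφ]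
    group
  have h1 : (ι e : Γ) ∈ K ⊔ X' := by
    refine w_principle_of (hCC _ (Subgroup.card_le_card_group _)) hK ?_ hs
    rw [normalizer_eq_top_iff.2 hX'n]
    trivial
  -- `|K ∩ H|` is even
  have h2 : 2 ∣ Nat.card ↥(K ⊓ H) := by
    by_contra hodd
    obtain ⟨k, hk, x, hx, hkx⟩ := mul_mem_of_norm' (A := K) (B := X')
      (by rw [normalizer_eq_top_iff.2 hX'n]; exact le_top) h1
    have hkH : k ∈ H := by
      have h3 : k = (ι e : Γ) * x⁻¹ := by rw [hkx]; group
      rw [h3]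
      exact mul_mem (ι e).2 (inv_mem (hX'H hx))
    have h3 : (ι e : Γ) ∈ (K ⊓ H) ⊔ X' := by
      rw [hkx]
      exact mul_mem (mem_sup_left ⟨hk, hkH⟩) (mem_sup_right hx)
    have h4 : orderOf (ι e : Γ) = 2 := by
      rw [orderOf_eq_prime_iff]
      refine ⟨?_, fun h => he1 ?_⟩
      · rw [← Subgroup.coe_pow, ← map_pow, he2, map_one, Subgroup.coe_one]
      · exact ι.injective (by rw [map_one]; exact Subtype.ext h)
    have h5 : 2 ∣ Nat.card ↥(X' ⊔ (K ⊓ H)) := by
      rw [sup_comm, ← h4]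
      exact Subgroup.orderOf_dvd_natCard _ h3
    have h6 := h5.trans (CoprimeBasic.card_sup_dvd (X := X') (Y := K ⊓ H)
      (by rw [normalizer_eq_top_iff.2 hX'n]; exact le_top))
    rcases (Nat.Prime.dvd_mul Nat.prime_two).1 h6 with h7 | h7
    · rw [hX', ← Nat.card_congr (X.equivMapOfInjective _ (H.subtype_injective.comp ι.injective)).toEquiv] at h7
      exact Nat.not_even_iff_odd.2 ho (even_iff_two_dvd.2 h7)
    · exact hodd h7
  obtain ⟨z, hzH, hzK, hz, hzc⟩ := exists_central (S := H) hK.1 h2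
  refine ⟨zpowers z, ?_, ?_, ?_, ?_⟩
  · rw [zpowers_le]; exact hzH
  · rw [Ne, zpowers_eq_bot]
    rintro rfl
    rw [orderOf_one] at hz
    omega
  · refine IsPGroup.of_card (n := 1) ?_
    rw [Nat.card_zpowers, hz, pow_one]
  · refine le_trans ?_ (centralizer_le_normalizer _)
    intro k hk
    have h3 := hzc hk
    rw [mem_centralizer_singleton_iff] at h3
    rw [mem_centralizer_iff]
    intro y hy
    obtain ⟨n, rfl⟩ := mem_zpowers_iff.1 hy
    exact ((show Commute z k from h3.symm).zpow_left n)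

/-- the `K`-orbit of a component -/
theorem exists_orbit (K : Subgroup Γ) {E : Subgroup Γ} (hE : IsComponent E) :
    ∃ (m : ℕ) (c : Comps Γ K m) (i : Fin m), c.E i = E ∧ ∀ N : Subgroup Γ, N.Normal → E ≤ N → c.N ≤ N := by
  let Ω : Type u := {E' : Subgroup Γ // ∃ k ∈ K, MulAut.conj k • E = E'}
  have : Finite Ω := Subtype.finite
  obtain ⟨m, ⟨f⟩⟩ := Finite.exists_equiv_fin Ω
  have hcomp : ∀ i : Fin m, IsComponent ((f.symm i).1) := by
    intro i
    obtain ⟨k, -, hk⟩ := (f.symm i).2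
    rw [← hk, conj_smul_eq_map]
    exact Components.isComponent_conj k hE
  have hf : ∀ {E' : Subgroup Γ}, (∃ k ∈ K, MulAut.conj k • E = E') → ∃ j, (f.symm j).1 = E' := by
    intro E' h
    exact ⟨f ⟨E', h⟩, by rw [f.symm_apply_apply]⟩
  let c : Comps Γ K m :=
    { E := fun i => (f.symm i).1
      perf := fun i => Subgroup.isPerfect_iff.1 (hcomp i).2.1
      ne := fun i h => by
        have h1 := Components.quasisimple_nontrivial (hcomp i).2
        rw [h] at h1
        exact not_subsingleton _ (inferInstance : Subsingleton (⊥ : Subgroup Γ))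
      comm := fun i j hij x hx y hy => by
        have hne : (f.symm j).1 ≠ (f.symm i).1 := fun h => hij (f.symm.injective (Subtype.ext h)).symm
        exact (Components.component_le_centralizer_of_ne (hcomp j) (hcomp i) hne hy) x hx
      perm := fun k hk i => by
        obtain ⟨k', hk', h⟩ := (f.symm i).2
        obtain ⟨j, hj⟩ := hf (E' := MulAut.conj k • (f.symm i).1) ⟨k * k', mul_mem hk hk', by rw [← h, cj_cj]⟩
        exact ⟨j, hj.symm⟩
      trans := fun i j => by
        obtain ⟨k, hk, h⟩ := (f.symm i).2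
        obtain ⟨k', hk', h'⟩ := (f.symm j).2
        refine ⟨k' * k⁻¹, mul_mem hk' (inv_mem hk), ?_⟩
        rw [← h, ← h', cj_cj, inv_mul_cancel_right] }
  obtain ⟨i, hi⟩ := hf (E' := E) ⟨1, one_mem _, cj_one E⟩
  refine ⟨m, c, i, hi, fun N hN hEN => iSup_le fun j => ?_⟩
  obtain ⟨k, -, h⟩ := (f.symm j).2
  show (f.symm j).1 ≤ N
  rw [← h]
  intro x hx
  rw [H18.Carter.mem_cj] at hx
  have h1 := hN.conj_mem _ (hEN hx) k
  have e1 : k * (k⁻¹ * x * k) * k⁻¹ = x := by group
  rwa [e1] at h1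

theorem quot_center_equiv {K L : Type*} [Group K] [Group L] (e : K ≃* L) :
    Nonempty (K ⧸ center K ≃* L ⧸ center L) := by
  refine ⟨QuotientGroup.congr (center K) (center L) e ?_⟩
  ext x
  constructor
  · rintro ⟨y, hy, rfl⟩
    rw [mem_center_iff]
    intro g
    obtain ⟨g', rfl⟩ := e.surjective g
    have := (mem_center_iff.mp hy) g'
    simpa using congrArg e this
  · intro hx
    refine ⟨e.symm x, ?_, by simp⟩
    rw [SetLike.mem_coe, mem_center_iff]
    intro g
    have := (mem_center_iff.mp hx) (e g)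
    simpa using congrArg e.symm this

/-- an invariant `2`-subgroup `≠ 1` of the product of the `K`-orbit of a component -/
theorem wt_of_comp {K : Subgroup Γ} (hK : IsCarter K)
    (hCC : ∀ (B : Type u) [Group B] [Finite B], Nat.card B < Nat.card Γ → CC B) {m : ℕ} (c : Comps Γ K m)
    (i : Fin m) (hq : IsQuasisimple (c.E i))
    (hN : ∀ (B : Type u) [Group B] [Finite B] (T R : Subgroup B), Nat.card B ≤ Nat.card Γ → AS B T R →
      Nonempty (↥(c.E i) ⧸ center ↥(c.E i) ≃* ↥T) → Wt 2 R T) : Wt 2 K c.N := by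
  obtain ⟨B, _, _, T, R, f, h, hB⟩ := c.pass hK hCC i
  have hBG : Nat.card B ≤ Nat.card Γ := hB.trans (Subgroup.card_le_card_group _)
  have : Fact (Nat.Prime 2) := ⟨Nat.prime_two⟩
  refine wt_comps c i (wt_pass h ?_)
  refine hN B T R hBG ⟨h.normal, h.simple hq.2, h.na (c.perf i) (c.ne i), h.cen, fun B' _ _ hB' =>
    hCC B' (hB'.trans_le hBG), h.carter, h.sup⟩ h.equiv

/-- **MAIN LEMMA.** -/
theorem exists_two (hG : GSys Pa d) (hI : BpGate.Inter Pa) (hopp : ∃ a b : Sylow 2 H0, (a : Subgroup H0) ⊓ b = ⊥)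
    (ι : H0 ≃* H) {K : Subgroup Γ} (hK : IsCarter K)
    (hCC : ∀ (B : Type u) [Group B] [Finite B], Nat.card B ≤ Nat.card Γ → CC B)
    (hFT : ∀ (B : Type u) [Group B] [Finite B], Odd (Nat.card B) → Group.IsSolvable B)
    (hN : ∀ J : Subgroup H0, IsComponent J → ∀ (B : Type u) [Group B] [Finite B] (T R : Subgroup B),
      Nat.card B ≤ Nat.card Γ → AS B T R → Nonempty (↥J ⧸ center ↥J ≃* ↥T) → Wt 2 R T)
    (he : 2 ∣ Nat.card H0) :
    ∃ Y : Subgroup Γ, Y ≤ H ∧ Y ≠ ⊥ ∧ IsPGroup 2 Y ∧ K ≤ normalizer (Y : Set Γ) := by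
  by_cases hl : ∃ J : Subgroup H0, IsComponent J
  · obtain ⟨J, hJ⟩ := hl
    set E : Subgroup Γ := J.map (H.subtype.comp ι.toMonoidHom) with hEdef
    have hE : IsComponent E := by
      have h1 := Components.isComponent_map_subtype hHn.isSubnormal (Components.isComponent_map_equiv ι hJ)
      rwa [Subgroup.map_map] at h1
    have hEH : E ≤ H := by
      rintro _ ⟨y, -, rfl⟩
      exact (ι y).2
    obtain ⟨m, c, i, hi, hcN⟩ := exists_orbit K hE
    obtain ⟨P, hPN, hP1, hP, hPK⟩ := wt_of_comp hK (fun B _ _ hB => hCC B hB.le) c i (by rw [hi]; exact hE.2)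
      (fun B _ _ T R hB hAS hT => hN J hJ B T R hB hAS (by
        obtain ⟨e1⟩ := quot_center_equiv (J.equivMapOfInjective (H.subtype.comp ι.toMonoidHom)
          (H.subtype_injective.comp ι.injective))
        rw [hi] at hT
        obtain ⟨e2⟩ := hT
        exact ⟨e1.trans e2⟩))
    exact ⟨P, hPN.trans (hcN H hHn hEH), hP1, hP, hPK⟩
  · refine exists_two_of_layer hG hI hopp ι hK hCC he ?_
    rw [GenFitting.layer_def, sSup_eq_bot]
    intro J hJ
    exact absurd ⟨J, hJ⟩ hl

end Main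

end Cfsg.Agent.H460.Car
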