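import Cfsg.Agent.BpGate.Main
import Cfsg.Agent.SignalizersComponents.CoprimeBasic

/-!
# Gate systems and odd normal subgroups: the far involution (helper460, S3852)

`H` is a finite group whose Sylow `2`-subgroups form a chamber system with gates, `X` a normal nilpotent subgroup of odd
order, transitive on the chambers and such that `C_a(X) = 1`. Then a Sylow `2`-subgroup `a ≠ 1` contains exactly one
involution `e` with `C_X(e) = C_X(a)`.
-/

set_option autoImplicit false
set_option linter.unusedSectionVars false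

namespace Cfsg.Agent.H460.Car.Sol

open Cfsg.Agent.FixBN.Gates Cfsg.Agent.BpGate
open scoped Pointwise commutatorElement

variable {H : Type*} [Group H] {Pa : Set (Set (Sylow 2 H))} {d : Sylow 2 H → Sylow 2 H → ℕ}

/-- the intersection of the chambers of a panel -/
def Kr (S : Set (Sylow 2 H)) : Subgroup H := ⨅ e : S, ((e : Sylow 2 H) : Subgroup H)

theorem mem_Kr {S : Set (Sylow 2 H)} {u : H} : u ∈ Kr S ↔ ∀ e ∈ S, u ∈ e := by
  unfold Kr
  rw [Subgroup.mem_iInf]
  exact ⟨fun h e he => h ⟨e, he⟩, fun h e => h e.1 e.2⟩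

theorem Kr_le {S : Set (Sylow 2 H)} {a : Sylow 2 H} (ha : a ∈ S) : Kr S ≤ a := fun _ hu => mem_Kr.1 hu a ha

theorem mem_iff_Kr (hG : GSys Pa d) {S : Set (Sylow 2 H)} (hS : S ∈ Pa) {b : Sylow 2 H} : b ∈ S ↔ Kr S ≤ b := by
  constructor
  · exact fun hb => Kr_le hb
  · intro hb
    obtain ⟨K, hK⟩ := hG.ker S hS
    rw [hK]
    refine le_trans (fun u hu => mem_Kr.2 fun e he => (hK e).1 he hu) hb

theorem mem_Kr_smul {S : Set (Sylow 2 H)} {g u : H} : u ∈ Kr (g • S) ↔ g⁻¹ * u * g ∈ Kr S := by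
  rw [mem_Kr, mem_Kr]
  constructor
  · intro h e he
    exact mem_smul_iff.1 (h (g • e) (Set.smul_mem_smul_set he))
  · rintro h _ ⟨e, he, rfl⟩
    exact mem_smul_iff.2 (h e he)

section Basic

variable {X : Subgroup H} [hX : X.Normal] {a : Sylow 2 H} {S S' : Set (Sylow 2 H)}

include hX in
theorem smul_mem_iff (hG : GSys Pa d) (hd : ∀ b : Sylow 2 H, Disjoint X (b : Subgroup H)) (hS : S ∈ Pa) (ha : a ∈ S)
    {x : H} (hx : x ∈ X) : x • a ∈ S ↔ x ∈ Subgroup.centralizer (Kr S : Set H) := by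
  constructor
  · intro h k hk
    have h1 := comm_of_mem hd hx (Kr_le ha hk) (Kr_le h hk)
    exact h1.symm
  · intro h
    rw [mem_iff_Kr hG hS]
    intro k hk
    have h1 := h k hk
    show k ∈ (x • a : Sylow 2 H)
    rw [mem_smul_iff]
    have e1 : x⁻¹ * k * x = k := by
      rw [mul_assoc, h1]; group
    rw [e1]
    exact Kr_le ha hk

include hX in
/-- elements of `a` fixing a chamber `≠ a` of `S` lie in `Kr S` -/
theorem mem_Kr_of (hI : BpGate.Inter Pa) (hS : S ∈ Pa) (ha : a ∈ S) {x : H} (hxS : x • a ∈ S) (hne : x • a ≠ a) {u : H}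
    (hu : u ∈ a) (hux : u * x = x * u) : u ∈ Kr S := by
  have h1 : u ∈ (x • a : Sylow 2 H) := by
    rw [mem_smul_iff]
    have e1 : x⁻¹ * u * x = u := by rw [mul_assoc, hux]; group
    rw [e1]
    exact hu
  exact mem_Kr.2 fun e he => hI S hS a ha (x • a) hxS (Ne.symm hne) u hu h1 e he

include hX in
/-- two panels at `a` have only the chamber `a` in common -/
theorem panel_eq (hG : GSys Pa d) (hI : BpGate.Inter Pa) (hS : S ∈ Pa) (hS' : S' ∈ Pa) (ha : a ∈ S) (ha' : a ∈ S')
    {b : Sylow 2 H} (hb : b ∈ S) (hb' : b ∈ S') (hne : b ≠ a) : S = S' := by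
  have key : ∀ T ∈ Pa, a ∈ T → b ∈ T → Kr T = (a : Subgroup H) ⊓ b := by
    intro T hT h1 h2
    apply le_antisymm (le_inf (Kr_le h1) (Kr_le h2))
    rintro u ⟨hu, hu'⟩
    exact mem_Kr.2 fun e he => hI T hT a h1 b h2 (Ne.symm hne) u hu hu' e he
  ext e
  rw [mem_iff_Kr hG hS, mem_iff_Kr hG hS', key S hS ha hb, key S' hS' ha' hb']

include hX in
/-- **The covering lemma.** -/
theorem cover (hG : GSys Pa d) (hI : BpGate.Inter Pa) (hd : ∀ b : Sylow 2 H, Disjoint X (b : Subgroup H))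
    (htr : ∀ b : Sylow 2 H, ∃ x ∈ X, x • a = b) (hS : S ∈ Pa) (ha : a ∈ S) {v : H} (hv : v ∈ X) {w : H}
    (hw : w ∈ a) : ∃ u ∈ a, w⁻¹ * u ∈ Kr S ∧ v⁻¹ * (u * v * u⁻¹) ∈ X ∧
      v⁻¹ * (u * v * u⁻¹) ∈ Subgroup.centralizer (Kr S : Set H) := by
  obtain ⟨c, hc, hg⟩ := hG.gate (v • S) (hG.smul S hS v) a
  obtain ⟨g, hgX, rfl⟩ := htr c
  have hy : (v⁻¹ * g) • a ∈ S := by
    rw [mul_smul, ← Set.mem_smul_set_iff_inv_smul_mem]
    exact hc
  have hyX : v⁻¹ * g ∈ X := mul_mem (inv_mem hv) hgX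
  have hyc := (smul_mem_iff hG hd hS ha hyX).1 hy
  obtain ⟨b0, hb0, hb0a, -⟩ := hG.three S hS a ha a ha
  obtain ⟨z, hz, rfl⟩ := htr b0
  have hzc := (smul_mem_iff hG hd hS ha hz).1 hb0
  have hwS : w • S = S := hG.self S hS a ha w hw
  have hwa : w⁻¹ • a = a := inv_smul_self hw
  have hz'e : (w * z * w⁻¹) • a = w • (z • a) := by rw [mul_smul, mul_smul, hwa]
  have hz'S : (w * z * w⁻¹) • a ∈ S := by
    rw [hz'e, ← hwS]
    exact Set.smul_mem_smul_set hb0
  have hz'X : w * z * w⁻¹ ∈ X := hX.conj_mem z hz w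
  have hz'c := (smul_mem_iff hG hd hS ha hz'X).1 hz'S
  have hmem : ∀ t ∈ X, t ∈ Subgroup.centralizer (Kr S : Set H) → g • (t • a) ∈ v • S := by
    intro t ht htc
    rw [Set.mem_smul_set_iff_inv_smul_mem, ← mul_smul, ← mul_smul,
      smul_mem_iff hG hd hS ha (mul_mem hyX ht)]
    exact mul_mem hyc htc
  have hb1 := hmem z hz hzc
  have hb2 := hmem _ hz'X hz'c
  have hne1 : g • (z • a) ≠ g • a := fun h => hb0a (smul_left_cancel g h)
  have hne2 : g • ((w * z * w⁻¹) • a) ≠ g • a := fun h => by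
    have h1 := smul_left_cancel g h
    rw [hz'e] at h1
    apply hb0a
    have h2 : z • a = w⁻¹ • a := by
      conv_rhs => rw [← h1]
      rw [inv_smul_smul]
    rw [h2, hwa]
  obtain ⟨u, hu, huS, hub⟩ := hg.tr _ hb1 _ hb2 hne1 hne2
  have huc : u ∈ (g • a : Sylow 2 H) := mem_of_smul_eq hu (hg.fix u hu huS)
  have hgu : g * u = u * g := comm_of_mem hd hgX hu huc
  have hua : u • a = a := smul_self hu
  refine ⟨u, hu, ?_, ?_, ?_⟩
  · have h1 : u • (z • a) = (w * z * w⁻¹) • a := by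
      apply smul_left_cancel g
      rw [← hub, ← mul_smul, hgu, mul_smul]
    have h2 : (w⁻¹ * u) • (z • a) = z • a := by
      rw [mul_smul, h1, hz'e, inv_smul_smul]
    have h3 : w⁻¹ * u ∈ a := mul_mem (inv_mem hw) hu
    have h4 : w⁻¹ * u ∈ (z • a : Sylow 2 H) := mem_of_smul_eq h3 h2
    exact mem_Kr.2 fun e he => hI S hS a ha (z • a) hb0 (Ne.symm hb0a) _ h3 h4 e he
  · exact mul_mem (inv_mem hv) (hX.conj_mem v hv u)
  · have h1 : v⁻¹ * (u * v * u⁻¹) ∈ X := mul_mem (inv_mem hv) (hX.conj_mem v hv u)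
    rw [← smul_mem_iff hG hd hS ha h1]
    have h2 : (v⁻¹ * (u * v * u⁻¹)) • a = v⁻¹ • (u • (v • a)) := by
      rw [mul_smul, mul_smul, mul_smul, inv_smul_self hu]
    rw [h2, ← Set.mem_smul_set_iff_inv_smul_mem, ← huS]
    exact Set.smul_mem_smul_set (Set.smul_mem_smul_set ha)

include hX in
/-- `a = Kr S * Kr S'` for two panels at `a` -/
theorem Kr_mul (hG : GSys Pa d) (hI : BpGate.Inter Pa) (hd : ∀ b : Sylow 2 H, Disjoint X (b : Subgroup H))
    (htr : ∀ b : Sylow 2 H, ∃ x ∈ X, x • a = b) (hS : S ∈ Pa) (hS' : S' ∈ Pa) (ha : a ∈ S) (ha' : a ∈ S')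
    (hne : S ≠ S') {w : H} (hw : w ∈ a) : ∃ u ∈ Kr S, w⁻¹ * u ∈ Kr S' := by
  obtain ⟨b0, hb0, hb0a, -⟩ := hG.three S hS a ha a ha
  obtain ⟨z, hz, rfl⟩ := htr b0
  obtain ⟨u, hu, h1, h2, h3⟩ := cover hG hI hd htr hS' ha' hz hw
  refine ⟨u, ?_, h1⟩
  have h4 := (smul_mem_iff hG hd hS' ha' h2).2 h3
  have hua : u⁻¹ • a = a := inv_smul_self hu
  have huS : u • S = S := hG.self S hS a ha u hu
  have h5 : (u * z * u⁻¹) • a ∈ S := by
    rw [mul_smul, mul_smul, hua, ← huS]
    exact Set.smul_mem_smul_set hb0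
  have h6 : (z⁻¹ * (u * z * u⁻¹)) • a ∈ S := by
    rw [smul_mem_iff hG hd hS ha h2]
    exact mul_mem (inv_mem ((smul_mem_iff hG hd hS ha hz).1 hb0))
      ((smul_mem_iff hG hd hS ha (hX.conj_mem z hz u)).1 h5)
  have h7 : (z⁻¹ * (u * z * u⁻¹)) • a = a := by
    by_contra h
    exact hne (panel_eq (X := X) hG hI hS hS' ha ha' h6 h4 h)
  have h8 : u • (z • a) = z • a := by
    have h9 : (u * z * u⁻¹) • a = z • a := by
      have e1 : u * z * u⁻¹ = z * (z⁻¹ * (u * z * u⁻¹)) := by group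
      rw [e1, mul_smul, h7]
    rw [mul_smul, mul_smul, hua] at h9
    exact h9
  have h9 : u ∈ (z • a : Sylow 2 H) := mem_of_smul_eq hu h8
  exact mem_Kr.2 fun e he => hI S hS a ha (z • a) hb0 (Ne.symm hb0a) _ hu h9 e he

end Basic

/-! ### the action on `X / X'` -/

section Ab

variable {X : Subgroup H} [hX : X.Normal]

/-- the action of `h` on the abelianization of `X` -/
noncomputable def A (X : Subgroup H) [X.Normal] (h : H) : Abelianization X →* Abelianization X :=
  Abelianization.map (MulAut.conjNormal h : MulAut X).toMonoidHom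

theorem A_of (h : H) (x : X) : A X h (Abelianization.of x) = Abelianization.of (MulAut.conjNormal h x) := rfl

theorem A_mul (g h : H) (v : Abelianization X) : A X (g * h) v = A X g (A X h v) := by
  induction v using QuotientGroup.induction_on with
  | H x =>
    change A X (g * h) (Abelianization.of x) = A X g (A X h (Abelianization.of x))
    rw [A_of, A_of, A_of, map_mul, MulAut.mul_apply]

theorem A_one (v : Abelianization X) : A X 1 v = v := by
  induction v using QuotientGroup.induction_on with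
  | H x =>
    change A X 1 (Abelianization.of x) = Abelianization.of x
    rw [A_of, map_one, MulAut.one_apply]

theorem A_of_comm {h : H} {x : X} (hx : h * x = x * h) : A X h (Abelianization.of x) = Abelianization.of x := by
  rw [A_of]
  congr 1
  apply Subtype.ext
  rw [MulAut.conjNormal_apply, hx]
  group

/-- the norm -/
noncomputable def N (X : Subgroup H) [X.Normal] (K : Subgroup H) [Fintype K] (v : Abelianization X) :
    Abelianization X := ∏ k : K, A X (k : H) v

variable {K : Subgroup H} [Fintype K]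

theorem N_mul (v w : Abelianization X) : N X K (v * w) = N X K v * N X K w := by
  unfold N
  rw [← Finset.prod_mul_distrib]
  exact Finset.prod_congr rfl fun k _ => map_mul _ _ _

theorem N_one : N X K 1 = 1 := by
  unfold N
  exact Finset.prod_eq_one fun k _ => map_one _

theorem N_prod {ι : Type*} (s : Finset ι) (f : ι → Abelianization X) :
    N X K (∏ i ∈ s, f i) = ∏ i ∈ s, N X K (f i) := by
  classical
  induction s using Finset.induction_on with
  | empty => rw [Finset.prod_empty, Finset.prod_empty, N_one]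
  | insert i s hi ih => rw [Finset.prod_insert hi, Finset.prod_insert hi, N_mul, ih]

theorem N_fix {k : H} (hk : k ∈ K) (v : Abelianization X) : A X k (N X K v) = N X K v := by
  unfold N
  rw [map_prod]
  refine Fintype.prod_equiv (Equiv.mulLeft (⟨k, hk⟩ : K)) _ _ fun x => ?_
  rw [← A_mul]
  rfl

theorem N_absorb {k : H} (hk : k ∈ K) (v : Abelianization X) : N X K (A X k v) = N X K v := by
  unfold N
  refine Fintype.prod_equiv (Equiv.mulRight (⟨k, hk⟩ : K)) _ _ fun x => ?_
  rw [← A_mul]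
  rfl

theorem N_conj {u : H} (hu : u ∈ Subgroup.normalizer (K : Set H)) (v : Abelianization X) :
    A X u (N X K v) = N X K (A X u v) := by
  unfold N
  rw [map_prod]
  have hm : ∀ k : K, u * (k : H) * u⁻¹ ∈ K := fun k => (Subgroup.mem_normalizer_iff.1 hu k).1 k.2
  have hm' : ∀ k : K, u⁻¹ * (k : H) * u ∈ K := fun k => by
    have := (Subgroup.mem_normalizer_iff.1 (inv_mem hu) k).1 k.2
    rwa [inv_inv] at this
  refine Fintype.prod_equiv (⟨fun k => ⟨_, hm k⟩, fun k => ⟨_, hm' k⟩, fun k => ?_, fun k => ?_⟩ : K ≃ K) _ _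
    fun x => ?_
  · apply Subtype.ext
    show u⁻¹ * (u * (k : H) * u⁻¹) * u = k
    group
  · apply Subtype.ext
    show u * (u⁻¹ * (k : H) * u) * u⁻¹ = k
    group
  · show A X u (A X x v) = A X (u * (x : H) * u⁻¹) (A X u v)
    rw [← A_mul, ← A_mul]
    congr 1
    group

theorem N_pow {v : Abelianization X} (h : ∀ k ∈ K, A X k v = v) : N X K v = v ^ Fintype.card K := by
  unfold N
  have h1 : ∀ k : K, A X (k : H) v = v := fun k => h k k.2
  rw [Finset.prod_congr rfl (fun k _ => h1 k), Finset.prod_const, Finset.card_univ]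

theorem odd_ab [Finite H] (ho : Odd (Nat.card X)) {v : Abelianization X} {m : ℕ} (hv : v ^ 2 ^ m = 1) : v = 1 := by
  have h1 : orderOf v ∣ 2 ^ m := orderOf_dvd_of_pow_eq_one hv
  have h2 : orderOf v ∣ Nat.card X := by
    refine (orderOf_dvd_natCard v).trans ?_
    exact Subgroup.card_quotient_dvd_card _
  have h3 : Nat.Coprime (2 ^ m) (Nat.card X) := Nat.Coprime.pow_left m (Nat.coprime_two_left.2 ho)
  exact orderOf_eq_one_iff.1 (Nat.eq_one_of_dvd_coprimes h3 h1 h2)

/-- if `u` moves `v` by a fixed element then `u` fixes `v` -/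
theorem fix_of_fix [Finite H] (ho : Odd (Nat.card X)) {u : H} {m : ℕ} (hu : u ^ 2 ^ m = 1) {v c : Abelianization X}
    (h : A X u v = v * c) (hc : A X u c = c) : A X u v = v := by
  have key : ∀ n : ℕ, A X (u ^ n) v = v * c ^ n := by
    intro n
    induction n with
    | zero => rw [pow_zero, pow_zero, A_one, mul_one]
    | succ n ih =>
      rw [pow_succ', A_mul, ih, map_mul, map_pow, h, hc, pow_succ', mul_assoc]
  have h1 := key (2 ^ m)
  rw [hu, A_one] at h1
  have h2 : c ^ 2 ^ m = 1 := by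
    have := h1
    rw [eq_comm, mul_eq_left] at this
    exact this
  rw [h, odd_ab ho h2, mul_one]

/-- a `2`-power of a fixed element -/
theorem fix_of_pow [Finite H] (ho : Odd (Nat.card X)) {u : H} {v : Abelianization X} {m : ℕ}
    (h : A X u (v ^ 2 ^ m) = v ^ 2 ^ m) : A X u v = v := by
  have h1 : (A X u v * v⁻¹) ^ 2 ^ m = 1 := by
    rw [mul_pow, ← map_pow, h, ← mul_pow, mul_inv_cancel, one_pow]
  have h2 := odd_ab ho h1
  exact mul_inv_eq_one.1 h2

end Ab

end Cfsg.Agent.H460.Car.Sol
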