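import Cfsg.Agent.H460.Car.Sol

/-!
# Gate systems and odd normal subgroups: the far involution, main part (helper460, S3852)
-/

set_option autoImplicit false
set_option linter.unusedSectionVars false

namespace Cfsg.Agent.H460.Car.Sol

open Cfsg.Agent.FixBN.Gates Cfsg.Agent.BpGate
open scoped Pointwise commutatorElement

theorem eq_top_of_sup_commutator {V : Type*} [Group V] [Finite V] [hn : Group.IsNilpotent V] {H : Subgroup V}
    (hH : H ⊔ commutator V = ⊤) : H = ⊤ := by
  by_contra hne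
  obtain ⟨M, hM, hHM⟩ := (eq_top_or_exists_le_coatom H).resolve_left hne
  have hMn : M.Normal := by
    refine Subgroup.NormalizerCondition.normal_of_coatom M ?_ hM
    exact Group.normalizerCondition_of_isNilpotent
  have hc : commutator V ≤ M := by
    have hnt : Nontrivial (V ⧸ M) := by
      rw [QuotientGroup.nontrivial_iff]
      exact hM.1
    have h0 := Group.IsSolvable.commutator_lt_top_of_nontrivial (V ⧸ M)
    have h1 : ((commutator (V ⧸ M)).comap (QuotientGroup.mk' M)) = M := by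
      have h2 : M ≤ (commutator (V ⧸ M)).comap (QuotientGroup.mk' M) := by
        intro m hm
        rw [Subgroup.mem_comap, QuotientGroup.mk'_apply, (QuotientGroup.eq_one_iff m).2 hm]
        exact one_mem _
      rcases h2.lt_or_eq with h5 | h5
      · exfalso
        have h6 := hM.2 _ h5
        apply h0.ne
        have := congrArg (Subgroup.map (QuotientGroup.mk' M)) h6
        rwa [Subgroup.map_comap_eq_self_of_surjective (QuotientGroup.mk'_surjective M),
          Subgroup.map_top_of_surjective _ (QuotientGroup.mk'_surjective M)] at this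
      · exact h5.symm
    rw [← h1, ← Subgroup.map_le_iff_le_comap, commutator_def, commutator_def, Subgroup.map_commutator]
    exact Subgroup.commutator_mono le_top le_top
  apply hM.1
  rw [eq_top_iff, ← hH]
  exact sup_le hHM hc

variable {H : Type*} [Group H] {Pa : Set (Set (Sylow 2 H))} {d : Sylow 2 H → Sylow 2 H → ℕ}
variable [Finite H] {X : Subgroup H} [hX : X.Normal]

section Lift

/-- fixed points of a `2`-element lift to invariant subgroups -/
theorem lift (ho : Odd (Nat.card X)) {u : H} {m : ℕ} (hu : u ^ 2 ^ m = 1) {Y : Subgroup H}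
    (hY : ∀ y ∈ Y, u * y * u⁻¹ ∈ Y) {y0 : X} (hy0 : (y0 : H) ∈ Y)
    (h : A X u (Abelianization.of y0) = Abelianization.of y0) :
    ∃ y : X, (y : H) ∈ Y ∧ Abelianization.of y = Abelianization.of y0 ∧ u * (y : H) = y * u := by
  let D : Subgroup H := Y ⊓ (commutator X).map X.subtype
  have hDX : D ≤ X := by
    rintro _ ⟨-, x, -, rfl⟩
    exact x.2
  have hD : ¬ 2 ∣ Nat.card D := fun h2 =>
    (Nat.not_even_iff_odd.2 ho) (even_iff_two_dvd.2 (h2.trans (Subgroup.card_dvd_of_le hDX)))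
  have hDu : ∀ d ∈ D, u * d * u⁻¹ ∈ D := by
    rintro _ ⟨hy, x, hx, rfl⟩
    refine ⟨hY _ hy, MulAut.conjNormal u x, ?_, by rw [Subgroup.coe_subtype, MulAut.conjNormal_apply]⟩
    have h1 : (commutator X).map (MulAut.conjNormal u : MulAut X).toMonoidHom ≤ commutator X := by
      rw [commutator_def, Subgroup.map_commutator]
      exact Subgroup.commutator_mono le_top le_top
    exact h1 ⟨x, hx, rfl⟩
  have hy : (y0 : H)⁻¹ * (u * y0 * u⁻¹) ∈ D := by
    refine ⟨mul_mem (Y.inv_mem hy0) (hY _ hy0), y0⁻¹ * MulAut.conjNormal u y0, ?_, ?_⟩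
    · rw [A_of] at h
      exact QuotientGroup.eq.1 h.symm
    · rw [Subgroup.coe_subtype, Subgroup.coe_mul, MulAut.conjNormal_apply]
      rfl
  obtain ⟨e, he, hue⟩ := Cfsg.Agent.SignalizersComponents.CoprimeBasic.exists_fixed_in_coset_of_pow u m hu D hD hDu
    (y0 : H) hy
  obtain ⟨heY, x, hx, rfl⟩ := he
  refine ⟨y0 * x, mul_mem hy0 heY, ?_, hue⟩
  have h1 : (Abelianization.of x : Abelianization X) = 1 := (QuotientGroup.eq_one_iff x).2 hx
  rw [map_mul, h1, mul_one]

/-- a `2`-element trivial on `X / X'` centralises `X` -/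
theorem triv (hn : Group.IsNilpotent X) (ho : Odd (Nat.card X)) {u : H} {m : ℕ} (hu : u ^ 2 ^ m = 1)
    (h : ∀ v : Abelianization X, A X u v = v) : ∀ x ∈ X, u * x = x * u := by
  have h1 : (Subgroup.centralizer {u}).subgroupOf X ⊔ commutator X = ⊤ := by
    rw [eq_top_iff]
    intro x _
    obtain ⟨y, -, hy, huy⟩ := lift ho hu (Y := X) (fun y hy => hX.conj_mem y hy u) x.2 (h (Abelianization.of x))
    have h2 : y⁻¹ * x ∈ commutator X := QuotientGroup.eq.1 hy
    have e1 : x = y * (y⁻¹ * x) := by group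
    rw [e1]
    refine mul_mem (Subgroup.mem_sup_left ?_) (Subgroup.mem_sup_right h2)
    rw [Subgroup.mem_subgroupOf, Subgroup.mem_centralizer_singleton_iff]
    exact huy.symm
  have h2 := eq_top_of_sup_commutator h1
  intro x hx
  have h3 : (⟨x, hx⟩ : X) ∈ (Subgroup.centralizer {u}).subgroupOf X := by rw [h2]; trivial
  rw [Subgroup.mem_subgroupOf, Subgroup.mem_centralizer_singleton_iff] at h3
  exact h3.symm

/-- generation by the centralisers of the involutions of a four-group -/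
theorem four (hn : Group.IsNilpotent X) (ho : Odd (Nat.card X)) {e t : H} (he : e ^ 2 = 1) (ht : t ^ 2 = 1)
    (het : e * t = t * e) (h1 : ∀ x ∈ X, e * x = x * e → t * x = x * t)
    (h2 : ∀ x ∈ X, (e * t) * x = x * (e * t) → t * x = x * t) : ∀ x ∈ X, t * x = x * t := by
  have fixe : ∀ v : Abelianization X, A X e v = v → A X t v = v := by
    intro v hv
    obtain ⟨x, rfl⟩ : ∃ x : X, Abelianization.of x = v := QuotientGroup.mk_surjective v
    obtain ⟨y, -, hy, huy⟩ := lift (m := 1) ho (by rw [pow_one]; exact he) (Y := X)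
      (fun y hy => hX.conj_mem y hy e) x.2 hv
    rw [← hy]
    exact A_of_comm (h1 y y.2 huy)
  have hs : (e * t) ^ 2 = 1 := by
    rw [(show Commute e t from het).mul_pow, he, ht, one_mul]
  have fixs : ∀ v : Abelianization X, A X (e * t) v = v → A X t v = v := by
    intro v hv
    obtain ⟨x, rfl⟩ : ∃ x : X, Abelianization.of x = v := QuotientGroup.mk_surjective v
    obtain ⟨y, -, hy, huy⟩ := lift (m := 1) ho (by rw [pow_one]; exact hs) (Y := X)
      (fun y hy => hX.conj_mem y hy (e * t)) x.2 hv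
    rw [← hy]
    exact A_of_comm (h2 y y.2 huy)
  refine triv hn ho (m := 1) (by rw [pow_one]; exact ht) fun v => ?_
  have inv : ∀ {g : H}, g ^ 2 = 1 → ∀ v : Abelianization X, A X g (A X g v) = v := by
    intro g hg v
    rw [← A_mul, ← pow_two, hg, A_one]
  -- `w = v (t v)⁻¹` is inverted by `t`
  set w : Abelianization X := v * (A X t v)⁻¹ with hw
  have hwt : A X t w = w⁻¹ := by
    rw [hw, map_mul, map_inv, inv ht, mul_inv, inv_inv, mul_comm]
  have hwe : A X t (w * A X e w) = w * A X e w := by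
    refine fixe _ ?_
    rw [map_mul, inv he, mul_comm]
  have hws : A X t (w * A X (e * t) w) = w * A X (e * t) w := by
    refine fixs _ ?_
    rw [map_mul, inv hs, mul_comm]
  have h3 : A X (e * t) w = (A X e w)⁻¹ := by
    rw [A_mul, hwt, map_inv]
  have h4 : (w * A X e w) * (w * A X (e * t) w) = w ^ 2 := by
    rw [h3, pow_two]
    calc w * A X e w * (w * (A X e w)⁻¹) = w * w * (A X e w * (A X e w)⁻¹) := by
          rw [mul_mul_mul_comm]
      _ = w * w := by rw [mul_inv_cancel, mul_one]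
  have h5 : A X t (w ^ 2) = w ^ 2 := by rw [← h4, map_mul, hwe, hws]
  rw [map_pow, hwt, inv_pow] at h5
  have h6 : w ^ 2 ^ 2 = 1 := by
    have h7 : (w ^ 2) * (w ^ 2) = 1 := by
      nth_rewrite 1 [← h5]
      exact inv_mul_cancel _
    rw [show 2 ^ 2 = 2 + 2 from rfl, pow_add]
    exact h7
  have h7 := odd_ab ho h6
  rw [hw] at h7
  exact (mul_inv_eq_one.1 h7).symm

end Lift

section Main

variable {a : Sylow 2 H} {S S' : Set (Sylow 2 H)}

omit [Finite H] in
theorem mem_normalizer_Kr (hG : GSys Pa d) (hS : S ∈ Pa) (ha : a ∈ S) {u : H} (hu : u ∈ a) :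
    u ∈ Subgroup.normalizer (Kr S : Set H) := by
  have huS := hG.self S hS a ha u hu
  rw [Subgroup.mem_normalizer_iff]
  intro h
  constructor
  · intro hh
    have h1 : u * h * u⁻¹ ∈ Kr (u • S) := by
      rw [mem_Kr_smul]
      have e1 : u⁻¹ * (u * h * u⁻¹) * u = h := by group
      rw [e1]
      exact hh
    rwa [huS] at h1
  · intro hh
    rw [← huS, mem_Kr_smul] at hh
    have e1 : u⁻¹ * (u * h * u⁻¹) * u = h := by group
    rwa [e1] at hh

theorem pow_of_mem {u : H} (hu : u ∈ a) : ∃ m : ℕ, u ^ 2 ^ m = 1 := by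
  obtain ⟨m, hm⟩ := a.isPGroup' ⟨u, hu⟩
  exact ⟨m, congrArg Subtype.val hm⟩

/-- the hypotheses -/
structure Setup (Pa : Set (Set (Sylow 2 H))) (d : Sylow 2 H → Sylow 2 H → ℕ) (X : Subgroup H) [X.Normal]
    (a : Sylow 2 H) : Prop where
  hG : GSys Pa d
  hI : BpGate.Inter Pa
  hn : Group.IsNilpotent X
  ho : Odd (Nat.card X)
  htr : ∀ b : Sylow 2 H, ∃ x ∈ X, x • a = b
  hf : ∀ u ∈ a, (∀ x ∈ X, u * x = x * u) → u = 1

theorem disj (ho : Odd (Nat.card X)) (b : Sylow 2 H) : Disjoint X (b : Subgroup H) :=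
  BpGate.disjoint_of_coprime (Nat.coprime_two_right.2 ho) b

/-- the panels at `a` whose root subgroup is visible in `X / X'` -/
def J (Pa : Set (Set (Sylow 2 H))) (X : Subgroup H) (a : Sylow 2 H) : Set (Set (Sylow 2 H)) :=
  {S | S ∈ Pa ∧ a ∈ S ∧ ∃ z : X, (z : H) ∈ Subgroup.centralizer (Kr S : Set H) ∧
    ∀ y : X, Abelianization.of y = Abelianization.of z → (y : H) ∉ Subgroup.centralizer (a : Set H)}

namespace Setup

variable (s : Setup Pa d X a)
include s

theorem cen_iff {x : H} (hx : x ∈ X) : x • a = a ↔ x ∈ Subgroup.centralizer (a : Set H) := by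
  constructor
  · intro h
    rw [Subgroup.mem_centralizer_iff]
    intro k hk
    exact (comm_of_mem (disj s.ho) hx (a := a) hk (by rw [h]; exact hk)).symm
  · intro h
    refine Sylow.smul_eq_iff_mem_normalizer.2 ?_
    exact Subgroup.centralizer_le_normalizer _ h

/-- an element of `a` in all `Kr S`, `S ∈ J`, is trivial on `X / X'` -/
theorem triv_ab {u : H} (hu : u ∈ a) (huJ : ∀ S ∈ J Pa X a, u ∈ Kr S) (x : X) :
    A X u (Abelianization.of x) = Abelianization.of x := by
  induction hn : d a ((x : H) • a) using Nat.strong_induction_on generalizing x with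
  | _ n ih =>
    by_cases hxa : (x : H) • a = a
    · have h1 := (s.cen_iff x.2).1 hxa
      exact A_of_comm (h1 u hu)
    obtain ⟨S, hS, hxS, c, hc, -, -, hlt⟩ := s.hG.desc a ((x : H) • a) (Ne.symm hxa)
    obtain ⟨g, hgX, rfl⟩ := s.htr c
    have h1 := ih _ (by rw [← hn]; exact hlt) ⟨g, hgX⟩ rfl
    set T : Set (Sylow 2 H) := (x : H)⁻¹ • S with hT
    have hTP : T ∈ Pa := s.hG.smul S hS _
    have haT : a ∈ T := by
      rw [hT, Set.mem_smul_set_iff_inv_smul_mem, inv_inv]
      exact hxS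
    have hyT : ((x : H)⁻¹ * g) • a ∈ T := by
      rw [mul_smul]
      exact Set.smul_mem_smul_set hc
    have hyX : (x : H)⁻¹ * g ∈ X := mul_mem (inv_mem x.2) hgX
    have hyc := (smul_mem_iff s.hG (disj s.ho) hTP haT hyX).1 hyT
    set y : X := x⁻¹ * ⟨g, hgX⟩ with hy
    have h2 : A X u (Abelianization.of y) = Abelianization.of y := by
      by_cases hTJ : T ∈ J Pa X a
      · exact A_of_comm (hyc u (huJ T hTJ))
      · have h3 : ∃ y' : X, Abelianization.of y' = Abelianization.of y ∧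
            (y' : H) ∈ Subgroup.centralizer (a : Set H) := by
          by_contra h
          push Not at h
          exact hTJ ⟨hTP, haT, y, hyc, h⟩
        obtain ⟨y', h4, h5⟩ := h3
        rw [← h4]
        exact A_of_comm (h5 u hu)
    have h3 : x = ⟨g, hgX⟩ * y⁻¹ := by rw [hy]; group
    rw [h3, map_mul, map_inv, map_mul, map_inv, h1, h2]

theorem eq_one_of_J {u : H} (hu : u ∈ a) (huJ : ∀ S ∈ J Pa X a, u ∈ Kr S) : u = 1 := by
  obtain ⟨m, hm⟩ := pow_of_mem hu
  refine s.hf u hu (triv s.hn s.ho hm fun v => ?_)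
  obtain ⟨x, rfl⟩ : ∃ x : X, Abelianization.of x = v := QuotientGroup.mk_surjective v
  exact s.triv_ab hu huJ x

/-- `a = Kr S * Kr S'` -/
theorem fix_all (hS : S ∈ Pa) (hS' : S' ∈ Pa) (ha : a ∈ S) (ha' : a ∈ S') (hne : S ≠ S')
    {v : Abelianization X} (h : ∀ k ∈ Kr S, A X k v = v) (h' : ∀ k ∈ Kr S', A X k v = v) {w : H}
    (hw : w ∈ a) : A X w v = v := by
  obtain ⟨u, hu, hwu⟩ := Kr_mul s.hG s.hI (disj s.ho) s.htr hS hS' ha ha' hne hw
  have e1 : w = u * (w⁻¹ * u)⁻¹ := by group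
  rw [e1, A_mul, h' _ (inv_mem hwu), h u hu]

open scoped Classical in
theorem lemC {z : Set (Sylow 2 H) → X} {F : Finset (Set (Sylow 2 H))} (hF : ∀ S, S ∈ F ↔ S ∈ J Pa X a)
    (hz : ∀ S ∈ J Pa X a, (z S : H) ∈ Subgroup.centralizer (Kr S : Set H) ∧
      ∀ y : X, Abelianization.of y = Abelianization.of (z S) → (y : H) ∉ Subgroup.centralizer (a : Set H))
    (hS : S ∈ J Pa X a) [Fintype (Kr S)] {u : H} (hu : u ∈ a) {c : Abelianization X}
    (hc : A X u (∏ T ∈ F, Abelianization.of (z T)) = (∏ T ∈ F, Abelianization.of (z T)) * c)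
    (hNc : A X u (N X (Kr S) c) = N X (Kr S) c) : u ∈ Kr S := by
  obtain ⟨hSP, haS, -⟩ := id hS
  obtain ⟨m, hm⟩ := pow_of_mem hu
  have huN := mem_normalizer_Kr s.hG hSP haS hu
  -- the norm of the product
  have h1 : A X u (N X (Kr S) (∏ T ∈ F, Abelianization.of (z T))) = N X (Kr S) (∏ T ∈ F, Abelianization.of (z T)) := by
    refine fix_of_fix s.ho hm (c := N X (Kr S) c) ?_ hNc
    rw [N_conj huN, hc, N_mul]
  have h2 : ∀ T ∈ F.erase S, A X u (N X (Kr S) (Abelianization.of (z T))) = N X (Kr S) (Abelianization.of (z T)) := by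
    intro T hT
    obtain ⟨hTS, hTF⟩ := Finset.mem_erase.1 hT
    have hTJ := (hF T).1 hTF
    obtain ⟨hTP, haT, -⟩ := id hTJ
    refine s.fix_all hTP hSP haT haS hTS (fun k hk => ?_) (fun k hk => N_fix hk _) hu
    rw [N_conj (mem_normalizer_Kr s.hG hSP haS (Kr_le haT hk)), A_of_comm ((hz T hTJ).1 k hk)]
  have h3 : A X u (N X (Kr S) (Abelianization.of (z S))) = N X (Kr S) (Abelianization.of (z S)) := by
    rw [N_prod, ← Finset.mul_prod_erase F _ ((hF S).2 hS), map_mul, map_prod, Finset.prod_congr rfl h2] at h1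
    exact mul_right_cancel h1
  rw [N_pow fun k hk => A_of_comm ((hz S hS).1 k hk)] at h3
  have h4 : ∃ n : ℕ, Fintype.card (Kr S) = 2 ^ n := by
    have h5 : IsPGroup 2 (Kr S) := a.isPGroup'.to_le (Kr_le haS)
    obtain ⟨n, hn⟩ := IsPGroup.iff_card.1 h5
    exact ⟨n, by rw [← Nat.card_eq_fintype_card]; exact hn⟩
  obtain ⟨n, hn⟩ := h4
  rw [hn] at h3
  have h5 := fix_of_pow s.ho h3
  -- lift to `X_S`
  obtain ⟨y, hyS, hy, huy⟩ := lift s.ho hm (Y := Subgroup.centralizer (Kr S : Set H)) (y0 := z S) (fun y hy => by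
    rw [Subgroup.mem_centralizer_iff] at hy ⊢
    intro k hk
    have h6 : u⁻¹ * k * u ∈ Kr S := by
      have := (Subgroup.mem_normalizer_iff.1 (inv_mem huN) k).1 hk
      rwa [inv_inv] at this
    have h7 := hy _ h6
    calc k * (u * y * u⁻¹) = u * ((u⁻¹ * k * u) * y) * u⁻¹ := by group
      _ = u * (y * (u⁻¹ * k * u)) * u⁻¹ := by rw [h7]
      _ = u * y * u⁻¹ * k := by group) (hz S hS).1 h5
  have h6 := (hz S hS).2 y hy
  refine mem_Kr_of (X := X) s.hI hSP haS ((smul_mem_iff s.hG (disj s.ho) hSP haS y.2).2 hyS)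
    (fun h => h6 ((s.cen_iff y.2).1 h)) hu huy

theorem lemD (hS : S ∈ Pa) (ha : a ∈ S) {w : H} (hw : w ∈ a) :
    ∃ u ∈ a, w⁻¹ * u ∈ Kr S ∧ ∀ T ∈ J Pa X a, T ≠ S → u ∈ Kr T := by
  classical
  have hex : ∀ T : Set (Sylow 2 H), ∃ z : X, T ∈ J Pa X a → (z : H) ∈ Subgroup.centralizer (Kr T : Set H) ∧
      ∀ y : X, Abelianization.of y = Abelianization.of z → (y : H) ∉ Subgroup.centralizer (a : Set H) := by
    intro T
    by_cases hT : T ∈ J Pa X a
    · obtain ⟨-, -, z, h1, h2⟩ := id hT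
      exact ⟨z, fun _ => ⟨h1, h2⟩⟩
    · exact ⟨1, fun h => absurd h hT⟩
  choose z hz using hex
  have hfin : (J Pa X a).Finite := Set.toFinite _
  obtain ⟨v, hv⟩ : ∃ v : X, Abelianization.of v = ∏ T ∈ hfin.toFinset, Abelianization.of (z T) :=
    QuotientGroup.mk_surjective _
  obtain ⟨u, hu, h1, h2, h3⟩ := cover s.hG s.hI (disj s.ho) s.htr hS ha v.2 hw
  refine ⟨u, hu, h1, fun T hT hTS => ?_⟩
  obtain ⟨hTP, haT, -⟩ := id hT
  have : Fintype (Kr T) := Fintype.ofFinite _
  set c : X := ⟨_, h2⟩ with hc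
  have hc1 : A X u (Abelianization.of v) = Abelianization.of v * Abelianization.of c := by
    rw [A_of, ← map_mul]
    congr 1
    apply Subtype.ext
    rw [MulAut.conjNormal_apply, Subgroup.coe_mul, hc]
    group
  have hcS : ∀ k ∈ Kr S, A X k (Abelianization.of c) = Abelianization.of c := fun k hk => A_of_comm (h3 k hk)
  refine s.lemC (F := hfin.toFinset) (fun S => hfin.mem_toFinset) hz hT hu (c := Abelianization.of c) ?_ ?_
  · rw [← hv]
    exact hc1
  · refine s.fix_all hS hTP ha haT (Ne.symm hTS) (fun k hk => ?_) (fun k hk => N_fix hk _) hu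
    rw [N_conj (mem_normalizer_Kr s.hG hTP haT (Kr_le ha hk)), hcS k hk]

/-- `Kr S ≠ a` -/
theorem exists_not_mem (hS : S ∈ Pa) (ha : a ∈ S) : ∃ w ∈ a, w ∉ Kr S := by
  obtain ⟨b, hb, hba, -⟩ := s.hG.three S hS a ha a ha
  by_contra h
  push Not at h
  apply hba
  have h1 : (a : Subgroup H) ≤ b := fun w hw => mem_Kr.1 (h w hw) b hb
  exact Sylow.ext (a.is_maximal' b.isPGroup' h1)

theorem mem_J (hS : S ∈ Pa) (ha : a ∈ S) : S ∈ J Pa X a := by
  by_contra hSJ
  obtain ⟨w, hw, hwS⟩ := s.exists_not_mem hS ha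
  obtain ⟨u, hu, h1, h2⟩ := s.lemD hS ha hw
  have h3 : u = 1 := s.eq_one_of_J hu fun T hT => h2 T hT fun h => hSJ (h ▸ hT)
  rw [h3, mul_one] at h1
  exact hwS (by simpa using inv_mem h1)

theorem eq_one {u : H} (hu : u ∈ a) (h : ∀ S ∈ Pa, a ∈ S → u ∈ Kr S) : u = 1 :=
  s.eq_one_of_J hu fun S hS => h S hS.1 hS.2.1

/-- the involutions `τ_S` -/
theorem exists_tau (hS : S ∈ Pa) (ha : a ∈ S) :
    ∃ t ∈ a, t ^ 2 = 1 ∧ t ∉ Kr S ∧ ∀ T ∈ Pa, a ∈ T → T ≠ S → t ∈ Kr T := by
  obtain ⟨w, hw, hwS⟩ := s.exists_not_mem hS ha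
  obtain ⟨u, hu, h1, h2⟩ := s.lemD hS ha hw
  have huS : u ∉ Kr S := by
    intro h
    apply hwS
    have h3 := mul_mem h (inv_mem h1)
    have e1 : u * (w⁻¹ * u)⁻¹ = w := by group
    rwa [e1] at h3
  have hu1 : u ≠ 1 := fun h => huS (h ▸ one_mem _)
  have hex : ∃ n : ℕ, u ^ 2 ^ n = 1 := pow_of_mem hu
  classical
  set n := Nat.find hex with hn
  have hn1 : u ^ 2 ^ n = 1 := Nat.find_spec hex
  have hn0 : n ≠ 0 := by
    intro h
    rw [h, pow_zero, pow_one] at hn1
    exact hu1 hn1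
  obtain ⟨k, hk⟩ := Nat.exists_eq_succ_of_ne_zero hn0
  have hk1 : u ^ 2 ^ k ≠ 1 := Nat.find_min hex (by rw [← hn, hk]; exact Nat.lt_succ_self k)
  have hall : ∀ T ∈ Pa, a ∈ T → T ≠ S → u ^ 2 ^ k ∈ Kr T := fun T hT haT hTS =>
    pow_mem (h2 T (s.mem_J hT haT) hTS) _
  refine ⟨u ^ 2 ^ k, pow_mem hu _, ?_, ?_, hall⟩
  · rw [← pow_mul, ← pow_succ, ← Nat.succ_eq_add_one, ← hk]
    exact hn1
  · intro h
    apply hk1
    refine s.eq_one (pow_mem hu _) fun T hT haT => ?_
    by_cases hTS : T = S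
    · rw [hTS]; exact h
    · exact hall T hT haT hTS

theorem exists_prod (F : Finset (Set (Sylow 2 H))) (hF : ∀ S ∈ F, S ∈ Pa ∧ a ∈ S) :
    ∃ e ∈ a, e ^ 2 = 1 ∧ (∀ S ∈ F, e ∉ Kr S) ∧ ∀ S ∈ Pa, a ∈ S → S ∉ F → e ∈ Kr S := by
  classical
  induction F using Finset.induction_on with
  | empty => exact ⟨1, one_mem _, one_pow _, fun S hS => absurd hS (Finset.notMem_empty S), fun S _ _ _ => one_mem _⟩
  | insert S F hSF ih =>
    obtain ⟨e, he, he2, h1, h2⟩ := ih fun T hT => hF T (Finset.mem_insert_of_mem hT)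
    obtain ⟨hS, haS⟩ := hF S (Finset.mem_insert_self S F)
    obtain ⟨t, ht, ht2, htS, h3⟩ := s.exists_tau hS haS
    have heS : e ∈ Kr S := h2 S hS haS hSF
    have hc : e * t = t * e := by
      have h4 : e * t * e⁻¹ * t⁻¹ = 1 := by
        refine s.eq_one (mul_mem (mul_mem (mul_mem he ht) (inv_mem he)) (inv_mem ht)) fun T hT haT => ?_
        by_cases hTS : T = S
        · rw [hTS]
          have h5 := (Subgroup.mem_normalizer_iff.1 (mem_normalizer_Kr s.hG hS haS ht) e⁻¹).1 (inv_mem heS)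
          have e1 : e * t * e⁻¹ * t⁻¹ = e * (t * e⁻¹ * t⁻¹) := by group
          rw [e1]
          exact mul_mem heS h5
        · have htT := h3 T hT haT hTS
          have h5 := (Subgroup.mem_normalizer_iff.1 (mem_normalizer_Kr s.hG hT haT he) t).1 htT
          exact mul_mem h5 (inv_mem htT)
      calc e * t = (e * t * e⁻¹ * t⁻¹) * (t * e) := by group
        _ = t * e := by rw [h4, one_mul]
    refine ⟨e * t, mul_mem he ht, ?_, ?_, ?_⟩
    · rw [(show Commute e t from hc).mul_pow, he2, ht2, one_mul]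
    · intro T hT
      rcases Finset.mem_insert.1 hT with rfl | hTF
      · intro h
        apply htS
        have := mul_mem (inv_mem heS) h
        rwa [inv_mul_cancel_left] at this
      · intro h
        apply h1 T hTF
        obtain ⟨hTP, haT⟩ := hF T hT
        have htT := h3 T hTP haT fun h => hSF (h ▸ hTF)
        have := mul_mem h (inv_mem htT)
        rwa [mul_inv_cancel_right] at this
    · intro T hT haT hTi
      rw [Finset.mem_insert, not_or] at hTi
      exact mul_mem (h2 T hT haT hTi.2) (h3 T hT haT hTi.1)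

/-- an element of `a` in no `Kr S` is far -/
theorem far {e : H} (he : e ∈ a) (h : ∀ S ∈ Pa, a ∈ S → e ∉ Kr S) {x : H} (hx : x ∈ X) (hex : e * x = x * e) :
    x ∈ Subgroup.centralizer (a : Set H) := by
  rw [← s.cen_iff hx]
  by_contra hne
  obtain ⟨S, hS, haS, c, hc, hg, hca, -⟩ := s.hG.desc (x • a) a hne
  have h1 : e ∈ (x • a : Sylow 2 H) := by
    rw [mem_smul_iff]
    have e1 : x⁻¹ * e * x = e := by rw [mul_assoc, hex]; group
    rw [e1]
    exact he
  have h2 : e • c = c := hg.fix e h1 (s.hG.self S hS a haS e he)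
  have h3 : e ∈ c := mem_of_smul_eq he h2
  exact h S hS haS (mem_Kr.2 fun b hb => s.hI S hS a haS c hc (Ne.symm hca) e he h3 b hb)

theorem far_eq {e f : H} (he : e ∈ a) (hf : f ∈ a) (he2 : e ^ 2 = 1) (hf2 : f ^ 2 = 1)
    (hfe : ∀ x ∈ X, e * x = x * e → x ∈ Subgroup.centralizer (a : Set H))
    (hff : ∀ x ∈ X, f * x = x * f → x ∈ Subgroup.centralizer (a : Set H)) : e = f := by
  have hei : e⁻¹ = e := by rw [inv_eq_iff_mul_eq_one, ← pow_two]; exact he2
  have hfi : f⁻¹ = f := by rw [inv_eq_iff_mul_eq_one, ← pow_two]; exact hf2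
  have hcomm : e * f = f * e := by
    by_contra hne
    set g := e * f with hg
    have hga : g ∈ a := mul_mem he hf
    have hegi : e * g = g⁻¹ * e := by
      rw [hg, mul_inv_rev, hei, hfi, mul_assoc, ← pow_two, he2, mul_one, ← mul_assoc, ← pow_two, he2, one_mul]
    have hex : ∃ n : ℕ, g ^ 2 ^ n = 1 := pow_of_mem hga
    classical
    set n := Nat.find hex with hn
    have hn1 : g ^ 2 ^ n = 1 := Nat.find_spec hex
    have hn2 : 2 ≤ n := by
      by_contra hlt
      have h1 : n = 0 ∨ n = 1 := by omega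
      have h2 : g ^ 2 = 1 := by
        rcases h1 with h1 | h1
        · rw [h1, pow_zero, pow_one] at hn1
          rw [hn1, one_pow]
        · rw [h1, pow_one] at hn1
          exact hn1
      apply hne
      have h3 : e * f = (e * f)⁻¹ := by
        rw [eq_inv_iff_mul_eq_one, ← pow_two, ← hg]
        exact h2
      rw [hg, h3, mul_inv_rev, hei, hfi]
    obtain ⟨k, hk⟩ : ∃ k, n = k + 2 := ⟨n - 2, by omega⟩
    set r := g ^ 2 ^ k with hr
    have hra : r ∈ a := pow_mem hga _
    have hr4 : (r ^ 2) ^ 2 = 1 := by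
      rw [hr, ← pow_mul, ← pow_mul, ← pow_two, ← pow_add, ← hk]
      exact hn1
    have hr2 : r ^ 2 ≠ 1 := by
      have := Nat.find_min hex (m := k + 1) (by rw [← hn, hk]; omega)
      rw [hr, ← pow_mul, ← pow_succ]
      exact this
    have her : e * r = r⁻¹ * e := by
      have h1 : e * g * e⁻¹ = g⁻¹ := by rw [hegi]; group
      have h2 : e * r * e⁻¹ = r⁻¹ := by rw [hr, ← conj_pow, h1, inv_pow]
      rw [← h2]
      group
    set t := r ^ 2 with ht
    have hti : t⁻¹ = t := by rw [inv_eq_iff_mul_eq_one, ← pow_two]; exact hr4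
    have het : e * t = t * e := by
      rw [ht, pow_two, ← mul_assoc, her, mul_assoc, her, ← mul_assoc, ← mul_inv_rev, ← pow_two, ← ht, hti]
    have het' : e * t = r⁻¹ * e * r := by
      rw [mul_assoc, her, ← mul_assoc, ← mul_inv_rev, ← pow_two, ← ht, hti, het]
    have hta : t ∈ a := pow_mem hra _
    have h1 := four s.hn s.ho he2 hr4 het (fun x hx hex => (hfe x hx hex) t hta) (fun x hx hex => by
      rw [het'] at hex
      have h2 : e * (r * x * r⁻¹) = (r * x * r⁻¹) * e := by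
        calc e * (r * x * r⁻¹) = r * ((r⁻¹ * e * r) * x) * r⁻¹ := by group
          _ = r * (x * (r⁻¹ * e * r)) * r⁻¹ := by rw [hex]
          _ = (r * x * r⁻¹) * e := by group
      have h3 := hfe _ (hX.conj_mem x hx r) h2
      have h4 : r * x * r⁻¹ = x := by
        have h5 := h3 r hra
        calc r * x * r⁻¹ = r⁻¹ * (r * (r * x * r⁻¹)) := by group
          _ = r⁻¹ * (r * x * r⁻¹ * r) := by rw [h5]
          _ = x := by group
      rw [h4] at h3
      exact h3 t hta)
    exact hr2 (s.hf t hta h1)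
  by_contra hne
  have hta : e * f ∈ a := mul_mem he hf
  have ht2 : (e * f) ^ 2 = 1 := by rw [(show Commute e f from hcomm).mul_pow, he2, hf2, one_mul]
  have h0 : e * (e * f) = f := by rw [← mul_assoc, ← pow_two, he2, one_mul]
  have h1 := four s.hn s.ho he2 ht2 (by rw [h0, hcomm, mul_assoc, ← pow_two, he2, mul_one])
    (fun x hx hex => (hfe x hx hex) _ hta) (fun x hx hex => by
      rw [h0] at hex
      exact (hff x hx hex) _ hta)
  have h2 := s.hf _ hta h1
  apply hne
  rw [← hfi]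
  exact eq_inv_of_mul_eq_one_left h2

/-- **The far involution.** -/
theorem exists_far (ha : (a : Subgroup H) ≠ ⊥) : ∃ e ∈ a, e ≠ 1 ∧ e ^ 2 = 1 ∧
    (∀ x ∈ X, e * x = x * e → x ∈ Subgroup.centralizer (a : Set H)) ∧
    ∀ f ∈ a, f ^ 2 = 1 → (∀ x ∈ X, f * x = x * f → x ∈ Subgroup.centralizer (a : Set H)) → f = e := by
  classical
  have hfin : {S : Set (Sylow 2 H) | S ∈ Pa ∧ a ∈ S}.Finite := Set.toFinite _
  obtain ⟨e, he, he2, h1, -⟩ := s.exists_prod hfin.toFinset fun S hS => hfin.mem_toFinset.1 hS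
  have h2 : ∀ S ∈ Pa, a ∈ S → e ∉ Kr S := fun S hS haS => h1 S (hfin.mem_toFinset.2 ⟨hS, haS⟩)
  have h3 : ∀ x ∈ X, e * x = x * e → x ∈ Subgroup.centralizer (a : Set H) := fun x hx => s.far he h2 hx
  refine ⟨e, he, ?_, he2, h3, fun f hf hf2 hff => s.far_eq hf he hf2 he2 hff h3⟩
  rintro rfl
  apply ha
  rw [eq_bot_iff]
  intro u hu
  rw [Subgroup.mem_bot]
  refine s.hf u hu fun x hx => ?_
  exact (h3 x hx (by rw [one_mul, mul_one])) u hu

end Setup

end Main

end Cfsg.Agent.H460.Car.Sol
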