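import Cfsg.Agent.H460.Car.Exc
import Cfsg.Agent.H460.Car.Bt
import Cfsg.Agent.FixOdd.Inst
import Cfsg.Agent.S0311
import Cfsg.Agent.SignalizersComponents.MinCounterBasic

/-!
# Carter subgroups and groups of Lie type of characteristic two (S3852, helper460)
-/

set_option autoImplicit false
set_option linter.unusedSectionVars false
set_option linter.unusedVariables false

namespace Cfsg.Agent.H460.Car

open Subgroup Pointwise
open Cfsg Cfsg.Agent.Solvable.Carter Cfsg.Agent.H18.Carter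
open Cfsg.Agent.FixBN (Split HasSplit)
open Cfsg.Agent.SignalizersComponents Cfsg.Agent.Lib
open scoped commutatorElement

universe u

section SplitFacts

variable {Y : Type*} [Group Y] [Finite Y]

theorem exists_normalizing {p : ℕ} [Fact p.Prime] {A V : Subgroup Y} (hV : IsPGroup p V) (hAV : A < V) :
    ∃ x ∈ V, x ∉ A ∧ x ∈ normalizer (A : Set Y) := by
  have hnil : Group.IsNilpotent V := hV.isNilpotent
  have h1 : A.subgroupOf V < ⊤ := by
    rw [lt_top_iff_ne_top]
    intro h2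
    exact hAV.not_ge (subgroupOf_eq_top.1 h2)
  have h2 := Group.normalizerCondition_of_isNilpotent (G := V) _ h1
  obtain ⟨x, hx, hxA⟩ := SetLike.exists_of_lt h2
  rw [← subgroupOf_normalizer_eq hAV.le, mem_subgroupOf] at hx
  exact ⟨x, x.2, hxA, hx⟩

variable {P : BNPair Y} {U : Subgroup Y} {p : ℕ} [hp : Fact p.Prime] (hS : Split P p U)
include hS

theorem U_max {W : Subgroup Y} (hW : IsPGroup p W) (h : U ≤ W) : W = U := by
  by_contra hne
  obtain ⟨x, hx, hxU, hxN⟩ := exists_normalizing hW (lt_of_le_of_ne h (Ne.symm hne))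
  rw [hS.normalizer_eq] at hxN
  obtain ⟨n, hn⟩ := hW ⟨x, hx⟩
  exact hxU (hS.mem_of_pow hxN (congrArg Subtype.val hn))

theorem V_le_U {V : Subgroup Y} (hV : IsPGroup p V) (hVB : P.B ≤ normalizer (V : Set Y)) : V ≤ U := by
  have h1 := IsPGroup.to_sup_of_normal_right' hS.isP hV (hS.le.trans hVB)
  have h2 := U_max hS h1 le_sup_left
  rw [← h2]
  exact le_sup_right

theorem exists_conj_mem {M : Subgroup Y} (hM : P.B ≤ M) {x : Y} (hx : x ∈ M) {n : ℕ} (hn : x ^ p ^ n = 1) :
    ∃ m ∈ M, m⁻¹ * x * m ∈ U := by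
  have hUM : U ≤ M := hS.le.trans hM
  have h1 : IsPGroup p (zpowers (⟨x, hx⟩ : M)) := by
    refine IsPGroup.of_card_dvd_pow (n := n) ?_
    rw [Nat.card_zpowers]
    exact orderOf_dvd_of_pow_eq_one (Subtype.ext hn)
  obtain ⟨a, ha⟩ := h1.exists_le_sylow
  let u : Sylow p M :=
    { U.subgroupOf M with
      isPGroup' := hS.isP.comap_of_injective _ M.subtype_injective
      is_maximal' := by
        intro Q hQ hle
        have h2 : U ≤ Q.map M.subtype := by
          intro y hy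
          exact ⟨⟨y, hUM hy⟩, hle hy, rfl⟩
        have h3 := U_max hS (hQ.map M.subtype) h2
        apply le_antisymm _ hle
        intro q hq
        show (q : Y) ∈ U
        rw [← h3]
        exact ⟨q, hq, rfl⟩ }
  obtain ⟨m, hm⟩ := MulAction.exists_smul_eq M u a
  have h2 : (⟨x, hx⟩ : M) ∈ a := ha (mem_zpowers _)
  rw [← hm, Cfsg.Agent.FixBN.Gates.mem_smul_iff] at h2
  exact ⟨m, m.2, h2⟩

theorem dvd_card (hne : P.S.Nonempty) : p ∣ Nat.card Y := by
  obtain ⟨s, hs⟩ := hne
  obtain ⟨V, hV⟩ := hS.node s hs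
  obtain ⟨u, hu, huV⟩ := hV.ne
  obtain ⟨n, hn⟩ := hS.isP ⟨u, hu⟩
  have h1 : u ^ p ^ n = 1 := congrArg Subtype.val hn
  have h2 : orderOf u ≠ 1 := by
    rw [Ne, orderOf_eq_one_iff]
    rintro rfl
    exact huV (one_mem _)
  obtain ⟨k, -, hk⟩ := (Nat.dvd_prime_pow hp.out).1 (orderOf_dvd_of_pow_eq_one h1)
  have h3 : p ∣ orderOf u := by
    rw [hk]
    refine dvd_pow_self p fun h0 => h2 ?_
    rw [hk, h0, pow_zero]
  exact h3.trans (orderOf_dvd_natCard u)

end SplitFacts

theorem hasSplit_dvd {Y : Type*} [Group Y] [Finite Y] {p : ℕ} [Fact p.Prime] (h : HasSplit p Y) : p ∣ Nat.card Y := by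
  obtain ⟨P, U, hne, hS⟩ := h
  exact dvd_card hS hne

end Cfsg.Agent.H460.Car
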