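import Cfsg.Agent.H460.Car.Two

/-!
# Carter subgroups and groups of Lie type of characteristic two: the parabolic step (S3852, helper460)
-/

set_option autoImplicit false
set_option linter.unusedSectionVars false
set_option linter.unusedVariables false

namespace Cfsg.Agent.H460.Car

open Subgroup Pointwise
open Cfsg Cfsg.Agent.Solvable.Carter Cfsg.Agent.H18.Carter
open Cfsg.Agent.FixBN (Split HasSplit)
open Cfsg.Agent.SignalizersComponents Cfsg.Agent.Lib
open scoped commutatorElement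

universe u

/-- Feit–Thompson -/
def FT : Prop := ∀ (B : Type u) [Group B] [Finite B], Odd (Nat.card B) → Group.IsSolvable B

/-- the induction hypothesis (weak form) -/
def IHt (n : ℕ) : Prop := ∀ (B : Type u) [Group B] [Finite B] (T R : Subgroup B), Nat.card B < n → AS B T R →
  ¬ Exc ↥T → Wt 2 R T

variable {G : Type u} [Group G] [Finite G] {S K : Subgroup G}

section Step

variable {P : BNPair ↥S} {U V : Subgroup ↥S} {J : Set ↥S}

/-- the largest normal subgroup of `M` in `B` -/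
def core (P : BNPair ↥S) (J : Set ↥S) : Subgroup ↥(P.parabolic J) := (P.B.subgroupOf (P.parabolic J)).normalCore

/-- the action of an element of `G` on `S` -/
noncomputable def act (S : Subgroup G) [S.Normal] (g : G) : ↥S ≃* ↥S := MulAut.conjNormal g

theorem act_coe [S.Normal] (g : G) (x : ↥S) : ((act S g x : ↥S) : G) = g * x * g⁻¹ := MulAut.conjNormal_apply _ _

theorem act_mem_of_norm [S.Normal] {A : Subgroup ↥S} {g : G} (hg : g ∈ normalizer ((A.map S.subtype : Subgroup G) : Set G))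
    {x : ↥S} (hx : x ∈ A) : act S g x ∈ A := by
  have h1 := (mem_normalizer_iff.1 hg (x : G)).1 ⟨x, hx, rfl⟩
  obtain ⟨y, hy, hyx⟩ := h1
  have h2 : y = act S g x := Subtype.ext (by rw [act_coe]; exact hyx)
  rwa [← h2]

theorem norm_of_act [S.Normal] {A : Subgroup ↥S} {g : G} (h1 : ∀ x ∈ A, act S g x ∈ A)
    (h2 : ∀ x ∈ A, act S g⁻¹ x ∈ A) : g ∈ normalizer ((A.map S.subtype : Subgroup G) : Set G) := by
  rw [mem_normalizer_iff]
  intro y
  constructor
  · rintro ⟨x, hx, rfl⟩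
    exact ⟨act S g x, h1 x hx, act_coe g x⟩
  · rintro ⟨x, hx, hxy⟩
    refine ⟨act S g⁻¹ x, h2 x hx, ?_⟩
    rw [coe_subtype, act_coe]
    rw [coe_subtype] at hxy
    rw [hxy]
    group

/-- `N_G(V)` normalises `N_S(V)` -/
theorem act_mem_normalizer [S.Normal] {g : G} (hg : g ∈ normalizer ((V.map S.subtype : Subgroup G) : Set G))
    {x : ↥S} (hx : x ∈ normalizer (V : Set ↥S)) : act S g x ∈ normalizer (V : Set ↥S) := by
  have hg' := inv_mem hg
  have e1 : ∀ y : ↥S, act S g (act S g⁻¹ y) = y := by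
    intro y
    apply Subtype.ext
    rw [act_coe, act_coe]
    group
  rw [mem_normalizer_iff] at hx ⊢
  intro y
  have h1 := hx (act S g⁻¹ y)
  constructor
  · intro hy
    have h2 := act_mem_of_norm hg (h1.1 (act_mem_of_norm hg' hy))
    rwa [map_mul, map_mul, map_inv, e1] at h2
  · intro hy
    have h2 : x * act S g⁻¹ y * x⁻¹ ∈ V := by
      have h3 := act_mem_of_norm hg' hy
      rw [map_mul, map_mul, map_inv] at h3
      have h4 : act S g⁻¹ (act S g x) = x := by
        apply Subtype.ext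
        rw [act_coe, act_coe]
        group
      rwa [h4] at h3
    have h3 := act_mem_of_norm hg (h1.2 h2)
    rwa [e1] at h3

/-- elements of the core -/
theorem mem_core_iff (hM : P.parabolic J = normalizer (V : Set ↥S)) {x : ↥(P.parabolic J)} :
    x ∈ core P J ↔ ∀ m ∈ normalizer (V : Set ↥S), m * (x : ↥S) * m⁻¹ ∈ P.B := by
  constructor
  · intro hx m hm
    rw [← hM] at hm
    exact hx ⟨m, hm⟩
  · intro h m
    exact h m (by rw [← hM]; exact m.2)

variable [hSn : S.Normal] (hS : Split P 2 U)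
include hS

/-- `N_G(V)` normalises the core -/
theorem act_core (hV : IsPGroup 2 V) (hM : P.parabolic J = normalizer (V : Set ↥S)) {g : G}
    (hg : g ∈ normalizer ((V.map S.subtype : Subgroup G) : Set G)) {x : ↥S}
    (hx : ∀ m ∈ normalizer (V : Set ↥S), m * x * m⁻¹ ∈ P.B) :
    ∀ m ∈ normalizer (V : Set ↥S), m * act S g x * m⁻¹ ∈ P.B := by
  have hf : Fact (Nat.Prime 2) := ⟨Nat.prime_two⟩
  have hBM : P.B ≤ normalizer (V : Set ↥S) := by rw [← hM]; exact le_sup_left
  -- `g` maps `U` to a conjugate of `U` under `M`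
  let W : Subgroup ↥S := U.map (act S g).toMonoidHom
  have hWM : W ≤ normalizer (V : Set ↥S) := by
    rintro _ ⟨u, hu, rfl⟩
    exact act_mem_normalizer hg (hBM (hS.le hu))
  have hW : IsPGroup 2 W := hS.isP.map _
  -- a Sylow argument
  have h1 : ∃ m ∈ normalizer (V : Set ↥S), ∀ u ∈ U, m⁻¹ * act S g u * m ∈ U := by
    have hWp : IsPGroup 2 (W.subgroupOf (normalizer (V : Set ↥S))) := hW.comap_of_injective _ (subtype_injective _)
    obtain ⟨a, ha⟩ := hWp.exists_le_sylow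
    let u : Sylow 2 ↥(normalizer (V : Set ↥S)) :=
      { U.subgroupOf (normalizer (V : Set ↥S)) with
        isPGroup' := hS.isP.comap_of_injective _ (subtype_injective _)
        is_maximal' := by
          intro Q hQ hle
          have h2 : U ≤ Q.map (normalizer (V : Set ↥S)).subtype := by
            intro y hy
            exact ⟨⟨y, hBM (hS.le hy)⟩, hle hy, rfl⟩
          have h3 := U_max hS (hQ.map _) h2
          apply le_antisymm _ hle
          intro q hq
          show (q : ↥S) ∈ U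
          rw [← h3]
          exact ⟨q, hq, rfl⟩ }
    obtain ⟨m, hm⟩ := MulAction.exists_smul_eq ↥(normalizer (V : Set ↥S)) u a
    refine ⟨m, m.2, fun v hv => ?_⟩
    have hvW : act S g v ∈ W := ⟨v, hv, rfl⟩
    have h2 : (⟨act S g v, hWM hvW⟩ : ↥(normalizer (V : Set ↥S))) ∈ a := ha hvW
    rw [← hm, Cfsg.Agent.FixBN.Gates.mem_smul_iff] at h2
    exact h2
  obtain ⟨m0, hm0, hU0⟩ := h1
  -- the map `y ↦ m0⁻¹ (g y) m0` preserves `U`, hence `B`
  let φ : ↥S ≃* ↥S := (act S g).trans (MulAut.conj m0⁻¹)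
  have hφ : ∀ y, φ y = m0⁻¹ * act S g y * m0 := by
    intro y
    show m0⁻¹ * act S g y * m0⁻¹⁻¹ = _
    rw [inv_inv]
  have hφU : U.map φ.toMonoidHom = U := by
    refine Subgroup.eq_of_le_of_card_ge ?_ ?_
    · rintro _ ⟨u, hu, rfl⟩
      show φ u ∈ U
      rw [hφ]
      exact hU0 u hu
    · exact (Nat.card_congr (U.equivMapOfInjective φ.toMonoidHom φ.injective).toEquiv).le
  have hφB : ∀ y ∈ P.B, φ y ∈ P.B := by
    intro y hy
    rw [← hS.normalizer_eq] at hy ⊢
    rw [mem_normalizer_iff] at hy ⊢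
    intro z
    have key : ∀ z, z ∈ U ↔ φ.symm z ∈ U := by
      intro z
      constructor
      · intro hz
        rw [← hφU] at hz
        obtain ⟨w, hw, rfl⟩ := hz
        show φ.symm (φ w) ∈ U
        rwa [φ.symm_apply_apply]
      · intro hz
        rw [← hφU]
        exact ⟨_, hz, φ.apply_symm_apply z⟩
    rw [key z, key (φ y * z * (φ y)⁻¹), map_mul, map_mul, map_inv, φ.symm_apply_apply]
    exact hy _
  intro m hm
  -- `m (g x) m⁻¹ = φ (m' x m'⁻¹)` up to conjugation by `m0`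
  have e1 : ∀ y : ↥S, act S g (act S g⁻¹ y) = y := by
    intro y
    apply Subtype.ext
    rw [act_coe, act_coe]
    group
  have h2 : act S g⁻¹ (m0 * m) ∈ normalizer (V : Set ↥S) := act_mem_normalizer (inv_mem hg) (mul_mem hm0 hm)
  have h3 := hφB _ (hx _ h2)
  rw [hφ, map_mul, map_mul, map_inv, e1] at h3
  have e2 : m0⁻¹ * (m0 * m * act S g x * (m0 * m)⁻¹) * m0 = m * act S g x * m⁻¹ := by group
  rwa [e2] at h3

/-- the `2`-elements of the core form a `2`-subgroup normalised by `N_G(V)` -/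
theorem core_two (hV : IsPGroup 2 V) (hM : P.parabolic J = normalizer (V : Set ↥S))
    (hmax : ∀ Y : Subgroup ↥S, IsPGroup 2 Y → V ≤ Y → K ≤ normalizer ((Y.map S.subtype : Subgroup G) : Set G) → Y = V)
    (hKV : K ≤ normalizer ((V.map S.subtype : Subgroup G) : Set G)) {x : ↥S}
    (hx : ∀ m ∈ normalizer (V : Set ↥S), m * x * m⁻¹ ∈ P.B) {n : ℕ} (hn : x ^ 2 ^ n = 1) : x ∈ V := by
  have hf : Fact (Nat.Prime 2) := ⟨Nat.prime_two⟩
  have hBM : P.B ≤ normalizer (V : Set ↥S) := by rw [← hM]; exact le_sup_left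
  have hVU : V ≤ U := V_le_U hS hV hBM
  let D : Subgroup ↥S := U ⊓ ((core P J).map (P.parabolic J).subtype)
  have hD : ∀ y, y ∈ D ↔ y ∈ U ∧ ∀ m ∈ normalizer (V : Set ↥S), m * y * m⁻¹ ∈ P.B := by
    intro y
    constructor
    · rintro ⟨hy, z, hz, rfl⟩
      exact ⟨hy, (mem_core_iff hM).1 hz⟩
    · rintro ⟨hy, hz⟩
      have hyM : y ∈ P.parabolic J := (le_sup_left : P.B ≤ _) (hS.le hy)
      exact ⟨hy, ⟨y, hyM⟩, (mem_core_iff hM).2 hz, rfl⟩
  have hDp : IsPGroup 2 D := hS.isP.to_le inf_le_left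
  have hactD : ∀ g ∈ normalizer ((V.map S.subtype : Subgroup G) : Set G), ∀ y ∈ D, act S g y ∈ D := by
    intro g hg y hy
    have h1 := (hD y).1 hy
    have h2 := act_core hS hV hM hg h1.2
    rw [hD]
    refine ⟨?_, h2⟩
    obtain ⟨k, hk⟩ := hS.isP ⟨y, h1.1⟩
    have hk' : y ^ 2 ^ k = 1 := congrArg Subtype.val hk
    refine hS.mem_of_pow (n := k) ?_ ?_
    · have := h2 1 (one_mem _)
      rwa [one_mul, inv_one, mul_one] at this
    · rw [← map_pow, hk', map_one]
  have hKD : K ≤ normalizer ((D.map S.subtype : Subgroup G) : Set G) := fun k hk =>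
    norm_of_act (hactD k (hKV hk)) (hactD k⁻¹ (inv_mem (hKV hk)))
  have hVD : V ≤ D := by
    intro v hv
    rw [hD]
    refine ⟨hVU hv, fun m hm => hS.le (hVU ?_)⟩
    exact (mem_normalizer_iff.1 hm v).1 hv
  rw [← hmax D hDp hVD hKD, hD]
  refine ⟨hS.mem_of_pow (n := n) ?_ hn, hx⟩
  have := hx 1 (one_mem _)
  rwa [one_mul, inv_one, mul_one] at this

/-- `[C, x] ≤ V` for the `2`-elements `x` of `N_S(V)` -/
theorem core_comm (hV : IsPGroup 2 V) (hM : P.parabolic J = normalizer (V : Set ↥S))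
    (hmax : ∀ Y : Subgroup ↥S, IsPGroup 2 Y → V ≤ Y → K ≤ normalizer ((Y.map S.subtype : Subgroup G) : Set G) → Y = V)
    (hKV : K ≤ normalizer ((V.map S.subtype : Subgroup G) : Set G)) {c : ↥S}
    (hc : ∀ m ∈ normalizer (V : Set ↥S), m * c * m⁻¹ ∈ P.B) {x : ↥S} (hx : x ∈ normalizer (V : Set ↥S)) {n : ℕ}
    (hn : x ^ 2 ^ n = 1) : c * x * c⁻¹ * x⁻¹ ∈ V := by
  have hf : Fact (Nat.Prime 2) := ⟨Nat.prime_two⟩
  have hBM : P.B ≤ normalizer (V : Set ↥S) := by rw [← hM]; exact le_sup_left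
  obtain ⟨m, hm, hmx⟩ := exists_conj_mem hS hBM hx hn
  have hcM : c ∈ normalizer (V : Set ↥S) := by
    have := hBM (hc 1 (one_mem _))
    rwa [one_mul, inv_one, mul_one] at this
  -- the commutator is a `2`-element
  have h1 : m⁻¹ * (c * x * c⁻¹ * x⁻¹) * m ∈ U := by
    have h2 : m⁻¹ * c * m ∈ P.B := by
      have := hc m⁻¹ (inv_mem hm)
      rwa [inv_inv] at this
    have h3 := mul_mem (hS.norm _ h2 _ hmx) (inv_mem hmx)
    have e1 : m⁻¹ * c * m * (m⁻¹ * x * m) * (m⁻¹ * c * m)⁻¹ * (m⁻¹ * x * m)⁻¹ = m⁻¹ * (c * x * c⁻¹ * x⁻¹) * m := by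
      group
    rwa [e1] at h3
  obtain ⟨k, hk⟩ := hS.isP ⟨_, h1⟩
  have hk' : (m⁻¹ * (c * x * c⁻¹ * x⁻¹) * m) ^ 2 ^ k = 1 := congrArg Subtype.val hk
  have hk2 : (c * x * c⁻¹ * x⁻¹) ^ 2 ^ k = 1 := by
    have e1 : c * x * c⁻¹ * x⁻¹ = m * (m⁻¹ * (c * x * c⁻¹ * x⁻¹) * m) * m⁻¹ := by group
    rw [e1, conj_pow, hk', mul_one, mul_inv_cancel]
  refine core_two hS hV hM hmax hKV (fun m' hm' => ?_) hk2
  have h4 := hc m' hm'
  have h5 := hc (m' * x) (mul_mem hm' hx)
  have e1 : m' * (c * x * c⁻¹ * x⁻¹) * m'⁻¹ = (m' * c * m'⁻¹) * (m' * x * c * (m' * x)⁻¹)⁻¹ := by group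
  rw [e1]
  exact mul_mem h4 (inv_mem h5)

end Step

end Cfsg.Agent.H460.Car
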