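import Cfsg.Agent.H460.Car.TwoB

/-!
# Carter subgroups and groups of Lie type of characteristic two: no proper parabolic (S3852, helper460)
-/

set_option autoImplicit false
set_option linter.unusedSectionVars false
set_option linter.unusedVariables false

namespace Cfsg.Agent.H460.Car

open Subgroup Pointwise
open Cfsg Cfsg.Agent.Solvable.Carter Cfsg.Agent.H18.Carter
open Cfsg.Agent.FixBN (Split HasSplit)
open Cfsg.Agent.SignalizersComponents Cfsg.Agent.Lib
open scoped commutatorElement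

universe u

variable {G : Type u} [Group G] [Finite G] {S K : Subgroup G}
variable {P : BNPair ↥S} {U V : Subgroup ↥S} {J : Set ↥S}

theorem mem_normalizer_iff_coe [S.Normal] {x : ↥S} :
    x ∈ normalizer (V : Set ↥S) ↔ (x : G) ∈ normalizer ((V.map S.subtype : Subgroup G) : Set G) := by
  constructor
  · intro hx
    refine norm_of_act (fun y hy => ?_) fun y hy => ?_
    · have h1 := (mem_normalizer_iff.1 hx y).1 hy
      have e1 : act S (x : G) y = x * y * x⁻¹ := Subtype.ext (by rw [act_coe]; rfl)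
      rwa [e1]
    · have h1 := (mem_normalizer_iff.1 (inv_mem hx) y).1 hy
      have e1 : act S (x : G)⁻¹ y = x⁻¹ * y * x⁻¹⁻¹ := Subtype.ext (by rw [act_coe]; rfl)
      rwa [e1]
  · intro hx
    have key : ∀ g : ↥S, (g : G) ∈ normalizer ((V.map S.subtype : Subgroup G) : Set G) → ∀ y ∈ V, g * y * g⁻¹ ∈ V := by
      intro g hg y hy
      have h1 := act_mem_of_norm hg hy
      have e1 : act S (g : G) y = g * y * g⁻¹ := Subtype.ext (by rw [act_coe]; rfl)
      rwa [e1] at h1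
    rw [mem_normalizer_iff]
    intro y
    constructor
    · exact key x hx y
    · intro hy
      have h1 := key x⁻¹ (inv_mem hx) _ hy
      have e1 : x⁻¹ * (x * y * x⁻¹) * x⁻¹⁻¹ = y := by group
      rwa [e1] at h1

/-- `N_G(V)` contains no `J ≠ ∅` -/
theorem false_of_nonempty (c : AS G S K) (hS : Split P 2 U) (hJ : J ⊆ P.S) (hJ1 : J.Nonempty) (hV : IsPGroup 2 V)
    (hV1 : V ≠ ⊥) (hM : P.parabolic J = normalizer (V : Set ↥S))
    (hKV : K ≤ normalizer ((V.map S.subtype : Subgroup G) : Set G))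
    (hmax : ∀ Y : Subgroup ↥S, IsPGroup 2 Y → V ≤ Y → K ≤ normalizer ((Y.map S.subtype : Subgroup G) : Set G) → Y = V)
    (hFT : FT.{u}) (IH : IHt.{u} (Nat.card G)) : False := by
  have hSn := c.normal
  have hf : Fact (Nat.Prime 2) := ⟨Nat.prime_two⟩
  have hf3 : Fact (Nat.Prime 3) := ⟨Nat.prime_three⟩
  have hBM : P.B ≤ normalizer (V : Set ↥S) := by rw [← hM]; exact le_sup_left
  have hVU : V ≤ U := V_le_U hS hV hBM
  set N : Subgroup G := normalizer ((V.map S.subtype : Subgroup G) : Set G) with hN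
  -- the core
  let C : Subgroup ↥N := (((core P J).map (P.parabolic J).subtype).map S.subtype).subgroupOf N
  have hC : ∀ y : ↥N, y ∈ C ↔ ∃ x : ↥S, (x : G) = y ∧ ∀ m ∈ normalizer (V : Set ↥S), m * x * m⁻¹ ∈ P.B := by
    intro y
    constructor
    · rintro ⟨x, ⟨z, hz, rfl⟩, hx⟩
      exact ⟨z, hx, (mem_core_iff hM).1 hz⟩
    · rintro ⟨x, hx, h⟩
      have hxM : x ∈ P.parabolic J := by
        have := h 1 (one_mem _)
        rw [one_mul, inv_one, mul_one] at this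
        exact (le_sup_left : P.B ≤ _) this
      exact ⟨x, ⟨⟨x, hxM⟩, (mem_core_iff hM).2 h, rfl⟩, hx⟩
  have hCn : C.Normal := by
    refine ⟨fun y hy g => ?_⟩
    obtain ⟨x, hx, h⟩ := (hC y).1 hy
    rw [hC]
    refine ⟨act S g x, ?_, act_core hS hV hM g.2 h⟩
    rw [act_coe, hx]
    rfl
  set π : ↥N →* ↥N ⧸ C := QuotientGroup.mk' C with hπ
  have hπs : Function.Surjective π := QuotientGroup.mk'_surjective C
  have hπ1 : ∀ y : ↥N, π y = 1 ↔ y ∈ C := fun y => QuotientGroup.eq_one_iff y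
  set H : Subgroup (↥N ⧸ C) := (S.subgroupOf N).map π with hH
  have hHn : H.Normal := by
    have : (S.subgroupOf N).Normal := inferInstance
    exact this.map π hπs
  -- `H` has a split (B,N)-pair
  have hsub : ∀ x : ↥(P.parabolic J), ((x : ↥S) : G) ∈ N := fun x => by
    have h1 : (x : ↥S) ∈ normalizer (V : Set ↥S) := by rw [← hM]; exact x.2
    exact mem_normalizer_iff_coe.1 h1
  let f : ↥(P.parabolic J) →* ↥H :=
    { toFun := fun x => ⟨π ⟨((x : ↥S) : G), hsub x⟩, ⟨⟨((x : ↥S) : G), hsub x⟩, (x : ↥S).2, rfl⟩⟩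
      map_one' := Subtype.ext (map_one π)
      map_mul' := fun x y => Subtype.ext (map_mul π ⟨((x : ↥S) : G), hsub x⟩ ⟨((y : ↥S) : G), hsub y⟩) }
  have hf1 : ∀ x, f x = 1 ↔ x ∈ core P J := by
    intro x
    have h1 : f x = 1 ↔ π ⟨((x : ↥S) : G), hsub x⟩ = 1 :=
      ⟨fun h => congrArg Subtype.val h, fun h => Subtype.ext h⟩
    rw [h1, hπ1, hC, mem_core_iff hM]
    constructor
    · rintro ⟨y, hy, h⟩
      have : y = (x : ↥S) := Subtype.ext hy
      rwa [← this]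
    · intro h
      exact ⟨x, rfl, h⟩
  have hfs : Function.Surjective f := by
    rintro ⟨_, n, hn, rfl⟩
    have hnS : (n : G) ∈ S := hn
    have h1 : (⟨n, hnS⟩ : ↥S) ∈ normalizer (V : Set ↥S) := mem_normalizer_iff_coe.2 n.2
    rw [← hM] at h1
    exact ⟨⟨⟨n, hnS⟩, h1⟩, rfl⟩
  have hsplit : HasSplit 2 ↥H := by
    refine Par.hasSplit_quot f hS hJ hJ1 hfs (fun x hx => ?_) fun C0 hC0 hle => ?_
    · exact normalCore_le (P.B.subgroupOf (P.parabolic J)) ((hf1 x).1 hx)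
    · intro x hx
      rw [MonoidHom.mem_ker, hf1]
      exact (normal_le_normalCore.2 hle) hx
  obtain ⟨Pa, d, hG, hI, hopp⟩ := Cfsg.Agent.FixOdd.Inst.gate (p := 2) (r := 3) (by norm_num) hsplit
    (1 : MulAut ↥H) (one_pow 3)
  have htop : fixedSubgroup (1 : MulAut ↥H) = ⊤ := by
    rw [eq_top_iff]
    intro x _
    rfl
  let ι : ↥(fixedSubgroup (1 : MulAut ↥H)) ≃* ↥H := (MulEquiv.subgroupCongr htop).trans topEquiv
  have h2H : 2 ∣ Nat.card ↥(fixedSubgroup (1 : MulAut ↥H)) := by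
    rw [Nat.card_congr ι.toEquiv]
    exact hasSplit_dvd hsplit
  -- the orders
  have hcardN : Nat.card (↥N ⧸ C) < Nat.card G := by
    have h1 := Subgroup.card_eq_card_quotient_mul_card_subgroup C
    have h2 : 1 < Nat.card C := by
      rw [Subgroup.one_lt_card_iff_ne_bot]
      intro h3
      apply hV1
      rw [eq_bot_iff]
      intro v hv
      have h4 : (v : G) ∈ N := mem_normalizer_iff_coe.1 (hBM (hS.le (hVU hv)))
      have h5 : (⟨v, h4⟩ : ↥N) ∈ C := (hC _).2 ⟨v, rfl, fun m hm => hS.le (hVU ((mem_normalizer_iff.1 hm v).1 hv))⟩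
      rw [h3, mem_bot] at h5
      rw [mem_bot]
      exact Subtype.ext (congrArg (fun z : ↥N => (z : G)) h5)
    have h3 : Nat.card ↥N ≤ Nat.card G := Subgroup.card_le_card_group N
    have h4 : 0 < Nat.card (↥N ⧸ C) := Nat.card_pos
    nlinarith
  have hKbar : IsCarter ((K.subgroupOf N).map π) := by
    refine IsCarter.map hπs (fun L hL => ?_) (c.carter.subgroupOf hKV)
    refine c.min _ ?_
    exact (Cfsg.Agent.Lib.SolvableNormalP.card_lt_of_ne_top hL).trans_le (Subgroup.card_le_card_group N)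
  obtain ⟨Y, hYH, hY1, hYp, hKY⟩ := exists_two' (Γ := ↥N ⧸ C) (H := H) hG hI hopp ι hKbar
    (fun B _ _ hB => c.min B (hB.trans_lt hcardN)) hFT
    (fun B _ _ T R hB hAS hE => IH B T R (hB.trans_lt hcardN) hAS hE) h2H
  set Y' : Subgroup ↥N := Y.comap π with hY'
  have hCY : C ≤ Y' := by
    intro y hy
    rw [hY', mem_comap, (hπ1 y).2 hy]
    exact one_mem _
  have hYS : ∀ y ∈ Y', (y : G) ∈ S := by
    intro y hy
    obtain ⟨s, hs, hsy⟩ := hYH (show π y ∈ Y from hy)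
    have h1 : s⁻¹ * y ∈ C := by
      rw [← hπ1, map_mul, map_inv, hsy, inv_mul_cancel]
    obtain ⟨x, hx, -⟩ := (hC _).1 h1
    have h2 : ((s : ↥N) : G) * (x : G) = y := by
      rw [hx, Subgroup.coe_mul, Subgroup.coe_inv]
      group
    rw [← h2]
    exact mul_mem hs x.2
  -- a `2`-element of `Y'` outside `C`
  obtain ⟨w, hwY, hwC, n, hwn⟩ : ∃ w ∈ Y', w ∉ C ∧ ∃ n, w ^ 2 ^ n = 1 := by
    obtain ⟨y, hy, hy1⟩ := Y.bot_or_exists_ne_one.resolve_left hY1
    obtain ⟨n0, rfl⟩ := hπs y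
    obtain ⟨k, hk⟩ := hYp ⟨_, hy⟩
    have hk' : (π n0) ^ 2 ^ k = 1 := congrArg Subtype.val hk
    obtain ⟨a, m, hm, ho⟩ := Nat.exists_eq_two_pow_mul_odd (n := orderOf n0) (orderOf_pos n0).ne'
    refine ⟨n0 ^ m, ?_, ?_, a, ?_⟩
    · rw [hY', mem_comap, map_pow]
      exact pow_mem hy m
    · intro h
      rw [← hπ1, map_pow] at h
      apply hy1
      have h1 : orderOf (π n0) ∣ 2 ^ k := orderOf_dvd_of_pow_eq_one hk'
      have h2 : orderOf (π n0) ∣ m := orderOf_dvd_of_pow_eq_one h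
      have h3 : Nat.Coprime (2 ^ k) m := Nat.Coprime.pow_left k (Nat.coprime_two_left.2 hm)
      exact orderOf_eq_one_iff.1 (Nat.eq_one_of_dvd_coprimes h3 h1 h2)
    · rw [← pow_mul, mul_comm, ← ho, pow_orderOf_eq_one]
  have hwp : IsPGroup 2 (zpowers (⟨w, hwY⟩ : ↥Y')) := by
    refine IsPGroup.of_card_dvd_pow (n := n) ?_
    rw [Nat.card_zpowers]
    exact orderOf_dvd_of_pow_eq_one (Subtype.ext hwn)
  obtain ⟨a, ha⟩ := hwp.exists_le_sylow
  -- `V ≤ a`
  have hVN : ∀ v ∈ V, (v : G) ∈ N := fun v hv => mem_normalizer_iff_coe.1 (hBM (hS.le (hVU hv)))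
  have hVC : ∀ v (hv : v ∈ V), (⟨v, hVN v hv⟩ : ↥N) ∈ C := fun v hv =>
    (hC _).2 ⟨v, rfl, fun m hm => hS.le (hVU ((mem_normalizer_iff.1 hm v).1 hv))⟩
  let V' : Subgroup ↥Y' := ((V.map S.subtype).subgroupOf N).subgroupOf Y'
  have hV'n : V'.Normal := by
    refine ⟨fun v hv g => ?_⟩
    have hv' : (((v : ↥Y') : ↥N) : G) ∈ V.map S.subtype := hv
    exact (mem_normalizer_iff.1 (g : ↥N).2 _).1 hv'
  have hV'p : IsPGroup 2 V' := ((hV.map S.subtype).comap_of_injective _ N.subtype_injective).comap_of_injective _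
    Y'.subtype_injective
  have hV'a : V' ≤ a := IsPGroup.le_sylow_of_normal hV'p a
  -- `C` normalises `a`
  have hcomm : ∀ c' : ↥Y', (c' : ↥N) ∈ C → ∀ x ∈ a, c' * x * c'⁻¹ ∈ a := by
    intro c' hc' x hx
    obtain ⟨c0, hc0, hc0B⟩ := (hC _).1 hc'
    have hxS : ((x : ↥N) : G) ∈ S := hYS _ x.2
    obtain ⟨k, hk⟩ := a.isPGroup' ⟨x, hx⟩
    have hk1 : x ^ 2 ^ k = 1 := congrArg Subtype.val hk
    have hk2 : (⟨((x : ↥N) : G), hxS⟩ : ↥S) ^ 2 ^ k = 1 := by
      apply Subtype.ext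
      have h1 := congrArg (fun z : ↥Y' => ((z : ↥N) : G)) hk1
      exact h1
    have hxM : (⟨((x : ↥N) : G), hxS⟩ : ↥S) ∈ normalizer (V : Set ↥S) := mem_normalizer_iff_coe.2 (x : ↥N).2
    have h1 := core_comm hS hV hM hmax hKV hc0B hxM hk2
    have h2 : c' * x * c'⁻¹ * x⁻¹ ∈ V' := by
      refine ⟨_, h1, ?_⟩
      show ((c0 : G) * ((x : ↥N) : G) * (c0 : G)⁻¹ * ((x : ↥N) : G)⁻¹) = _
      rw [hc0]
      rfl
    have h3 := mul_mem (hV'a h2) hx
    rwa [inv_mul_cancel_right] at h3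
  have hCa : C.subgroupOf Y' ≤ normalizer ((a : Subgroup ↥Y') : Set ↥Y') := by
    intro c' hc'
    rw [mem_normalizer_iff]
    intro x
    constructor
    · exact hcomm c' hc' x
    · intro hx
      have h1 := hcomm c'⁻¹ (inv_mem hc') _ hx
      have e1 : c'⁻¹ * (c' * x * c'⁻¹) * c'⁻¹⁻¹ = x := by group
      rwa [e1] at h1
  have han : (a : Subgroup ↥Y').Normal := by
    rw [← normalizer_eq_top_iff, ← Subgroup.index_eq_one]
    have hCYn : (C.subgroupOf Y').Normal := inferInstance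
    have hq : IsPGroup 2 (↥Y' ⧸ C.subgroupOf Y') := by
      intro z
      obtain ⟨y, rfl⟩ := QuotientGroup.mk_surjective z
      obtain ⟨k, hk⟩ := hYp ⟨π y, y.2⟩
      refine ⟨k, ?_⟩
      rw [← QuotientGroup.mk_pow, QuotientGroup.eq_one_iff, mem_subgroupOf, ← hπ1, Subgroup.coe_pow, map_pow]
      exact congrArg Subtype.val hk
    obtain ⟨k, hk⟩ := IsPGroup.iff_card.1 hq
    have h1 : (normalizer ((a : Subgroup ↥Y') : Set ↥Y')).index ∣ 2 ^ k := by
      rw [← hk, ← Subgroup.index_eq_card]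
      exact Subgroup.index_dvd_of_le hCa
    have h2 : (normalizer ((a : Subgroup ↥Y') : Set ↥Y')).index ∣ (a : Subgroup ↥Y').index := Subgroup.index_dvd_of_le le_normalizer
    have h3 : Nat.Coprime (2 ^ k) (a : Subgroup ↥Y').index :=
      Nat.Coprime.pow_left k ((Nat.Prime.coprime_iff_not_dvd Nat.prime_two).2 a.not_dvd_index)
    exact Nat.eq_one_of_dvd_coprimes h3 h1 h2
  have hac := a.characteristic_of_normal han
  -- the new `K`-invariant subgroup
  let A : Subgroup ↥N := (a : Subgroup ↥Y').map Y'.subtype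
  have hKA : K.subgroupOf N ≤ normalizer (A : Set ↥N) := by
    have h1 : K.subgroupOf N ≤ normalizer (Y' : Set ↥N) := by
      intro k hk
      have h2 : π k ∈ normalizer (Y : Set (↥N ⧸ C)) := hKY ⟨k, hk, rfl⟩
      rw [mem_normalizer_iff] at h2 ⊢
      intro y
      have h3 := h2 (π y)
      rw [← map_mul, ← map_inv, ← map_mul] at h3
      exact h3
    exact h1.trans (MinCounterBasic.normalizer_le_normalizer_map _ hac)
  let Y1 : Subgroup ↥S := (A.map N.subtype).subgroupOf S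
  have hAS' : A.map N.subtype ≤ S := by
    rintro _ ⟨_, ⟨y, -, rfl⟩, rfl⟩
    exact hYS y y.2
  have hY1m : Y1.map S.subtype = A.map N.subtype := map_subgroupOf_eq_of_le hAS'
  have h1 := hmax Y1 (((a.isPGroup'.map _).map _).comap_of_injective _ S.subtype_injective) ?_ ?_
  · apply hwC
    have h2 : (w : G) ∈ Y1.map S.subtype := by
      rw [hY1m]
      exact ⟨w, ⟨⟨w, hwY⟩, ha (mem_zpowers _), rfl⟩, rfl⟩
    rw [h1] at h2
    obtain ⟨v, hv, hvw⟩ := h2
    have h3 := hVC v hv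
    have h4 : (⟨v, hVN v hv⟩ : ↥N) = w := Subtype.ext hvw
    rwa [h4] at h3
  · intro v hv
    show (v : G) ∈ A.map N.subtype
    have h2 := hVC v hv
    refine ⟨⟨v, hVN v hv⟩, ⟨⟨⟨v, hVN v hv⟩, hCY h2⟩, hV'a ?_, rfl⟩, rfl⟩
    exact ⟨v, hv, rfl⟩
  · rw [hY1m]
    intro k hk
    have h2 : (⟨k, hKV hk⟩ : ↥N) ∈ normalizer (A : Set ↥N) := hKA hk
    rw [mem_normalizer_iff] at h2 ⊢
    intro g
    constructor
    · rintro ⟨y, hy, rfl⟩
      exact ⟨_, (h2 y).1 hy, rfl⟩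
    · rintro ⟨y, hy, hyg⟩
      refine ⟨(⟨k, hKV hk⟩ : ↥N)⁻¹ * y * ⟨k, hKV hk⟩, ?_, ?_⟩
      · show _ ∈ A
        rw [h2]
        have e1 : (⟨k, hKV hk⟩ : ↥N) * ((⟨k, hKV hk⟩ : ↥N)⁻¹ * y * ⟨k, hKV hk⟩) * (⟨k, hKV hk⟩ : ↥N)⁻¹ = y := by group
        rw [e1]
        exact hy
      · show k⁻¹ * (y : G) * k = g
        have h3 : (y : G) = k * g * k⁻¹ := hyg
        rw [h3]
        group

end Cfsg.Agent.H460.Car
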