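import Cfsg.Agent.H460.Car.TwoC

/-!
# Carter subgroups and groups of Lie type of characteristic two: theorem [U] (S3852, helper460)

* `nrm_of_two` : if `K` normalises a `2`-subgroup `≠ 1` of `S` then `K` normalises a Sylow `2`-subgroup of `S`;
* `nrm_of_cen` : the same if `|C_S(z)|` is even for some `z ∈ Z(K) ∩ S` of odd prime order.
-/

set_option autoImplicit false
set_option linter.unusedSectionVars false
set_option linter.unusedVariables false

namespace Cfsg.Agent.H460.Car

open Subgroup Pointwise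
open Cfsg Cfsg.Agent.Solvable.Carter Cfsg.Agent.H18.Carter
open Cfsg.Agent.FixBN (Split HasSplit)
open Cfsg.Agent.SignalizersComponents Cfsg.Agent.Lib
open Cfsg.Agent.KFacts.RgdFilt (HasFilt)
open scoped commutatorElement

universe u

variable {G : Type u} [Group G] [Finite G] {S K : Subgroup G}

theorem AS.conj (c : AS G S K) (g : G) : AS G S (MulAut.conj g • K) := by
  have := c.normal
  refine ⟨c.normal, c.simple, c.na, c.cen, c.min, c.carter.conj g, ?_⟩
  have h1 : MulAut.conj g • (K ⊔ S) = ⊤ := by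
    rw [c.prod, conj_smul_eq_map, map_top_of_surjective _ (MulAut.conj g).surjective]
  rw [Subgroup.smul_sup] at h1
  rwa [cj_eq_self_iff.2 (show g ∈ normalizer (S : Set G) by rw [normalizer_eq_top_iff.2 c.normal]; trivial)] at h1

/-- **[U], first form.** -/
theorem nrm_of_two (c : AS G S K) (hF : HasFilt 2 ↥S) (hFT : FT.{u}) (IH : IHt.{u} (Nat.card G))
    (hY : ∃ Y : Subgroup G, Y ≤ S ∧ Y ≠ ⊥ ∧ IsPGroup 2 Y ∧ K ≤ normalizer (Y : Set G)) : Nrm 2 K S := by
  have hSn := c.normal
  have hSs := c.simple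
  have hf : Fact (Nat.Prime 2) := ⟨Nat.prime_two⟩
  have hna : ∃ a b : ↥S, a * b ≠ b * a := by
    have := c.na
    push Not at this
    exact this
  obtain ⟨R, hR⟩ := (Set.toFinite {Y : Subgroup G | Y ≤ S ∧ Y ≠ ⊥ ∧ IsPGroup 2 Y ∧ K ≤ normalizer (Y : Set G)}).exists_maximal
    hY
  obtain ⟨hRS, hR1, hRp, hKR⟩ := hR.prop
  have hRmax : ∀ Y : Subgroup G, Y ≤ S → IsPGroup 2 Y → K ≤ normalizer (Y : Set G) → R ≤ Y → Y = R := by
    intro Y h1 h2 h3 h4
    refine le_antisymm (hR.le_of_ge ⟨h1, ?_, h2, h3⟩ h4) h4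
    rintro rfl
    exact hR1 (le_bot_iff.1 h4)
  set R0 : Subgroup ↥S := R.subgroupOf S with hR0
  have hRm : R0.map S.subtype = R := map_subgroupOf_eq_of_le hRS
  have hR0p : IsPGroup 2 R0 := hRp.comap_of_injective _ S.subtype_injective
  have hR01 : R0 ≠ ⊥ := by
    intro h
    apply hR1
    rw [← hRm, h, Subgroup.map_bot]
  obtain ⟨P, U, hne, hS, hbt⟩ := exists_bt hF hna
  obtain ⟨g, V, hV, hBV, hRV, hNV⟩ := hbt R0 hR0p hR01
  -- `R0 = V^g`
  have hVg : R0 = MulAut.conj g • V := by
    by_contra hne'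
    have hVgp : IsPGroup 2 ↥(MulAut.conj g • V : Subgroup ↥S) := by
      rw [conj_smul_eq_map]
      exact hV.map _
    obtain ⟨x, hx, hxR, hxN⟩ := exists_normalizing hVgp (lt_of_le_of_ne hRV hne')
    set NG : Subgroup G := (normalizer (R0 : Set ↥S)).map S.subtype with hNG
    have hNGS : NG ≤ S := by
      rintro _ ⟨y, -, rfl⟩
      exact y.2
    have hKR' : K ≤ normalizer ((R0.map S.subtype : Subgroup G) : Set G) := by rw [hRm]; exact hKR
    have hKNG : K ≤ normalizer (NG : Set G) := fun k hk =>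
      norm_of_act (fun y hy => act_mem_normalizer (hKR' hk) hy) fun y hy => act_mem_normalizer (inv_mem (hKR' hk)) hy
    let O : Subgroup G := (pCore 2 ↥NG).map NG.subtype
    have hOS : O ≤ S := by
      rintro _ ⟨y, -, rfl⟩
      exact hNGS y.2
    have hOp : IsPGroup 2 O := (Cores.pCore_isPGroup 2).map _
    have hKO : K ≤ normalizer (O : Set G) :=
      hKNG.trans (MinCounterBasic.normalizer_le_normalizer_map _ (Cores.pCore_characteristic 2))
    have key : ∀ A : Subgroup ↥S, IsPGroup 2 A → (∀ n ∈ normalizer (R0 : Set ↥S), ∀ y ∈ A, n * y * n⁻¹ ∈ A) →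
        ∀ y ∈ A, y ∈ normalizer (R0 : Set ↥S) → (y : G) ∈ O := by
      intro A hA hn y hy hyN
      let A' : Subgroup ↥NG := (A.map S.subtype).subgroupOf NG
      have h1 : A'.Normal := by
        refine ⟨fun z hz n => ?_⟩
        obtain ⟨n0, hn0, hnn⟩ := n.2
        obtain ⟨z0, hz0, hzz⟩ := hz
        refine ⟨n0 * z0 * n0⁻¹, hn n0 hn0 z0 hz0, ?_⟩
        rw [map_mul, map_mul, map_inv, hnn, hzz]
        rfl
      have h2 : IsPGroup 2 A' := (hA.map _).comap_of_injective _ NG.subtype_injective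
      have h3 : A' ≤ pCore 2 ↥NG := Cores.le_pCore h1 h2
      exact ⟨⟨y, y, hyN, rfl⟩, h3 ⟨y, hy, rfl⟩, rfl⟩
    have hRO : R ≤ O := by
      rw [← hRm]
      rintro _ ⟨y, hy, rfl⟩
      exact key R0 hR0p (fun n hn y hy => (mem_normalizer_iff.1 hn y).1 hy) y hy (le_normalizer hy)
    have hOR := hRmax O hOS hOp hKO hRO
    apply hxR
    show (x : G) ∈ R
    rw [← hOR]
    refine key _ hVgp (fun n hn y hy => ?_) x hx hxN
    have h1 : n ∈ normalizer ((MulAut.conj g • V : Subgroup ↥S) : Set ↥S) := by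
      rw [← cj_normalizer]
      exact hNV hn
    exact (mem_normalizer_iff.1 h1 y).1 hy
  -- conjugate
  have hgK : ∀ A : Subgroup ↥S, (MulAut.conj g • A : Subgroup ↥S).map S.subtype = MulAut.conj (g : G) • (A.map S.subtype) :=
    fun A => (cj_map S.subtype g A).symm
  set K' : Subgroup G := MulAut.conj (g : G)⁻¹ • K with hK'
  have hKK' : MulAut.conj (g : G) • K' = K := by rw [hK', cj_cj, mul_inv_cancel, cj_one]
  have c' : AS G S K' := c.conj _
  have hnorm : ∀ A : Subgroup G, K' ≤ normalizer (A : Set G) ↔ K ≤ normalizer ((MulAut.conj (g : G) • A : Subgroup G) : Set G) := by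
    intro A
    rw [← cj_normalizer, ← hKK', Subgroup.pointwise_smul_le_pointwise_smul_iff]
  have hKV : K' ≤ normalizer ((V.map S.subtype : Subgroup G) : Set G) := by
    rw [hnorm, ← hgK, ← hVg, hRm]
    exact hKR
  have hV1 : V ≠ ⊥ := by
    rintro rfl
    apply hR01
    rw [hVg, conj_smul_eq_map, Subgroup.map_bot]
  have hmax : ∀ Y : Subgroup ↥S, IsPGroup 2 Y → V ≤ Y → K' ≤ normalizer ((Y.map S.subtype : Subgroup G) : Set G) →
      Y = V := by
    intro Y hYp hVY hKY
    have h1 : (MulAut.conj g • Y : Subgroup ↥S).map S.subtype = R := by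
      refine hRmax _ ?_ ?_ ?_ ?_
      · rintro _ ⟨y, -, rfl⟩
        exact y.2
      · rw [conj_smul_eq_map]
        exact (hYp.map _).map _
      · rw [hgK, ← hnorm]
        exact hKY
      · rw [← hRm, hVg]
        exact Subgroup.map_mono (Subgroup.pointwise_smul_le_pointwise_smul_iff.2 hVY)
    have h2 : (MulAut.conj g • Y : Subgroup ↥S) = MulAut.conj g • V := by
      rw [← hVg]
      apply Subgroup.map_injective S.subtype_injective
      rw [h1, hRm]
    have h3 := congrArg (fun A : Subgroup ↥S => MulAut.conj g⁻¹ • A) h2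
    simp only [cj_cj, inv_mul_cancel, cj_one] at h3
    exact h3
  obtain ⟨J, hJ, hM⟩ := Cfsg.Agent.S0311.result P (normalizer (V : Set ↥S)) hBV
  rcases J.eq_empty_or_nonempty with rfl | hJ1
  · -- the Borel case
    have hB : normalizer (V : Set ↥S) = P.B := by
      rw [hM]
      show P.B ⊔ closure ∅ = P.B
      rw [Subgroup.closure_empty, sup_bot_eq]
    have hVU := V_le_U hS hV hBV
    have hUV : U = V := by
      refine hmax U hS.isP hVU ?_
      have key : ∀ k ∈ K', ∀ y ∈ U, act S k y ∈ U := by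
        intro k hk y hy
        have h1 := act_mem_normalizer (hKV hk) (show y ∈ normalizer (V : Set ↥S) by rw [hB]; exact hS.le hy)
        rw [hB] at h1
        obtain ⟨n, hn⟩ := hS.isP ⟨y, hy⟩
        have hn' : y ^ 2 ^ n = 1 := congrArg Subtype.val hn
        exact hS.mem_of_pow (n := n) h1 (by rw [← map_pow, hn', map_one])
      exact fun k hk => norm_of_act (key k hk) (key k⁻¹ (inv_mem hk))
    let u : Sylow 2 ↥S :=
      { U with
        isPGroup' := hS.isP
        is_maximal' := fun {Q} hQ hle => U_max hS hQ hle }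
    have hu : (u : Subgroup ↥S) = V := hUV
    refine ⟨R, hRS, hRp, ?_, hKR⟩
    have h1 : ((g • u : Sylow 2 ↥S) : Subgroup ↥S) = R0 := by
      rw [Sylow.coe_subgroup_smul, hu, hVg]
    have h2 := (g • u : Sylow 2 ↥S).not_dvd_index
    rw [h1] at h2
    exact h2
  · exact absurd (false_of_nonempty c' hS hJ hJ1 hV hV1 hM.symm hKV hmax hFT IH) not_false

end Cfsg.Agent.H460.Car
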